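import Cfsg.Agent.H49.BN2Kit

/-! Piece N3 of the rank two theorem: projective planes. -/

set_option autoImplicit false

namespace Cfsg.Agent.H12.BnN3

open Cfsg.Agent.H49.BN2 Cfsg.Agent.H49.BN2.Sys

universe u

variable {p : ℕ} {X G : Type u} [Group G] [MulAction G X] {S : Sys 3 p X G}

theorem meet {x y : X} (h : S.d x y = 2) : ∃ w, S.d x w = 1 ∧ S.d y w = 1 := by
  obtain ⟨w, h1, h2⟩ := back (k := 1) h
  exact ⟨w, h2, h1⟩

theorem muniq {x y w w' : X} (h : x ≠ y) (h1 : S.d x w = 1) (h2 : S.d y w = 1)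
    (h3 : S.d x w' = 1) (h4 : S.d y w' = 1) : w = w' :=
  back_uniq (k := 1) (by omega) (two (sy h1) (sy h2) h) h2 h4 h1 h3

theorem odd3 {x y z : X} (h : S.d x y = 2) (h1 : S.d y z = 1) (h2 : S.d x z ≠ 1) :
    S.d x z = 3 := by
  have := S.step y z x h1
  rw [S.d_symm z x, S.d_symm y x] at this
  omega

theorem opp2 {x y l : X} (h : S.d x y = 3) (h1 : S.d y l = 1) : S.d x l = 2 := by
  have := opp_nb h h1
  omega

/-- An element of the centre of `V x3 x2` that moves `x0` to `y`. -/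
theorem key (b2 : S.Bas) (zt : S.Zt) (t1 : S.T1) {x0 x1 x2 x3 x4 x5 y : X}
    (h01 : S.d x0 x1 = 1) (h12 : S.d x1 x2 = 1) (h23 : S.d x2 x3 = 1) (h34 : S.d x3 x4 = 1)
    (h45 : S.d x4 x5 = 1) (h50 : S.d x5 x0 = 1) (h03 : S.d x0 x3 = 3) (h14 : S.d x1 x4 = 3)
    (h25 : S.d x2 x5 = 3) (hy : S.d x1 y = 1) (y0 : y ≠ x0) (y2 : y ≠ x2) :
    ∃ a ∈ S.Z x3 x2, a • x0 = y := by
  have n02 : x0 ≠ x2 := fun e => by rw [e] at h03; omega
  have n13 : x1 ≠ x3 := fun e => by rw [e] at h14; omega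
  have n24 : x2 ≠ x4 := fun e => by rw [e] at h25; omega
  have n35 : x3 ≠ x5 := fun e => by rw [← e, S.d_symm] at h50; omega
  have n40 : x4 ≠ x0 := fun e => by rw [e, S.d_symm] at h14; omega
  have n51 : x5 ≠ x1 := fun e => by rw [e, S.d_symm] at h25; omega
  obtain ⟨a, ha, a1⟩ := b2.Z_ne x1 x2 h12
  have f1 : a ∈ S.fixB 1 x1 := (zt x1 x2 h12 ha).2
  have f2 : a ∈ S.fixB 1 x2 := (zt x2 x1 (sy h12) (b2.Z_symm x1 x2 ▸ ha)).2
  have a0 : a • x0 = x0 := f1 _ (sy h01).le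
  have ax1 : a • x1 = x1 := fix_self f1
  have ax2 : a • x2 = x2 := fix_self f2
  have a3 : a • x3 = x3 := f2 _ h23.le
  set m := a • x5 with hm
  have m5 : m ≠ x5 := fun e => by
    have a4 : a • x4 = x4 := b2.geo_fix a x3 x5 x4 a3 e
      (by rw [two (sy h34) h45 n35]; omega) (by rw [two (sy h34) h45 n35, h34, h45])
    exact a1 (b2.rig a x1 x2 x4 x5 x1 x2 ⟨h12, h45, h14, h25⟩ ax1 ax2 a4 e h12 f1 f2)
  have hm0 : S.d x0 m = 1 := by rw [hm, d_left a a0, sy h50]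
  have m1 : m ≠ x1 := fun e => n51 (by
    rw [hm, ← ax1, smul_left_cancel_iff] at e; exact e)
  obtain ⟨s, hs4, hsy⟩ := meet (opp2 (sy h14) hy)
  have s1 : s ≠ x1 := fun e => by rw [e, S.d_symm] at hs4; omega
  have s3 : s ≠ x3 := fun e => y2 (muniq n13 hy (e ▸ sy hsy) h12 (sy h23))
  have d0s : S.d x0 s = 3 := odd3 (two (sy h01) hy y0.symm) hsy fun e =>
    s1 (muniq y0.symm e hsy h01 (sy hy))
  obtain ⟨r, hrs, hrm⟩ := meet (opp2 (sy d0s) hm0)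
  have r0 : r ≠ x0 := fun e => by rw [e, S.d_symm] at hrs; omega
  have d2m : S.d x2 m = 3 := odd3 (two h12 (sy h01) n02.symm) hm0 fun e =>
    m1 (muniq n02 hm0 e h01 (sy h12))
  obtain ⟨w, hw2, hwr⟩ := meet (opp2 d2m hrm)
  have w1 : w ≠ x1 := fun e => r0 (muniq m1 hrm (e ▸ sy hwr) (sy hm0) (sy h01))
  have w3 : w ≠ x3 := fun e => by
    have e1 : r = x4 := muniq s3 hrs (e ▸ sy hwr) (sy hs4) h34
    exact m5 (muniq n40 (e1 ▸ sy hrm) hm0 h45 (sy h50))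
  obtain ⟨t, ht5, htw⟩ := meet (opp2 (sy h25) hw2)
  have aw : a • w = w := f2 _ hw2.le
  have wm : w ≠ m := fun e => by rw [e] at hw2; omega
  have at' : a • t = r := muniq wm (by rw [d_left a aw, htw]) (by rw [hm, S.d_smul, ht5])
    (sy hwr) hrm
  obtain ⟨b, hb, bw⟩ := t1 x3 x4 x2 w x1 1 h34 (sy h23) n24 (by omega)
    (two h23 hw2 w3.symm) hw2 (two h23 (sy h12) n13.symm) (sy h12)
  have b2' : b • x2 = x2 := hb.1.2 _ (sy h23).le
  have b3 : b • x3 = x3 := fix_self hb.1.2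
  have b5 : b • x5 = x5 := hb.2.2 _ h45.le
  have bs : b • s = s := hb.2.2 _ hs4.le
  have bt : b • t = x0 := muniq n51 (by rw [d_left b b5, ht5]) (by rw [d_left b bw, htw])
    h50 (sy h01)
  have br : b • r = y := muniq s1 (by rw [d_left b bs, hrs]) (by rw [d_left b bw, sy hwr])
    (sy hsy) hy
  have b1 : b • x1 ≠ x1 := fun e => w1 (by rw [← e, smul_left_cancel_iff] at bw; exact bw)
  have hb1 : S.d x2 (b • x1) = 1 := by rw [d_left b b2', sy h12]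
  obtain ⟨c, hc, cb⟩ := t2 t1 (k := 1) h12 (by omega) (two (sy h12) hb1 b1.symm) hb1
    (two (sy h12) h23 n13) h23
  have c2 : c • x2 = x2 := hc.2 _ h12.le
  have c0 : c • x0 = x0 := hc.2 _ (sy h01).le
  have cy : c • y = y := hc.2 _ hy.le
  have h1 := b2.Z_conj x1 x2 (c * b) h12 a ha
  rw [mul_smul, mul_smul, cb, b2', c2] at h1
  refine ⟨_, h1, ?_⟩
  have e1 : (c * b)⁻¹ • x0 = t := by rw [inv_smul_eq_iff, mul_smul, bt, c0]
  rw [mul_smul, mul_smul, e1, at', mul_smul, br, cy]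

theorem full (b2 : S.Bas) (zt : S.Zt) (t1 : S.T1) {x0 x1 x2 x3 x4 x5 : X}
    (h01 : S.d x0 x1 = 1) (h12 : S.d x1 x2 = 1) (h23 : S.d x2 x3 = 1) (h34 : S.d x3 x4 = 1)
    (h45 : S.d x4 x5 = 1) (h50 : S.d x5 x0 = 1) (h03 : S.d x0 x3 = 3) (h14 : S.d x1 x4 = 3)
    (h25 : S.d x2 x5 = 3) {g : G} (hg : g ∈ S.V x3 x2) (g0 : g • x0 = x0) (g1 : g • x1 = x1) :
    g ∈ S.fixB 1 x1 := fix1 g1 fun y hy => by
  by_cases y0 : y = x0
  · rw [y0, g0]
  by_cases y2 : y = x2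
  · rw [y2, V_fix' (sy h23) hg]
  obtain ⟨a, ha, e⟩ := key b2 zt t1 h01 h12 h23 h34 h45 h50 h03 h14 h25 hy y0 y2
  rw [← e, comm_smul (Z_cent ha hg) g0]

theorem n3Stmt : N3Stmt.{u} := by
  intro n p X G _ _ _ _ S _ _ b2 hn zt t1
  subst hn
  rintro x0 x1 x3 x4 ⟨h01, h34, h03, h14⟩ g hg g3 g4
  have g0 := S.V_fix x0 x1 h01 g hg
  have g1 := V_fix' h01 hg
  have d13 : S.d x1 x3 = 2 := opp2 h14 (sy h34)
  have d04 : S.d x0 x4 = 2 := opp2 h03 h34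
  obtain ⟨x2, h12, h32⟩ := meet d13
  obtain ⟨x5, h05, h45⟩ := meet d04
  have h25 : S.d x2 x5 = 3 := by
    have n02 : x2 ≠ x0 := fun e => by rw [e, S.d_symm] at h32; omega
    refine odd3 (two h12 (sy h01) n02) h05 fun e => ?_
    have := muniq n02 e h05 (sy h12) h01
    rw [this, S.d_symm] at h45
    omega
  have g2 : g • x2 = x2 := b2.geo_fix g x1 x3 x2 g1 g3 (by omega) (by rw [h12, sy h32, d13])
  refine b2.rig g x0 x1 x3 x4 x1 x2 ⟨h01, h34, h03, h14⟩ g0 g1 g3 g4 h12 ?_ ?_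
  · exact full b2 zt t1 h01 h12 (sy h32) h34 h45 (sy h05) h03 h14 h25
      (b2.uni x0 x1 x3 x2 h01 h32 g hg g3 g2) g0 g1
  · exact full b2 zt t1 h12 (sy h32) h34 h45 (sy h05) h01 h14 h25 (sy h03)
      (b2.uni x0 x1 x4 x3 h01 (sy h34) g hg g4 g3) g1 g2

end Cfsg.Agent.H12.BnN3
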