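import Cfsg.Agent.H99.C1Defs

/-! Rigidity of the automorphisms of `E1`, `E2`, `E4` that are trivial on `J`. -/

set_option autoImplicit false

namespace Cfsg.Agent.H12.C1Rh

open Cfsg.Agent.H97 Cfsg.Agent.H96.VB Cfsg.Agent.H96.CP Cfsg.Agent.H99.C1 Subgroup

theorem cent_J {g : G} (h : ∀ j ∈ J, g * j = j * g) : g ∈ J := by
  have h1 := h (xt 1) ⟨rfl, rfl, rfl⟩
  have h2 := h (xw 1) ⟨rfl, rfl, rfl⟩
  have a1 := congrArg G.v h1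
  have a2 := congrArg G.x h1
  have a3 := congrArg G.y h2
  simp [xt, xw] at a1 a2 a3
  exact ⟨a3, a1, a2⟩

theorem coords {N : Subgroup G} (δ : MulAut N) (hJ : J ≤ N) (h : ∀ g ∈ J, ext δ g = g) {g : G}
    (hg : g ∈ N) : (ext δ g).a = g.a ∧ (ext δ g).b = g.b ∧ (ext δ g).c = g.c := by
  have h1 : g⁻¹ * ext δ g ∈ J := cent_J fun j hj => by
    have e := h _ (nJ.conj_mem j hj g)
    rw [ext_map_mul δ (mul_mem hg (hJ hj)) (inv_mem hg), ext_map_mul δ hg (hJ hj),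
      ext_map_inv δ hg, h j hj] at e
    calc g⁻¹ * ext δ g * j = g⁻¹ * (ext δ g * j * (ext δ g)⁻¹) * ext δ g := by group
      _ = j * (g⁻¹ * ext δ g) := by rw [e]; group
  obtain ⟨e1, e2, e3⟩ := h1
  simp only [G.mul_a, G.mul_b, G.mul_c, G.inv_a, G.inv_b, G.inv_c] at e1 e2 e3
  refine ⟨by linear_combination e1, by linear_combination e2, ?_⟩
  linear_combination e3 + g.a * e2

/-- the elements on which `δ` is conjugation by `j` -/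
def eqs {N : Subgroup G} (δ : MulAut N) (j : G) : Subgroup G where
  carrier := {g | g ∈ N ∧ ext δ g = j * g * j⁻¹}
  one_mem' := ⟨one_mem _, by rw [ext_map_one]; group⟩
  mul_mem' := fun {a b} ha hb => ⟨mul_mem ha.1 hb.1, by
    rw [ext_map_mul δ ha.1 hb.1, ha.2, hb.2]; group⟩
  inv_mem' := fun {a} ha => ⟨inv_mem ha.1, by rw [ext_map_inv δ ha.1, ha.2]; group⟩

theorem J_le {N : Subgroup G} (δ : MulAut N) (hJ : J ≤ N) (h : ∀ g ∈ J, ext δ g = g) {j : G}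
    (hj : j ∈ J) : J ≤ eqs δ j := fun g hg =>
  ⟨hJ hg, by rw [h g hg, J_comm hj hg, mul_inv_cancel_right]⟩

theorem k3 (k : K) : k = 0 ∨ k = 1 ∨ k = 2 := by revert k; decide

theorem le_of_gen (M : Subgroup G) (f : K → G) (h0 : f 0 = 1) (h1 : f 1 ∈ M)
    (h2 : f 2 = f 1 * f 1) (k : K) : f k ∈ M := by
  rcases k3 k with rfl | rfl | rfl
  exacts [h0 ▸ one_mem M, h1, h2 ▸ mul_mem h1 h1]

theorem cube {N : Subgroup G} (δ : MulAut N) {g : G} (hg : g ∈ N) (h : g * g * g = 1) :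
    ext δ g * ext δ g * ext δ g = 1 := by
  rw [← ext_map_mul δ hg hg, ← ext_map_mul δ (mul_mem hg hg) hg, h, ext_map_one]

/-- the regular element -/
def rr (k : K) : G := ⟨k, k, 2 * k * k, 0, 0, 0, 0, 0, 0⟩

theorem lin1 (B C j j' : G) (b : B.a = 0 ∧ B.b = 1 ∧ B.c = 0) (c : C.a = 0 ∧ C.b = 0 ∧ C.c = 1)
    (hj : j ∈ J) (hj' : j' ∈ J) (bc : B * C = C * B)
    (h1 : B = j * tor τ2 B * j⁻¹) (h2 : C⁻¹ = j * tor τ2 C * j⁻¹)
    (h3 : B⁻¹ = j' * tor τ3 B * j'⁻¹) (h4 : C⁻¹ = j' * tor τ3 C * j'⁻¹) :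
    ∃ i ∈ J, B = i * xb 1 * i⁻¹ ∧ C = i * xc 1 * i⁻¹ := by
  obtain ⟨_, _, _, z1, y1, x1, w1, v1, t1⟩ := B
  obtain ⟨_, _, _, z2, y2, x2, w2, v2, t2⟩ := C
  obtain ⟨_, _, _, z3, y3, x3, w3, v3, t3⟩ := j
  obtain ⟨_, _, _, z4, y4, x4, w4, v4, t4⟩ := j'
  obtain ⟨rfl, rfl, rfl⟩ := b
  obtain ⟨rfl, rfl, rfl⟩ := c
  obtain ⟨rfl, rfl, rfl⟩ := hj
  obtain ⟨rfl, rfl, rfl⟩ := hj'
  refine ⟨⟨0, 0, 0, 0, 0, -y1, 0, -y2, -v1⟩, ⟨rfl, rfl, rfl⟩, ?_⟩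
  simp only [G.ext_iff, G.mul_z, G.mul_y, G.mul_x, G.mul_w, G.mul_v, G.mul_t, G.mul_a, G.mul_b, G.mul_c,
    G.inv_z, G.inv_y, G.inv_x, G.inv_w, G.inv_v, G.inv_t, G.inv_a, G.inv_b, G.inv_c, tor_apply,
    torF, τ2, τ3, xb, xc, Units.val_neg, Units.val_one] at bc h1 h2 h3 h4 ⊢
  obtain ⟨-, -, -, bcz, bcy, bcx, bcw, bcv, bct⟩ := bc
  obtain ⟨-, -, -, h1z, h1y, h1x, h1w, h1v, h1t⟩ := h1
  obtain ⟨-, -, -, h2z, h2y, h2x, h2w, h2v, h2t⟩ := h2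
  obtain ⟨-, -, -, h3z, h3y, h3x, h3w, h3v, h3t⟩ := h3
  obtain ⟨-, -, -, h4z, h4y, h4x, h4w, h4v, h4t⟩ := h4
  refine ⟨⟨?_, ?_, ?_, ?_, ?_, ?_, ?_, ?_, ?_⟩, ⟨?_, ?_, ?_, ?_, ?_, ?_, ?_, ?_, ?_⟩⟩
  · ring
  · ring
  · ring
  · linear_combination h3z + (z1) * three
  · ring
  · linear_combination bcz - bcx + (x1) * three
  · linear_combination bcw - bcv + h3w + h3v + h4y + (-v1 - v2 + v4 + w1) * three
  · ring
  · linear_combination -bcx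
  · ring
  · ring
  · ring
  · linear_combination bcy + bcv - h1y - h1v + h2z + (-x2 + x3 + z2) * three
  · ring
  · linear_combination bcy
  · linear_combination h2w + (w2) * three
  · linear_combination -bcw + bcv + (v2) * three
  · linear_combination bcv

theorem lin2 (B C j : G) (b : B.a = 1 ∧ B.b = 0 ∧ B.c = 0) (c : C.a = 0 ∧ C.b = 0 ∧ C.c = 1)
    (hj : j ∈ J) (bc : B * C = C * B)
    (h1 : B⁻¹ = j * tor τ2 B * j⁻¹) (h2 : C⁻¹ = j * tor τ2 C * j⁻¹) :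
    ∃ i ∈ J, B = i * xa 1 * i⁻¹ ∧ C = i * xc 1 * i⁻¹ := by
  obtain ⟨_, _, _, z1, y1, x1, w1, v1, t1⟩ := B
  obtain ⟨_, _, _, z2, y2, x2, w2, v2, t2⟩ := C
  obtain ⟨_, _, _, z3, y3, x3, w3, v3, t3⟩ := j
  obtain ⟨rfl, rfl, rfl⟩ := b
  obtain ⟨rfl, rfl, rfl⟩ := c
  obtain ⟨rfl, rfl, rfl⟩ := hj
  refine ⟨⟨0, 0, 0, 0, z1 - y1, z2 - x2, -y1, -x1, -x2⟩, ⟨rfl, rfl, rfl⟩, ?_⟩
  simp only [G.ext_iff, G.mul_z, G.mul_y, G.mul_x, G.mul_w, G.mul_v, G.mul_t, G.mul_a, G.mul_b, G.mul_c,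
    G.inv_z, G.inv_y, G.inv_x, G.inv_w, G.inv_v, G.inv_t, G.inv_a, G.inv_b, G.inv_c, tor_apply,
    torF, τ2, xa, xc, Units.val_neg, Units.val_one] at bc h1 h2 ⊢
  obtain ⟨-, -, -, bcz, bcy, bcx, bcw, bcv, bct⟩ := bc
  obtain ⟨-, -, -, h1z, h1y, h1x, h1w, h1v, h1t⟩ := h1
  obtain ⟨-, -, -, h2z, h2y, h2x, h2w, h2v, h2t⟩ := h2
  refine ⟨⟨?_, ?_, ?_, ?_, ?_, ?_, ?_, ?_, ?_⟩, ⟨?_, ?_, ?_, ?_, ?_, ?_, ?_, ?_, ?_⟩⟩
  · ring
  · ring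
  · ring
  · linear_combination (-y1 + z1) * three
  · ring
  · ring
  · linear_combination h1w + (w1) * three
  · linear_combination h1v + (v1) * three
  · linear_combination h1t + (t1) * three
  · ring
  · ring
  · ring
  · linear_combination (-x2 + z2) * three
  · linear_combination -bcz + bcy + h1v - h1t + (-t1 + v1 - x1 + y2) * three
  · ring
  · linear_combination bcy + h1v + (v1) * three
  · linear_combination bcx + h1t + (t1) * three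
  · linear_combination h2t + (t2) * three

theorem lin4 (B : G) (b : B.a = 1 ∧ B.b = 1 ∧ B.c = 2 * 1 * 1) (c1 : B * B * B = 1) :
    ∃ i ∈ J, B = i * rr 1 * i⁻¹ := by
  obtain ⟨_, _, _, z1, y1, x1, w1, v1, t1⟩ := B
  obtain ⟨rfl, rfl, rfl⟩ := b
  refine ⟨⟨0, 0, 0, 0, z1 - x1 - y1, 0, -v1 - y1, -v1 - x1, -v1⟩, ⟨rfl, rfl, rfl⟩, ?_⟩
  simp only [G.ext_iff, G.mul_z, G.mul_y, G.mul_x, G.mul_w, G.mul_v, G.mul_t, G.mul_a, G.mul_b, G.mul_c,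
    G.inv_z, G.inv_y, G.inv_x, G.inv_w, G.inv_v, G.inv_t, G.inv_a, G.inv_b, G.inv_c, rr,
    G.one_z, G.one_x] at c1 ⊢
  obtain ⟨-, -, -, c1z, c1y, c1x, c1w, c1v, c1t⟩ := c1
  refine ⟨?_, ?_, ?_, ?_, ?_, ?_, ?_, ?_, ?_⟩
  · ring
  · ring
  · ring
  · linear_combination ((-3)*v1 + (-2)*x1 - y1 + z1) * three
  · linear_combination ((-2)*v1 - x1) * three
  · linear_combination (-v1) * three
  · linear_combination -c1z - c1x + ((12)*t1 + (8)*v1 + (2)*w1 + (5)*x1 + (2)*y1 + z1) * three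
  · ring
  · linear_combination c1x + ((-2)*t1 - v1 - x1) * three

theorem xa_mem {M : Subgroup G} (h : xa 1 ∈ M) (k : K) : xa k ∈ M :=
  le_of_gen M xa rfl h (by decide) k

theorem xb_mem {M : Subgroup G} (h : xb 1 ∈ M) (k : K) : xb k ∈ M :=
  le_of_gen M xb rfl h (by decide) k

theorem xc_mem {M : Subgroup G} (h : xc 1 ∈ M) (k : K) : xc k ∈ M :=
  le_of_gen M xc rfl h (by decide) k

theorem rr_mem {M : Subgroup G} (h : rr 1 ∈ M) (k : K) : rr k ∈ M :=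
  le_of_gen M rr rfl h (by decide) k

theorem rh1 : RH E1 := by
  intro δ h ht
  obtain ⟨j, hj, e2⟩ := ht τ2 (Or.inl rfl)
  obtain ⟨j', hj', e3⟩ := ht τ3 (Or.inr rfl)
  have mb : xb 1 ∈ E1 := rfl
  have mc : xc 1 ∈ E1 := rfl
  have h1 := e2 _ mb
  have h2 := e2 _ mc
  have h3 := e3 _ mb
  have h4 := e3 _ mc
  rw [show tor τ2 (xb 1) = xb 1 by decide] at h1
  rw [show tor τ2 (xc 1) = (xc 1)⁻¹ by decide, ext_map_inv δ mc] at h2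
  rw [show tor τ3 (xb 1) = (xb 1)⁻¹ by decide, ext_map_inv δ mb] at h3
  rw [show tor τ3 (xc 1) = (xc 1)⁻¹ by decide, ext_map_inv δ mc] at h4
  obtain ⟨i, hi, q1, q2⟩ := lin1 _ _ j j' (coords δ J_le_E1 h mb) (coords δ J_le_E1 h mc) hj hj'
    (by rw [← ext_map_mul δ mb mc, ← ext_map_mul δ mc mb, show xb 1 * xc 1 = xc 1 * xb 1 by decide])
    h1 h2 h3 h4
  refine ⟨i, hi, fun g hg => ?_⟩
  have m : xb g.b * xc g.c ∈ eqs δ i :=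
    mul_mem (xb_mem (M := eqs δ i) ⟨mb, q1⟩ _) (xc_mem (M := eqs δ i) ⟨mc, q2⟩ _)
  have a0 : g.a = 0 := hg
  have n : g * (xb g.b * xc g.c)⁻¹ ∈ J := ⟨by simp [xb, xc, a0], by simp [xb, xc], by simp [xb, xc, a0]⟩
  have := mul_mem (J_le δ J_le_E1 h hi n) m
  rw [inv_mul_cancel_right] at this
  exact this.2

theorem rh2 : RH E2 := by
  intro δ h ht
  obtain ⟨j, hj, e2⟩ := ht τ2 (Or.inl rfl)
  have ma : xa 1 ∈ E2 := rfl
  have mc : xc 1 ∈ E2 := rfl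
  have h1 := e2 _ ma
  have h2 := e2 _ mc
  rw [show tor τ2 (xa 1) = (xa 1)⁻¹ by decide, ext_map_inv δ ma] at h1
  rw [show tor τ2 (xc 1) = (xc 1)⁻¹ by decide, ext_map_inv δ mc] at h2
  obtain ⟨i, hi, q1, q2⟩ := lin2 _ _ j (coords δ J_le_E2 h ma) (coords δ J_le_E2 h mc) hj
    (by rw [← ext_map_mul δ ma mc, ← ext_map_mul δ mc ma, show xa 1 * xc 1 = xc 1 * xa 1 by decide])
    h1 h2
  refine ⟨i, hi, fun g hg => ?_⟩
  have m : xa g.a * xc g.c ∈ eqs δ i :=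
    mul_mem (xa_mem (M := eqs δ i) ⟨ma, q1⟩ _) (xc_mem (M := eqs δ i) ⟨mc, q2⟩ _)
  have b0 : g.b = 0 := hg
  have n : g * (xa g.a * xc g.c)⁻¹ ∈ J := ⟨by simp [xa, xc], by simp [xa, xc, b0], by simp [xa, xc]⟩
  have := mul_mem (J_le δ J_le_E2 h hi n) m
  rw [inv_mul_cancel_right] at this
  exact this.2

theorem rh4 : RH4Stmt := by
  intro δ h
  have mr : rr 1 ∈ E4 := ⟨rfl, rfl⟩
  obtain ⟨i, hi, q⟩ := lin4 _ (coords δ J_le_E4 h mr) (cube δ mr (by decide))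
  refine ⟨i, hi, fun g hg => ?_⟩
  have m : rr g.a ∈ eqs δ i := rr_mem (M := eqs δ i) ⟨mr, q⟩ _
  obtain ⟨b0, c0⟩ := hg
  have n : g * (rr g.a)⁻¹ ∈ J := by
    refine ⟨by simp [rr], by simp [rr, b0], ?_⟩
    simp only [rr, G.mul_c, G.inv_c, G.inv_b, c0]
    ring
  have := mul_mem (J_le δ J_le_E4 h hi n) m
  rw [inv_mul_cancel_right] at this
  exact this.2

end Cfsg.Agent.H12.C1Rh
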