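import Cfsg.Agent.H11.CyLa

/-! Project CY, chapter LP, piece Ad. -/

set_option autoImplicit false

namespace Cfsg.Agent.H12.CyAd

open Subgroup MulAction Cfsg.Agent.H11.Cy Cfsg.Agent.H11.Cy.Lp
open Cfsg.Agent.H11.EL (Nm Ct C1)

section
variable {G : Type} [Group G] [Finite G]

theorem ord2 {c : G} (h : c * c = 1) (h1 : c ≠ 1) : orderOf c = 2 :=
  orderOf_eq_prime (by rw [sq, h]) h1

/-- a second conjugate of `u` under `K` that commutes with `u` -/
theorem fixc (K : Subgroup G) (u : G) (u2 : u * u = 1) (hn : ∀ r ∈ K, u * r * u⁻¹ ∈ K)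
    (ev : 2 ∣ ((C1 u).subgroupOf K).index) :
    ∃ r ∈ K, ∃ c ∈ K, orderOf c = 2 ∧ Commute c u ∧ r⁻¹ * u * r⁻¹⁻¹ = u * c := by
  classical
  have ui : u⁻¹ = u := inv_eq_of_mul_eq_one_right u2
  let φ : K → K := fun r => ⟨u * r * u⁻¹, hn r r.2⟩
  let σ : K ⧸ (C1 u).subgroupOf K → K ⧸ (C1 u).subgroupOf K := Quotient.map' φ (by
    intro a b hab
    rw [QuotientGroup.leftRel_apply] at hab ⊢
    have h1 : ((a : G)⁻¹ * b) * u = u * ((a : G)⁻¹ * b) := mem_centralizer_singleton_iff.1 hab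
    have h2 : (φ a)⁻¹ * φ b = a⁻¹ * b := Subtype.ext (by
      change (u * a * u⁻¹)⁻¹ * (u * b * u⁻¹) = (a : G)⁻¹ * b
      calc _ = u * ((a : G)⁻¹ * b) * u⁻¹ := by group
        _ = _ := by rw [← h1, mul_inv_cancel_right])
    rwa [h2])
  have hσ : Function.Involutive σ := by
    intro q
    induction q using QuotientGroup.induction_on with
    | H a =>
      refine congrArg QuotientGroup.mk (show φ (φ a) = a from Subtype.ext ?_)
      change u * (u * a * u⁻¹) * u⁻¹ = a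
      calc _ = (u * u) * a * (u * u)⁻¹ := by group
        _ = _ := by rw [u2]; group
  have := Fintype.ofFinite (K ⧸ (C1 u).subgroupOf K)
  obtain ⟨q, h1, h2⟩ := Equiv.Perm.exists_fixed_point_of_prime' (p := 2) (n := 1)
    (α := K ⧸ (C1 u).subgroupOf K) (by rwa [← Nat.card_eq_fintype_card]) (σ := hσ.toPerm σ)
    (by ext q; exact hσ q) (a := QuotientGroup.mk 1)
    (congrArg QuotientGroup.mk (show φ 1 = 1 from Subtype.ext (by simp [φ])))
  induction q using QuotientGroup.induction_on with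
  | H r =>
    have h3 : (φ r)⁻¹ * r ∈ (C1 u).subgroupOf K := QuotientGroup.eq.1 h1
    have h4 : Commute ((u * r * u⁻¹)⁻¹ * r) u := mem_centralizer_singleton_iff.1 h3
    have h5 : (r : G)⁻¹ * u * (r : G)⁻¹⁻¹ = u * ((u * r * u⁻¹)⁻¹ * r) := by
      calc _ = (u * u) * (r : G)⁻¹ * u * r := by rw [u2]; group
        _ = u * (u * (r : G)⁻¹ * u⁻¹ * r) := by rw [ui]; group
        _ = _ := by group
    refine ⟨r, r.2, _, ((φ r)⁻¹ * r).2, ord2 ?_ fun e => h2 ?_, h4, h5⟩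
    · change ((u * r * u⁻¹)⁻¹ * r) * ((u * r * u⁻¹)⁻¹ * r) = 1
      generalize (u * r * u⁻¹)⁻¹ * (r : G) = c at h4 h5
      calc c * c = (u * u) * (c * c) := by rw [u2, one_mul]
        _ = (u * c) * (u * c) := by rw [mul_assoc u c, ← mul_assoc c u, h4.eq]; group
        _ = (r : G)⁻¹ * (u * u) * r := by rw [← h5]; group
        _ = 1 := by rw [u2]; group
    · have e' : (u * r * u⁻¹)⁻¹ * (r : G) = 1 := e
      rw [e', mul_one] at h5
      refine QuotientGroup.eq.2 (mem_centralizer_singleton_iff.2 ?_)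
      change ((r : G)⁻¹ * 1) * u = u * ((r : G)⁻¹ * 1)
      rw [mul_one]
      exact mul_inv_eq_iff_eq_mul.1 h5

/-- a group whose order is divisible by four -/
theorem four {H : Type} [Group H] [Finite H] (h : 4 ∣ Nat.card H) :
    (∃ c : H, c * c ≠ 1 ∧ (c * c) * (c * c) = 1) ∨
      ∃ c k : H, c ≠ 1 ∧ k ≠ 1 ∧ c * k ≠ 1 ∧ c * c = 1 ∧ k * k = 1 ∧ (c * k) * (c * k) = 1 := by
  classical
  obtain ⟨B, hB⟩ := Sylow.exists_subgroup_card_pow_prime 2 (n := 2) (G := H) h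
  by_cases hb : ∃ b : B, b * b ≠ 1
  · obtain ⟨b, hb⟩ := hb
    refine Or.inl ⟨b, fun e => hb (Subtype.ext e), ?_⟩
    have h4 : b ^ Nat.card B = 1 := pow_card_eq_one'
    rw [hB] at h4
    have h5 : (b : H) ^ (2 ^ 2) = 1 := congrArg Subtype.val h4
    rw [← h5, show (2:ℕ)^2 = 2+2 from rfl, pow_add, sq]
  · push Not at hb
    have := Fintype.ofFinite B
    obtain ⟨a, b, c, ab, ac, bc⟩ := Fintype.two_lt_card_iff.1
      (show 2 < Fintype.card B by rw [← Nat.card_eq_fintype_card, hB]; norm_num)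
    have sq : ∀ b : B, (b : H) * b = 1 := fun b => congrArg Subtype.val (hb b)
    refine Or.inr ⟨(a⁻¹ * b : B), (a⁻¹ * c : B), fun e => ab (inv_mul_eq_one.1 (Subtype.ext e)),
      fun e => ac (inv_mul_eq_one.1 (Subtype.ext e)), fun e => bc ?_, sq _, sq _,
      sq (a⁻¹ * b * (a⁻¹ * c))⟩
    have e1 : a⁻¹ * b * (a⁻¹ * c) = 1 := Subtype.ext e
    exact mul_left_cancel (mul_left_cancel ((hb (a⁻¹ * b)).trans e1.symm))

end

theorem ad : AdStmt := by
  intro G _ _ Ω _ _ p A h l ax x y x' y' u uk hc ev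
  have u2 : u * u = 1 := by rw [← sq, ← uk.uo, pow_orderOf_eq_one]
  have hn : ∀ r ∈ Kl A x y, u * r * u⁻¹ ∈ Kl A x y := fun r hr g hg => by
    have h1 := hr _ ((mem_normalizer_iff''.1 uk.uN g).1 hg)
    calc g * (u * r * u⁻¹) = u * (u⁻¹ * g * u * r) * u⁻¹ := by group
      _ = _ := by rw [h1]; group
  obtain ⟨f, s, lc⟩ := l.lc x' y' uk.xy'
  have idx := (l.lt x' y' uk.xy' f s lc).idx
  have nm : ∀ c : G, Commute c u → c ∈ Nm (Fl A x' y') := ax.cen x' y' uk.xy' u uk.uK uk.uo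
  have f1 : ∀ c ∈ Kl A x y, c * c = 1 → c ≠ 1 → Commute c u → c ∉ Kl A x' y' ⊔ Fl A x' y' :=
    fun c hc c2 c1 cu e => uk.ne (ax.ti x y x' y' uk.xy uk.xy' c hc (ord2 c2 c1)
      (ax.out x' y' uk.xy' c (nm c cu) ⟨ord2 c2 c1, x, y, uk.xy, hc⟩ e)).symm
  have cu : ∀ c : (C1 u).subgroupOf (Kl A x y), Commute ((c : Kl A x y) : G) u := fun c =>
    mem_centralizer_singleton_iff.1 c.2
  have n4 : ¬ 4 ∣ Nat.card ((C1 u).subgroupOf (Kl A x y)) := fun h4 => by
    rcases four h4 with ⟨c, c1, c2⟩ | ⟨c, k, c1, k1, ck, c2, k2, ck2⟩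
    · refine f1 _ (c * c).1.2 (congrArg (fun z => z.1.1) c2) (fun e => c1 (Subtype.ext (Subtype.ext e)))
        (cu (c * c)) ?_
      by_cases hm : c.1.1 ∈ Kl A x' y' ⊔ Fl A x' y'
      · exact mul_mem hm hm
      · exact idx _ (nm _ (cu c)) _ (nm _ (cu c)) hm hm
    · exact f1 _ (c * k).1.2 (congrArg (fun z => z.1.1) ck2) (fun e => ck (Subtype.ext (Subtype.ext e)))
        (cu (c * k)) (idx _ (nm _ (cu c)) _ (nm _ (cu k))
          (f1 _ c.1.2 (congrArg (fun z => z.1.1) c2) (fun e => c1 (Subtype.ext (Subtype.ext e))) (cu c))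
          (f1 _ k.1.2 (congrArg (fun z => z.1.1) k2) (fun e => k1 (Subtype.ext (Subtype.ext e))) (cu k)))
  have odd : ¬ 2 ∣ ((C1 u).subgroupOf (Kl A x y)).index := fun e => by
    obtain ⟨r, -, c, cK, co, cu, e⟩ := fixc _ u u2 hn e
    exact hc c cK co cu (e ▸ ax.cj u r⁻¹ ⟨uk.uo, x', y', uk.xy', uk.uK⟩)
  have e := ((C1 u).subgroupOf (Kl A x y)).card_mul_index
  have cop : Nat.Coprime 2 ((C1 u).subgroupOf (Kl A x y)).index :=
    (Nat.Prime.coprime_iff_not_dvd Nat.prime_two).2 odd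
  refine ⟨fun h4 => n4 ?_, ?_⟩
  · rw [← e] at h4
    exact (Nat.Coprime.pow_left 2 cop).dvd_of_dvd_mul_right h4
  · have h2 : 2 ∣ Nat.card ((C1 u).subgroupOf (Kl A x y)) :=
      cop.dvd_of_dvd_mul_right (e ▸ even_iff_two_dvd.1 ev)
    obtain ⟨k, hk⟩ := exists_prime_orderOf_dvd_card' 2 h2
    exact ⟨k.1.1, k.1.2, by rw [orderOf_coe, orderOf_coe, hk], cu k⟩

end Cfsg.Agent.H12.CyAd
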