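import Mathlib
import Cfsg.Agent.H6.E82Defs

/-! A derivation can be corrected by an inner one so that it keeps the Cartan subalgebra. -/

set_option autoImplicit false

namespace Cfsg.Agent.H12.E82Der1

open Cfsg.Agent.H6.E82

theorem br_right (a : V) {h : V} (hh : h ∈ Cart) (u : Rt) :
    br a h (Sum.inr u) = a (Sum.inr u) * ev u h := by
  have h0 : ∀ r, h (Sum.inr r) = 0 := hh
  simp only [br_inr, h0, mul_zero, ite_self, Finset.sum_const_zero, zero_add, add_zero]

theorem br_left {h : V} (hh : h ∈ Cart) (b : V) (u : Rt) :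
    br h b (Sum.inr u) = ev u h * b (Sum.inr u) := by
  have h0 : ∀ r, h (Sum.inr r) = 0 := hh
  simp only [br_inr, h0, zero_mul, ite_self, Finset.sum_const_zero, add_zero]

theorem der1 (rf : RfStmt) (brb : BrbStmt) : Der1Stmt := by
  intro D hD
  choose H hH h1 using rf.2.2.2.2.2.2.2.1
  refine ⟨Sum.elim (fun _ => 0) fun r => D (H r) (Sum.inr r), fun h hh u => ?_⟩
  have e := congrFun (hD h (H u)) (Sum.inr u)
  rw [brb.2.2.1 h hh _ (hH u), map_zero, Pi.add_apply, br_right _ (hH u), br_left hh, h1,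
    mul_one] at e
  rw [Pi.add_apply, br_right _ hh, Sum.elim_inr, mul_comm]
  exact e.symm

end Cfsg.Agent.H12.E82Der1
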