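import Mathlib
import Cfsg.Agent.H6.E82Defs

/-! The largest invariant submodule on which an element has no fixed vector. -/

set_option autoImplicit false

namespace Cfsg.Agent.H12.E82Pr1

open Cfsg.Agent.H6.E82 Module

section
variable {W : Type} [AddCommGroup W] [Module K W] [FiniteDimensional K W]

theorem inj_iff {f : Module.End K W} {U : Submodule K W} (h : ∀ v ∈ U, f v ∈ U) :
    (∀ v ∈ U, f v = 0 → v = 0) ↔ U ≤ U.map f := by
  have e := LinearMap.injective_iff_surjective (f := f.restrict h)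
  constructor
  · intro h1 v hv
    obtain ⟨u, hu⟩ := e.1 ((injective_iff_map_eq_zero _).2 fun u hu =>
      Subtype.ext (h1 u u.2 (congrArg Subtype.val hu))) ⟨v, hv⟩
    exact ⟨u, u.2, congrArg Subtype.val hu⟩
  · intro h1 v hv h0
    have hs : Function.Surjective (f.restrict h) := fun y => by
      obtain ⟨u, hu, e⟩ := h1 y.2
      exact ⟨⟨u, hu⟩, Subtype.ext e⟩
    exact congrArg Subtype.val
      ((injective_iff_map_eq_zero _).1 (e.2 hs) ⟨v, hv⟩ (Subtype.ext h0))

theorem dm_iff (ρ : SL →* Module.End K W) (g : SL) {U : Submodule K W} (hU : Inv ρ U) :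
    dm ρ g 1 U = 0 ↔ U ≤ U.map (ρ g - 1) := by
  rw [← inj_iff fun v hv => U.sub_mem (hU g v hv) hv, dm, Submodule.finrank_eq_zero,
    Submodule.eq_bot_iff]
  simp only [Submodule.mem_inf, Module.End.mem_eigenspace_iff, one_smul, LinearMap.sub_apply,
    Module.End.one_apply, sub_eq_zero, and_imp]

end

theorem pr1 : Pr1Stmt := by
  intro g W _ _ _ ρ fr hfr
  let S : Set (Submodule K W) := {U | Inv ρ U ∧ U ≤ U.map (ρ g - 1)}
  have h1 : Inv ρ (sSup S) := fun h =>
    sSup_le (a := (sSup S).comap (ρ h)) fun U hU v hv => le_sSup hU (hU.1 h v hv)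
  have h2 : sSup S ≤ (sSup S).map (ρ g - 1) :=
    sSup_le fun U hU => hU.2.trans (Submodule.map_mono (le_sSup hU))
  refine ⟨sSup S, h1, fun v hv => ?_, (dm_iff ρ g h1).2 h2,
    fun M' hM h0 => le_sSup ⟨hM, (dm_iff ρ g hM).1 h0⟩⟩
  have h3 : Submodule.span K (fr '' (sSup S : Submodule K W)) ∈ S := by
    refine ⟨fun h => show Submodule.span K _ ≤ Submodule.comap (ρ h) (Submodule.span K _) from
      Submodule.span_le.2 ?_, Submodule.span_le.2 ?_⟩
    · rintro _ ⟨a, ha, rfl⟩
      exact Submodule.subset_span ⟨_, h1 h a ha, hfr.2.2.2 h a⟩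
    · rintro _ ⟨a, ha, rfl⟩
      obtain ⟨u, hu, rfl⟩ := h2 ha
      refine ⟨fr u, Submodule.subset_span ⟨u, hu, rfl⟩, ?_⟩
      simp only [LinearMap.sub_apply, Module.End.one_apply]
      rw [← hfr.2.2.2, sub_eq_iff_eq_add, ← hfr.1, sub_add_cancel]
  exact le_sSup h3 (Submodule.subset_span ⟨v, hv, rfl⟩)

end Cfsg.Agent.H12.E82Pr1
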