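import Cfsg.Agent.H50.E83Defs

/-! The lattice argument: the piece `Lat2`. -/

set_option autoImplicit false

namespace Cfsg.Agent.H12.E83L

open Equiv Finset Cfsg.Agent.H40 Cfsg.Agent.H29 Cfsg.Agent.H50.E83

section
variable {ι Φ : Type*} [Fintype ι] [DecidableEq ι] {R : RS ι Φ}

/-- without invariant additive functions of `y` the four-group of `A₄` acts trivially -/
theorem triv {a y : Perm Φ} (ha : a ∈ R.W) (hy : y ∈ R.W) (y3 : y ^ 3 = 1) (aa : a * a = 1)
    (abc : a * (y * a * y⁻¹) * (y ^ 2 * a * (y ^ 2)⁻¹) = 1)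
    (H : ∀ t, IsAdd R t → (∀ r, t (y r) = t r) → ∀ r, t r = 0) : a = 1 := by
  obtain ⟨b, hb⟩ : ∃ b, b = y * a * y⁻¹ := ⟨_, rfl⟩
  obtain ⟨c, hc⟩ : ∃ c, c = y ^ 2 * a * (y ^ 2)⁻¹ := ⟨_, rfl⟩
  have bW : b ∈ R.W := hb ▸ mul_mem (mul_mem hy ha) (inv_mem hy)
  have cW : c ∈ R.W := hc ▸ mul_mem (mul_mem (pow_mem hy 2) ha) (inv_mem (pow_mem hy 2))
  have bb : b * b = 1 := by
    calc b * b = y * (a * a) * y⁻¹ := by rw [hb]; group
      _ = 1 := by rw [aa]; group
  have cc : c * c = 1 := by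
    calc c * c = y ^ 2 * (a * a) * (y ^ 2)⁻¹ := by rw [hc]; group
      _ = 1 := by rw [aa]; group
  rw [← hb, ← hc] at abc
  have ia := inv_eq_of_mul_eq_one_right aa
  have ib := inv_eq_of_mul_eq_one_right bb
  have ic := inv_eq_of_mul_eq_one_right cc
  have ab : a * b = c := by rw [eq_inv_of_mul_eq_one_left abc, ic]
  have ba : b * a = c := by rw [← ic, ← ab, mul_inv_rev, ia, ib]
  have ac : a * c = b := by rw [← ab, ← mul_assoc, aa, one_mul]
  have ca : c * a = b := by rw [← ba, mul_assoc, aa, mul_one]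
  have bc : b * c = a := by rw [← ba, ← mul_assoc, bb, one_mul]
  have cb : c * b = a := by rw [← ab, mul_assoc, bb, mul_one]
  have ya : y * a = b * y := by rw [hb]; group
  have yb : y * b = c * y := by rw [hb, hc, sq]; group
  have yc : y * c = a * y := by
    calc y * c = y ^ 3 * a * (y ^ 3)⁻¹ * y := by rw [hc]; group
      _ = _ := by rw [y3]; group
  have ap : ∀ {u v w : Perm Φ}, u * v = w → ∀ r, u (v r) = w r := fun e r => by
    rw [← e]; rfl
  have ap2 : ∀ {u v : Perm Φ}, y * u = v * y → ∀ r, y (u r) = v (y r) := fun e r =>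
    congrArg (fun w : Perm Φ => w r) e
  have yyy : ∀ r, y (y (y r)) = r := fun r => congrArg (fun w : Perm Φ => w r) y3
  have H1 : ∀ g, IsAdd R g → ∀ r, g r + g (y r) + g (y (y r)) = 0 := fun g hg =>
    H _ ((hg.add (hg.comp hy)).add ((hg.comp hy).comp hy)) fun r => by
      simp only [yyy]; ring
  have H2 : ∀ g, IsAdd R g → ∀ r, g r + g (a r) - g (b r) - g (c r) = 0 := fun g hg r => by
    have hP := ((hg.add (hg.comp ha)).sub (hg.comp bW)).sub (hg.comp cW)
    have e1 := H1 _ hP r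
    have e2 := H1 _ hP (a r)
    simp only [ap2 ya, ap2 yb, ap aa, ap bb, ap cc, ap ab, ap ba, ap ac, ap ca, ap bc, ap cb,
      Perm.one_apply] at e2
    linarith
  refine Equiv.ext fun r => R.rc_inj (funext fun i => ?_)
  obtain ⟨s, rfl⟩ := (y * y).surjective r
  have hg := isAdd_rc (R := R) i
  have e1 := H2 _ (hg.comp hy) (y s)
  have e2 := H2 _ ((hg.comp hy).comp hy) s
  simp only [ap2 ya, ap2 yb, ap2 yc] at e1 e2
  simp only [Perm.mul_apply, Perm.one_apply]
  linarith

/-- descent -/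
theorem desc {y : Perm Φ}
    (H : ∀ t, IsAdd R t → (∀ r, t (y r) = t r) → ∀ r, (t r : ZMod 2) = 0) :
    ∀ t, IsAdd R t → (∀ r, t (y r) = t r) → ∀ r, t r = 0 := by
  have k : ∀ n : ℕ, ∀ t, IsAdd R t → (∀ r, t (y r) = t r) → ∀ r, 2 ^ n ∣ t r := by
    intro n
    induction n with
    | zero => simp
    | succ n ih =>
      intro t ht hi r
      have e : ∀ r, t r = 2 * (t r / 2) := fun r => (Int.mul_ediv_cancel'
        ((ZMod.intCast_zmod_eq_zero_iff_dvd _ 2).1 (H t ht hi r))).symm
      rw [e r, pow_succ']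
      refine mul_dvd_mul_left 2 (ih (fun r => t r / 2) (fun r => ?_) (fun r => by rw [hi]) r)
      refine mul_left_cancel₀ two_ne_zero ?_
      rw [← e, ht r, mul_sum]
      exact sum_congr rfl fun j _ => by rw [mul_left_comm, ← e]
  intro t ht hi r
  refine Int.eq_zero_of_abs_lt_dvd (k (t r).natAbs t ht hi r) ?_
  rw [Int.abs_eq_natAbs]
  exact_mod_cast Nat.lt_two_pow_self

end

theorem cnt {φ : E4 → ZMod 2} (h : ∀ e e', φ (e + e') = φ e + φ e') {e1 : E4} (h1 : φ e1 ≠ 0)
    (k : ZMod 2) : ∑ e, (if k + φ e = 0 then 1 else 0) = 8 := by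
  have e := Equiv.sum_comp (Equiv.addRight e1) fun e => if k + φ e = 0 then 1 else 0
  have z : ∀ x y : ZMod 2, y ≠ 0 →
      (if x = 0 then 1 else 0) + (if x + y = 0 then 1 else 0) = 1 := by decide
  have : ∑ e, (if k + φ e = 0 then 1 else 0) + ∑ e, (if k + φ e = 0 then 1 else 0) = 16 := by
    nth_rewrite 2 [← e]
    rw [← sum_add_distrib]
    simp only [Equiv.coe_addRight, h, ← add_assoc, z _ _ h1]
    simp
  omega

theorem even_of {ι Φ : Type*} [Fintype ι] [DecidableEq ι] [Fintype Φ] {R : RS ι Φ}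
    (hΦ : Fintype.card Φ = 240)
    (z2 : ∀ f, IsAdd R f → z0 2 f = 112 ∨ z0 2 f = 128 ∨ ∀ r, (f r : ZMod 2) = 0)
    {F : E4 → Φ → ℤ} {σ : E4 → E4} {y : Perm Φ} (hF : ∀ e, IsAdd R (F e))
    (hadd : ∀ e e' r, (F (e + e') r : ZMod 2) = F e r + F e' r)
    (h112 : ∀ e, e ≠ 0 → z0 2 (F e) = 112) (hσ : ∀ e, σ e = e → e = 0)
    (hy : ∀ e r, (F (σ e) (y r) : ZMod 2) = F e r) (y3 : y ^ 3 = 1) (t : Φ → ℤ) (ht : IsAdd R t)
    (hi : ∀ r, t (y r) = t r) (r : Φ) : (t r : ZMod 2) = 0 := by
  classical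
  by_contra hr
  have all : ∀ f : Φ → ℤ, (∀ r, (f r : ZMod 2) = 0) → z0 2 f = 240 := fun f h => by
    simp [z0, h, hΦ]
  have F0 : ∀ r, (F 0 r : ZMod 2) = 0 := fun r => by simpa using hadd 0 0 r
  have inj : ∀ e e', (∀ r, (F e r : ZMod 2) = F e' r) → e = e' := fun e e' h => by
    by_contra ne
    have h0 : e + e' ≠ 0 := fun k => ne (funext fun i => by
      have : e i + e' i = 0 := congrFun k i
      rw [eq_neg_of_add_eq_zero_left this, CharTwo.neg_eq])
    have := all (F (e + e')) fun r => by rw [hadd, h, CharTwo.add_self_eq_zero]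
    rw [h112 _ h0] at this
    omega
  have s1 : ∑ e, z0 2 (F e) = 1920 := by
    rw [← add_sum_erase _ _ (mem_univ 0), all _ F0,
      sum_congr rfl fun e he => h112 e (ne_of_mem_erase he)]
    simp
  have nz : ∀ r, ∃ e, (F e r : ZMod 2) ≠ 0 := by
    have le : ∀ r ∈ (univ : Finset Φ), 8 ≤ ∑ e, if (F e r : ZMod 2) = 0 then 1 else 0 :=
      fun r _ => by
        by_cases h : ∃ e, (F e r : ZMod 2) ≠ 0
        · obtain ⟨e, he⟩ := h
          have := cnt (φ := fun e => (F e r : ZMod 2)) (fun e e' => hadd e e' r) he 0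
          simp only [zero_add] at this
          exact this.ge
        · push Not at h
          simp [h]
    have eq := (sum_eq_sum_iff_of_le le).1 (by
      rw [sum_comm]
      simp only [z0] at s1
      rw [s1]
      simp [hΦ])
    intro r
    by_contra h
    push Not at h
    have := eq r (mem_univ r)
    simp [h] at this
  have s2 : ∑ e, z0 2 (fun r => t r + F e r) = 1920 := by
    simp only [z0]
    rw [sum_comm]
    push_cast
    rw [sum_congr rfl fun r _ => cnt (φ := fun e => (F e r : ZMod 2)) (fun e e' => hadd e e' r)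
      (nz r).choose_spec (t r)]
    simp [hΦ]
  have val : ∀ e, z0 2 (fun r => t r + F e r) = 112 ∨ z0 2 (fun r => t r + F e r) = 128 :=
    fun e => by
      rcases z2 _ (ht.add (hF e)) with h | h | h
      · exact .inl h
      · exact .inr h
      · have k : ∀ r, (F e r : ZMod 2) = t r := fun r => by
          have := h r
          push_cast at this
          rw [eq_neg_of_add_eq_zero_right this, CharTwo.neg_eq]
        have : e = 0 := hσ e (inj _ _ fun r => by
          obtain ⟨s, rfl⟩ := y.surjective r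
          rw [hy, k, k, hi])
        exact absurd (by rw [← k, this, F0]) hr
  have inv : ∀ e, z0 2 (fun r => t r + F (σ e) r) = z0 2 (fun r => t r + F e r) := fun e =>
    z0_congr y fun r => by push_cast; rw [hi, hy]
  have s3 : ∀ e, σ (σ (σ e)) = e := fun e => inj _ _ fun r => by
    have : y (y (y r)) = r := congrArg (fun w : Perm Φ => w r) y3
    rw [← hy e, ← hy (σ e), ← hy (σ (σ e)), this]
  let S := {e : E4 // z0 2 (fun r => t r + F e r) = 128}
  let f : Function.End S := fun e => ⟨σ e.1, (inv e.1).trans e.2⟩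
  have hf : f ^ 3 ^ 1 = 1 := funext fun e => Subtype.ext (s3 e.1)
  have : Fact (Nat.Prime 3) := ⟨Nat.prime_three⟩
  have m := Equiv.Perm.card_fixedPoints_modEq hf
  have c1 : Fintype.card f.fixedPoints ≤ 1 := Fintype.card_le_one_iff.2 fun a b =>
    Subtype.ext (Subtype.ext ((hσ _ (congrArg Subtype.val a.2)).trans
      (hσ _ (congrArg Subtype.val b.2)).symm))
  have c2 : Fintype.card S = 8 := by
    have : ∀ e, z0 2 (fun r => t r + F e r) =
        112 + 16 * if z0 2 (fun r => t r + F e r) = 128 then 1 else 0 := fun e => by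
      rcases val e with h | h <;> simp [h]
    rw [sum_congr rfl fun e _ => this e, sum_add_distrib, ← mul_sum, ← card_filter] at s2
    rw [Fintype.card_subtype]
    simp at s2
    omega
  rw [c2] at m
  unfold Nat.ModEq at m
  omega

/-- **LAT2** -/
theorem lat2 (z2 : Z2Stmt) : Lat2Stmt :=
  fun _ _ _ ha _ hy hF hadd h112 hσ hs y3 aa abc =>
    triv (R := C8.R) ha hy y3 aa abc
      (desc (even_of (Fintype.card_fin _) z2 hF hadd h112 hσ hs y3))

end Cfsg.Agent.H12.E83L
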