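import Mathlib
import Cfsg.Agent.H73.GagDefs
import Cfsg.Agent.H82.Zsigmondy
import Cfsg.Agent.H52.Quasisimple
import Cfsg.Agent.S0242

/-! Transitive linear groups whose vector stabilisers are `p`-groups: the case of a normal
subgroup `SL₂(p ^ a)`. -/

set_option autoImplicit false

namespace Cfsg.Agent.H12.GagC

open Subgroup Cfsg Cfsg.Agent.H73.Gag
open scoped MatrixGroups

universe u

theorem cop {p : ℕ} (hp : p.Prime) {m : ℕ} (hm : 0 < m) (k : ℕ) : (p ^ m - 1).Coprime (p ^ k) := by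
  refine Nat.Coprime.pow_right k ((Nat.coprime_comm.1 ((Nat.Prime.coprime_iff_not_dvd hp).2 fun h => ?_)))
  have h1 : p ∣ p ^ m - (p ^ m - 1) := Nat.dvd_sub (dvd_pow_self p hm.ne') h
  have h2 : 1 ≤ p ^ m := Nat.one_le_pow _ _ hp.pos
  rw [show p ^ m - (p ^ m - 1) = 1 by omega] at h1
  exact hp.one_lt.ne' (Nat.dvd_one.1 h1)

theorem arith {p n k a f c e : ℕ} (hp : p.Prime) (h4 : 4 ≤ p ^ a) (f1 : 1 ≤ f) (fn : f < n)
    (hc : c ∣ p ^ f - 1) (he : e ∣ 2 * a)
    (h : (p ^ n - 1) * p ^ k = p ^ a * (p ^ (2 * a) - 1) * c * e) : c = 1 ∧ e ∣ p ^ k := by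
  have a0 : 0 < a := Nat.pos_of_ne_zero fun e0 => by rw [e0] at h4; simp at h4
  have p1 := hp.one_lt
  have h1 : p ^ (2 * a) - 1 ∣ p ^ n - 1 := (cop hp (by omega) k).dvd_of_dvd_mul_right
    (h ▸ ((dvd_mul_left _ _).mul_right _).mul_right _)
  have h2 : 2 * a ∣ n := by
    have h3 := Nat.gcd_eq_left h1
    rw [Nat.pow_sub_one_gcd_pow_sub_one] at h3
    have h5 : 1 ≤ p ^ Nat.gcd (2 * a) n := Nat.one_le_pow _ _ hp.pos
    have h6 : 1 ≤ p ^ (2 * a) := Nat.one_le_pow _ _ hp.pos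
    exact Nat.gcd_eq_left_iff_dvd.1 (Nat.pow_right_injective hp.two_le (by simp only; omega))
  have h3 : n = 2 * a := by
    by_contra hn
    obtain ⟨t, rfl⟩ := h2
    have t2 : 2 ≤ t := by
      by_contra ht
      have : t = 0 ∨ t = 1 := by omega
      rcases this with rfl | rfl <;> omega
    have n4 : 4 * a ≤ 2 * a * t := by nlinarith
    obtain ⟨r, hr, hz⟩ := H82.zsigmondy p (2 * a * t) p1 (by omega) (fun e0 => by
      obtain ⟨rfl, e1⟩ := e0
      have : a = 1 := by omega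
      rw [this] at h4; omega) (by omega)
    have : Fact r.Prime := ⟨hr⟩
    have k1 : ∀ j, r ∣ p ^ j - 1 ↔ 2 * a * t ∣ j := fun j => by
      rw [← hz.pow_eq_one_iff_dvd, ← ZMod.natCast_eq_zero_iff,
        Nat.cast_sub (Nat.one_le_pow _ _ hp.pos), sub_eq_zero]
      push_cast
      rfl
    have k2 : r ∣ p ^ (2 * a * t) - 1 := (k1 _).2 dvd_rfl
    have k3 := Nat.le_of_dvd (by have := hr.two_le; omega) (hz.dvd_of_pow_eq_one _
      (ZMod.pow_card_sub_one_eq_one (hz.ne_zero (by omega))))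
    have k4 := k2.mul_right (p ^ k)
    rw [h] at k4
    rcases hr.dvd_mul.1 k4 with k5 | k5
    · rcases hr.dvd_mul.1 k5 with k5 | k5
      · rcases hr.dvd_mul.1 k5 with k5 | k5
        · exact hr.one_lt.ne' (Nat.eq_one_of_dvd_coprimes (cop hp (by omega) a) k2 k5)
        · have := Nat.le_of_dvd (by omega) ((k1 _).1 k5); omega
      · have := Nat.le_of_dvd (by omega) ((k1 _).1 (k5.trans hc)); omega
    · have := Nat.le_of_dvd (by omega) (k5.trans he); omega
  subst h3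
  have h5 : p ^ k = p ^ a * c * e := Nat.eq_of_mul_eq_mul_left
    (Nat.sub_pos_of_lt (Nat.one_lt_pow (n := 2 * a) (by omega) p1)) (by rw [h]; ring)
  exact ⟨Nat.eq_one_of_dvd_coprimes (cop hp f1 k) hc (h5 ▸ (dvd_mul_left _ _).mul_right _),
    h5 ▸ dvd_mul_left _ _⟩

theorem card_sl {F : Type} [Field F] [Fintype F] {q : ℕ} (hF : Fintype.card F = q) :
    Nat.card SL(2, F) = q * (q ^ 2 - 1) := by
  have h := S0242.result hF 2 (by norm_num)
  have h1 : 1 < q := hF ▸ Fintype.one_lt_card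
  rw [Fin.prod_univ_two] at h
  refine Nat.eq_of_mul_eq_mul_left (Nat.sub_pos_of_lt h1) (h.trans ?_)
  obtain ⟨s, rfl⟩ : ∃ s, q = s + 1 := ⟨q - 1, by omega⟩
  simp only [Fin.val_zero, Fin.val_one, pow_zero, pow_one, Nat.add_sub_cancel]
  rw [show (s + 1) ^ 2 - (s + 1) = (s + 1) * s by
    rw [Nat.sub_eq_iff_eq_add (by nlinarith)]; ring]
  ring

theorem charP (out : OutStmt.{u}) : CharPStmt.{u} := by
  intro p n H V _ _ _ h L hL d f hn F _ _ a hF h4 ⟨ε⟩
  have := h.finite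
  have hp := h.srm.pp
  have a0 : 0 < a := Nat.pos_of_ne_zero fun e0 => by rw [e0] at h4; simp at h4
  have : NeZero a := ⟨a0.ne'⟩
  obtain ⟨φ, h1, h2⟩ := out H L hL F p a hp hF h4 ⟨ε⟩
  obtain ⟨k, hk⟩ := h.card_eq
  have c1 : L.relIndex (L ⊔ centralizer (L : Set H)) ∣ p ^ f - 1 := by
    rw [sup_comm, relIndex_sup_right]
    exact (relIndex_dvd_card _ _).trans hn.dvd
  have c2 : (L ⊔ centralizer (L : Set H)).index ∣ 2 * a := by
    rw [← relIndex_mul_index h1]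
    refine mul_dvd_mul (h2.trans (Nat.gcd_dvd_left _ _)) ?_
    rw [index_ker]
    simpa using card_subgroup_dvd_card φ.range
  have fn : f < n := by have := hn.n_eq; have := hn.two_le; have := hn.one_le; nlinarith
  obtain ⟨c3, c4⟩ := arith hp h4 hn.one_le fn c1 c2 (k := k) (by
    rw [← hk, ← L.card_mul_index, Nat.card_congr ε.toEquiv, card_sl hF, ← pow_mul, mul_comm a 2,
      mul_assoc _ (relIndex _ _), relIndex_mul_index le_sup_left])
  have c5 : L ⊔ centralizer (L : Set H) = L := le_antisymm (relIndex_eq_one.1 c3) le_sup_left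
  rw [c5] at h1 h2 c4
  have c6 : φ.ker ≤ L := relIndex_eq_one.1 (Nat.eq_one_of_dvd_coprimes (cop hp a0 k)
    (h2.trans (Nat.gcd_dvd_right _ _)) ((relIndex_dvd_index_of_le h1).trans c4))
  obtain ⟨j, -, hj⟩ := (Nat.dvd_prime_pow hp).1 c4
  refine Or.inl ⟨F, inferInstance, inferInstance, ⟨a, hF⟩, by omega, L, hL, ⟨ε⟩, ⟨j, hj⟩, ?_, ?_⟩
  · obtain ⟨⟨_, g, rfl⟩, hg⟩ := IsCyclic.exists_generator (α := φ.range)
    refine ⟨g, eq_top_iff.2 fun x _ => ?_⟩
    obtain ⟨m, hm⟩ := mem_zpowers_iff.1 (hg ⟨φ x, x, rfl⟩)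
    have e : φ g ^ m = φ x := congrArg Subtype.val hm
    have : x * (g ^ m)⁻¹ ∈ L := c6 (by
      rw [MonoidHom.mem_ker, map_mul, map_inv, map_zpow, e, mul_inv_cancel])
    simpa using mul_mem (mem_sup_left this : _ ∈ L ⊔ zpowers g)
      (mem_sup_right (zpow_mem (mem_zpowers g) m))
  · rw [H52.map_center_subtype]
    exact (inf_eq_right.2 (le_sup_right.trans c5.le)).symm

end Cfsg.Agent.H12.GagC
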