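import Mathlib
import Cfsg.Agent.H98.GbH

/-! Associativity of the twisted parabolic induction. -/

set_option autoImplicit false

namespace Cfsg.Agent.H12.GbAssoc

open Cfsg Finset Cfsg.Agent.H98.GB
open scoped MatrixGroups

universe u

/-- The twisted sum over the conjugates. -/
noncomputable def cav {G : Type u} [Group G] [Fintype G] (l : G →* ℂˣ) (φ : G → ℂ) (t : G) : ℂ :=
  ∑ x, (l x : ℂ) * φ (x * t * x⁻¹)

theorem cav_conj {G : Type u} [Group G] [Fintype G] (l : G →* ℂˣ) (φ : G → ℂ) (z t : G) :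
    (l z : ℂ) * cav l φ (z * t * z⁻¹) = cav l φ t := by
  rw [cav, cav, mul_sum, ← Equiv.sum_comp (Equiv.mulRight z) fun x => (l x : ℂ) * φ (x * t * x⁻¹)]
  refine sum_congr rfl fun x _ => ?_
  simp only [Equiv.coe_mulRight, map_mul, Units.val_mul, mul_inv_rev, mul_assoc, mul_left_comm]

section
variable {F : Type u} [Field F] {a b c ab bc n : ℕ}

theorem tri_apply (h : a + b = n) (u : GL (Fin a) F) (x : Matrix (Fin a) (Fin b) F)
    (v : GL (Fin b) F) (p q : Fin a ⊕ Fin b) :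
    (tri h u x v).1 (eqv h p) (eqv h q) = Matrix.fromBlocks u.1 x 0 v.1 p q := by
  simp [coe_tri]

/-- Gluing rows. -/
def rowsE (h : a + b = ab) :
    Matrix (Fin a) (Fin c) F × Matrix (Fin b) (Fin c) F ≃ Matrix (Fin ab) (Fin c) F where
  toFun p := (Matrix.fromRows p.1 p.2).submatrix (eqv h).symm id
  invFun x := ((x.submatrix (eqv h) id).toRows₁, (x.submatrix (eqv h) id).toRows₂)
  left_inv p := by simp
  right_inv x := by simp

/-- Gluing columns. -/
def colsE (h : b + c = bc) :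
    Matrix (Fin a) (Fin b) F × Matrix (Fin a) (Fin c) F ≃ Matrix (Fin a) (Fin bc) F where
  toFun p := (Matrix.fromCols p.1 p.2).submatrix id (eqv h).symm
  invFun x := ((x.submatrix id (eqv h)).toCols₁, (x.submatrix id (eqv h)).toCols₂)
  left_inv p := by simp
  right_inv x := by simp

omit [Field F] in
theorem rowsE_apply (h : a + b = ab) (x : Matrix (Fin a) (Fin c) F) (y : Matrix (Fin b) (Fin c) F)
    (p : Fin a ⊕ Fin b) (k : Fin c) : rowsE h (x, y) (eqv h p) k = Matrix.fromRows x y p k := by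
  simp [rowsE]

omit [Field F] in
theorem colsE_apply (h : b + c = bc) (x : Matrix (Fin a) (Fin b) F) (y : Matrix (Fin a) (Fin c) F)
    (i : Fin a) (p : Fin b ⊕ Fin c) : colsE h (x, y) i (eqv h p) = Matrix.fromCols x y i p := by
  simp [colsE]

/-- The three block identity. -/
theorem tri3 (h1 : ab + c = n) (h2 : a + b = ab) (h3 : a + bc = n) (h4 : b + c = bc)
    (u : GL (Fin a) F) (v : GL (Fin b) F) (w : GL (Fin c) F) (x : Matrix (Fin a) (Fin b) F)
    (y : Matrix (Fin a) (Fin c) F) (z : Matrix (Fin b) (Fin c) F) :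
    tri h1 (tri h2 u x v) (rowsE h2 (y, z)) w = tri h3 u (colsE h4 (x, y)) (tri h4 v z w) := by
  have key : ∀ i : Fin n,
      (∃ p, i = eqv h1 (.inl (eqv h2 (.inl p))) ∧ i = eqv h3 (.inl p)) ∨
      (∃ p, i = eqv h1 (.inl (eqv h2 (.inr p))) ∧ i = eqv h3 (.inr (eqv h4 (.inl p)))) ∨
      (∃ p, i = eqv h1 (.inr p) ∧ i = eqv h3 (.inr (eqv h4 (.inr p)))) := fun i => by
    obtain ⟨p | p, rfl⟩ := (eqv h1).surjective i
    · obtain ⟨p | p, rfl⟩ := (eqv h2).surjective p
      · exact .inl ⟨p, rfl, Fin.ext (by simp [eqv])⟩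
      · exact .inr (.inl ⟨p, rfl, Fin.ext (by simp [eqv])⟩)
    · exact .inr (.inr ⟨p, rfl, Fin.ext (by simp [eqv]; omega)⟩)
  refine Units.ext (Matrix.ext fun i j => ?_)
  rcases key i with ⟨p, e1, e2⟩ | ⟨p, e1, e2⟩ | ⟨p, e1, e2⟩ <;>
    rcases key j with ⟨q, e3, e4⟩ | ⟨q, e3, e4⟩ | ⟨q, e3, e4⟩ <;>
    · refine (congrArg₂ _ e1 e3).trans (Eq.trans ?_ (congrArg₂ _ e2 e4).symm)
      simp [tri_apply, rowsE_apply, colsE_apply]

variable [Fintype F] [DecidableEq F]

omit [DecidableEq F] in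
theorem sum_tri3 (h1 : ab + c = n) (h2 : a + b = ab) (h3 : a + bc = n) (h4 : b + c = bc)
    (u : GL (Fin a) F) (v : GL (Fin b) F) (w : GL (Fin c) F) (Φ : GL (Fin n) F → ℂ) :
    ∑ x, ∑ y, Φ (tri h1 (tri h2 u x v) y w) = ∑ z, ∑ y, Φ (tri h3 u y (tri h4 v z w)) := by
  simp only [← (rowsE h2).sum_comp, ← (colsE h4).sum_comp, Fintype.sum_prod_type, tri3 h1 h2 h3 h4]
  exact (sum_congr rfl fun x _ => sum_comm).trans sum_comm

/-- The order of the parabolic subgroup. -/
noncomputable def nP (F : Type u) [Field F] [Fintype F] [DecidableEq F] (a b : ℕ) : ℂ :=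
  ((Fintype.card (GL (Fin a) F) * Fintype.card (GL (Fin b) F) * Fintype.card F ^ (a * b) : ℕ) : ℂ)

theorem pair_cmp (η : Fˣ →* ℂˣ) (h : a + b = n) (f : GL (Fin a) F → ℂ) (f' : GL (Fin b) F → ℂ)
    (φ : GL (Fin n) F → ℂ) : ∑ g, cmp η h f f' g * φ g =
      (nP F a b)⁻¹ * ∑ u, ∑ v, f u * f' v * ∑ x, cav (dl η n) φ (tri h u x v) := by
  classical
  simp only [H98.GB.cmp, cmpS, true_and, mul_assoc]
  rw [← mul_sum]
  refine congrArg₂ _ (by rw [nP, mul_assoc]) ?_
  simp only [sum_mul, ite_mul, zero_mul, cav, mul_sum]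
  rw [sum_comm]
  refine (sum_congr rfl fun x _ => sum_comm).trans (sum_comm.trans (sum_congr rfl fun u _ => ?_))
  refine (sum_congr rfl fun x _ => sum_comm).trans (sum_comm.trans (Eq.trans ?_ sum_comm))
  refine sum_congr rfl fun y _ => ?_
  refine (sum_congr rfl fun x _ => sum_comm).trans (sum_comm.trans (sum_congr rfl fun v _ => ?_))
  refine sum_congr rfl fun x _ => ?_
  simp only [mul_assoc, sum_ite_eq', mem_univ, if_true, mul_left_comm]

theorem cav_left (η : Fˣ →* ℂˣ) (h : a + b = n) (φ : GL (Fin n) F → ℂ) (t : GL (Fin a) F)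
    (w : GL (Fin b) F) : cav (dl η a) (fun U => ∑ x, cav (dl η n) φ (tri h U x w)) t =
      (Fintype.card (GL (Fin a) F) : ℂ) * ∑ x, cav (dl η n) φ (tri h t x w) := by
  rw [cav, ← nsmul_eq_mul, ← card_univ, ← sum_const]
  refine sum_congr rfl fun y _ => ?_
  have e : ∀ x, tri h (y * t * y⁻¹) (y.1 * x) w = tri h y 0 1 * tri h t x w * (tri h y 0 1)⁻¹ :=
    fun x => by
      rw [eq_mul_inv_iff_mul_eq, tri_mul, tri_mul]
      simp
  have hb : Function.Bijective fun x : Matrix (Fin a) (Fin b) F => y.1 * x :=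
    Finite.injective_iff_bijective.1 fun x x' hx => by
      simpa [← Matrix.mul_assoc] using congrArg ((y⁻¹).1 * ·) hx
  rw [← hb.sum_comp, mul_sum]
  refine sum_congr rfl fun x _ => ?_
  rw [e, ← cav_conj _ _ (tri h y 0 1) (tri h t x w), dl_tri, map_one, mul_one]

theorem cav_right (η : Fˣ →* ℂˣ) (h : a + b = n) (φ : GL (Fin n) F → ℂ) (t : GL (Fin a) F)
    (w : GL (Fin b) F) : cav (dl η b) (fun V => ∑ x, cav (dl η n) φ (tri h t x V)) w =
      (Fintype.card (GL (Fin b) F) : ℂ) * ∑ x, cav (dl η n) φ (tri h t x w) := by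
  rw [cav, ← nsmul_eq_mul, ← card_univ, ← sum_const]
  refine sum_congr rfl fun y _ => ?_
  have e : ∀ x, tri h t (x * (y⁻¹).1) (y * w * y⁻¹) =
      tri h 1 0 y * tri h t x w * (tri h 1 0 y)⁻¹ := fun x => by
    rw [eq_mul_inv_iff_mul_eq, tri_mul, tri_mul]
    simp [Matrix.mul_assoc]
  have hb : Function.Bijective fun x : Matrix (Fin a) (Fin b) F => x * (y⁻¹).1 :=
    Finite.injective_iff_bijective.1 fun x x' hx => by
      simpa [Matrix.mul_assoc] using congrArg (· * y.1) hx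
  rw [← hb.sum_comp, mul_sum]
  refine sum_congr rfl fun x _ => ?_
  rw [e, ← cav_conj _ _ (tri h 1 0 y) (tri h t x w), dl_tri, map_one, one_mul]

end

theorem assoc : ASSOCStmt.{u} := by
  intro F _ _ _ η a b c ab bc n h1 h2 h3 h4 f f' f''
  have key : ∀ φ : GL (Fin n) F → ℂ, ∑ g, cmp η h1 (cmp η h2 f f') f'' g * φ g =
      ∑ g, cmp η h3 f (cmp η h4 f' f'') g * φ g := fun φ => by
    have eL : ∑ U, ∑ w, cmp η h2 f f' U * f'' w * ∑ x, cav (dl η n) φ (tri h1 U x w) =
        (nP F a b)⁻¹ * (Fintype.card (GL (Fin ab) F) : ℂ) * ∑ u, ∑ v, ∑ w,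
          f u * f' v * f'' w * ∑ x, ∑ y, cav (dl η n) φ (tri h1 (tri h2 u x v) y w) := by
      rw [sum_comm]
      simp only [mul_right_comm _ (f'' _), ← sum_mul, pair_cmp, cav_left]
      simp only [mul_sum, sum_mul]
      refine sum_comm.trans (sum_congr rfl fun u _ => sum_comm.trans (sum_congr rfl fun v _ =>
        sum_congr rfl fun w _ => sum_congr rfl fun x _ => sum_congr rfl fun y _ => by ring))
    have eR : ∑ u, ∑ V, f u * cmp η h4 f' f'' V * ∑ x, cav (dl η n) φ (tri h3 u x V) =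
        (nP F b c)⁻¹ * (Fintype.card (GL (Fin bc) F) : ℂ) * ∑ u, ∑ v, ∑ w,
          f u * f' v * f'' w * ∑ z, ∑ y, cav (dl η n) φ (tri h3 u y (tri h4 v z w)) := by
      simp only [mul_assoc (f _), ← mul_sum, pair_cmp, cav_right]
      simp only [mul_sum]
      refine sum_congr rfl fun u _ => sum_congr rfl fun v _ =>
        sum_congr rfl fun w _ => sum_congr rfl fun x _ => sum_congr rfl fun y _ => by ring
    rw [pair_cmp, pair_cmp, eL, eR]
    simp only [sum_tri3 h1 h2 h3 h4, ← mul_assoc]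
    congr 1
    have p1 : ∀ m, (Fintype.card (GL (Fin m) F) : ℂ) ≠ 0 := fun m => by simp
    have p2 : (Fintype.card F : ℂ) ≠ 0 := by simp
    have := p1 a; have := p1 b; have := p1 c; have := p1 ab; have := p1 bc
    subst h2 h4
    simp only [nP]
    push_cast
    field_simp
    ring
  funext g
  simpa [Pi.single_apply] using key (Pi.single g 1)

end Cfsg.Agent.H12.GbAssoc
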