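import Mathlib
import Cfsg.Agent.H98.GbL

/-! Characters of weight zero vanish on the singular elements. -/

set_option autoImplicit false

namespace Cfsg.Agent.H12.GbCore

open Cfsg Finset Cfsg.Agent.H98.GB

universe u

theorem chiS_eq_zero {N e r : ℕ} {S : Finset ℕ} (he : 0 < e) (hS : #S = N) (hw : H19.wgt e S = 0)
    {μ : Multiset ℕ} (hr : r ∈ μ) (h0 : 0 < r) (hd : e ∣ r) : H19.chiS N S μ = 0 := by
  rw [← Multiset.cons_erase hr, H19.chiS_cons hS h0]
  refine sum_eq_zero fun x hx => ?_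
  obtain ⟨h1, h2, h3⟩ := mem_filter.1 hx
  have e1 := H19.sum_eq_baseS he S
  have e2 := H19.sum_eq_baseS he (insert (x - r) (S.erase x))
  rw [H19.cnt_move h1 h2 h3 hd, sum_insert fun h => h3 (mem_of_mem_erase h)] at e2
  rw [hw, ← add_sum_erase S (fun x => x) h1] at e1
  omega

theorem map_sch {A : Type u} [CommRing A] [Algebra ℂ A] (T : A →ₐ[ℂ] A) {N e : ℕ} {S : Finset ℕ}
    {P : ℕ → A} (he : 0 < e) (hS : #S = N) (hw : H19.wgt e S = 0)
    (hP : ∀ k, 0 < k → ¬ e ∣ k → T (P k) = P k) : T (sch N P S) = sch N P S := by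
  rw [sch, map_sum]
  refine sum_congr rfl fun μ hμ => ?_
  have h0 := (H19.mem_Par.1 hμ).2
  by_cases h : ∃ r ∈ μ, e ∣ r
  · obtain ⟨r, hr, hd⟩ := h
    simp [chiS_eq_zero he hS hw hr (h0 r hr) hd]
  · rw [map_smul, map_multiset_prod, Multiset.map_map]
    exact congrArg (fun m : Multiset A => _ • m.prod)
      (Multiset.map_congr rfl fun r hr => hP r (h0 r hr) fun hd => h ⟨r, hr, hd⟩)

theorem core (hN : NWEHStmt.{u}) (hP : PIMStmt.{u}) (hQ : PIPStmt.{u}) (hL : LABStmt.{u}) :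
    COREStmt.{u} := by
  intro F _ _ _ C n _ Λ hΛ hB hw
  obtain ⟨T, hT, hev, -⟩ := hP F 1 C.H C.p C.hp C.hpF
  have key : T (sL C.N C.pp Λ) = sL C.N C.pp Λ := by
    rw [sL, map_prod]
    refine prod_congr rfl fun φ _ => ?_
    by_cases h : C.Reg φ
    · exact map_sch T ((hL F C).eG_pos φ) (hΛ.1 φ) (hw φ h) fun k hk hd => by
        rw [hT, (hQ F C).2.1 φ k hk hd]
    · rw [hB φ h, (hN C.H.A).2.2.2.2.1, map_one]
  rw [Ctx.sC, ← hev, ← hT, key]

end Cfsg.Agent.H12.GbCore
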