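import Cfsg.Agent.H12.J5D
import Cfsg.Agent.H83.J4U

/-!
Local analysis in groups of Janko-four type, part 5: the explicit pure group of order eight.
-/

set_option autoImplicit false
set_option maxRecDepth 100000

namespace Cfsg.Agent.H12.J4

open Subgroup H83.J4 MulAction
open H83 hiding cj mem_cj card_cj
open H42 hiding cj mem_cj card_cj
open H49 (cj mem_cj card_cj cj_eq_iff)

/-- Generators of a linear group. -/
def gL : List ℕ := [714126554533427852635272239090013294, 984605037244087073630786314590926944]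

theorem inM_gL : ∀ g ∈ gL, inM g = true := inM_of_allL (by decide +kernel)

theorem chkE : allB (fun a => Bool.or (!Nat.beq (mv mA2 (lo a)) 0)
    (memL (lo a) [0, 1702, 2724, 3074])) 8192 = true ∧
    cnt (fun a => Nat.beq (cls (lo a)) 3) 8192 = 1386 ∧
    cnt (fun a => memL a [1702, 5798, 2724, 6820]) 8192 = 4 ∧
    (∀ g ∈ gL, ∀ j ∈ [21, 48, 64], cact g j < 128 ∧ mv mA2 (lo (xU (cact g j))) = 0) := by
  decide +kernel

variable {G : Type*} [Group G] [Finite G]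

omit [Finite G] in
theorem E_cases (J : JA G) {u : G} (hu : u ∈ J.pre mA2) :
    ∃ a < 8192, lo a ∈ [0, 1702, 2724, 3074] ∧ J.e a = u := by
  obtain ⟨a, ha, h, rfl⟩ := hu
  have := of_allB chkE.1 ha
  rw [h, beq_iff.2 rfl, Bool.not_true, Bool.false_or, memL_iff] at this
  exact ⟨a, ha, this, rfl⟩

omit [Finite G] in
theorem mem_of_lo (J : JA G) {S : Subgroup G} (hz : J.z ∈ S) {a b : ℕ} (ha : a < 8192)
    (hb : b < 8192) (h : lo a = lo b) (m : J.e b ∈ S) : J.e a ∈ S := by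
  rcases J.e_lo ha hb h with e | e <;> rw [e]
  exacts [m, S.mul_mem m hz]

omit [Finite G] in
theorem gen_E (J : JA G) {S : Subgroup G} (hz : J.z ∈ S) (h1 : J.e 1702 ∈ S) (h2 : J.e 3074 ∈ S) :
    J.pre mA2 ≤ S := fun u hu => by
  obtain ⟨a, ha, h, rfl⟩ := E_cases J hu
  simp only [List.mem_cons, List.not_mem_nil, or_false] at h
  rcases h with h | h | h | h
  · exact mem_of_lo J hz ha (b := 0) (by norm_num) h (J.e_zero ▸ S.one_mem)
  · exact mem_of_lo J hz ha (b := 1702) (by norm_num) h h1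
  · exact mem_of_lo J hz ha (b := qm 1702 3074) (by decide +kernel) (h.trans (by decide +kernel))
      (J.e_mul 1702 (by norm_num) 3074 (by norm_num) ▸ S.mul_mem h1 h2)
  · exact mem_of_lo J hz ha (b := 3074) (by norm_num) h h2

theorem mem_NE (J : JA G) {g : G} (hz : g * J.z * g⁻¹ ∈ J.pre mA2)
    (h1 : g * J.e 1702 * g⁻¹ ∈ J.pre mA2) (h2 : g * J.e 3074 * g⁻¹ ∈ J.pre mA2) :
    g ∈ normalizer (J.pre mA2 : Set G) :=
  mem_N (gen_E J (S := (J.pre mA2).comap (MulAut.conj g).toMonoidHom) hz h1 h2)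

omit [Finite G] in
theorem mem_CE (J : JA G) {g : G} (hz : g ∈ J.HH) (h1 : g ∈ C1 (J.e 1702))
    (h2 : g ∈ C1 (J.e 3074)) : g ∈ centralizer (J.pre mA2 : Set G) := fun _ hu =>
  mem_C1.1 (gen_E J (S := C1 g) (mem_C1.2 (mem_C1.1 hz).symm) (mem_C1.2 (mem_C1.1 h1).symm)
    (mem_C1.2 (mem_C1.1 h2).symm) hu)

theorem ker_le_NE (J : JA G) : J.ker ≤ normalizer (J.pre mA2 : Set G) := fun x hx => by
  have hQ : J.Q ≤ normalizer (J.pre mA2 : Set G) := fun q hq => mem_N fun e he => by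
    rcases J.toHyp.xs.conj hq (J.pre_le _ he) with h | h <;> rw [h]
    exacts [he, mul_mem he (J.z_mem_pre _)]
  have m := inv_mem (mem_N (J.conj_mem_pre (A := mA2) J.kd_ρ (by decide +kernel)))
  rcases (J.toHyp.φ_ker (J.mem_ker.1 hx).1).1 (J.mem_ker.1 hx).2 with h | h | h
  · exact hQ h
  · exact (Subgroup.mul_mem_cancel_right _ m).1 (hQ h)
  · exact (Subgroup.mul_mem_cancel_right _ m).1 ((Subgroup.mul_mem_cancel_right _ m).1 (hQ h))

theorem card_CE (J : JA G) : Nat.card (centralizer (J.pre mA2 : Set G)) = 3932160 := by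
  have l1 : 1702 < 8192 := by norm_num
  have l2 : 3074 < 8192 := by norm_num
  have m1 : J.e 1702 ∈ J.pre mA2 := (J.e_mem_pre l1).2 (by decide +kernel)
  have m2 : J.e 3074 ∈ J.pre mA2 := (J.e_mem_pre l2).2 (by decide +kernel)
  have h1 := card_eq_class J.HH (J.e 3074)
  rw [J.card_HH, ncard_eq_cnt _ J.e (fun a => Nat.beq (cls (lo a)) 3) 8192
    (fun i hi j hj _ _ e => J.e_inj i hi j hj e) fun y => ⟨?_, ?_⟩, chkE.2.1] at h1
  rotate_left
  · rintro ⟨h, hh, rfl⟩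
    obtain ⟨b, hb, k, c, hk, rfl⟩ := J.decomp hh
    have lt := act_lt hk.ok l2
    have hc : cls (lo (act c 3074)) = 3 := by
      rw [lo_act hk.ok, hk.cls _ (lo_lt _)]; decide +kernel
    rw [show J.e b * k * J.e 3074 * (J.e b * k)⁻¹ = J.e b * (k * J.e 3074 * k⁻¹) * (J.e b)⁻¹ by group,
      hk.conj _ l2]
    rcases J.toHyp.xs.conj (J.e_mem b hb) (J.e_mem _ lt) with h | h <;> rw [h]
    · exact ⟨_, lt, beq_iff.2 hc, rfl⟩
    · exact ⟨_, xor_lt13 lt (show 4096 < 8192 by norm_num), beq_iff.2 (by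
        rw [lo_xor]; exact (congrArg cls (Nat.xor_zero _)).trans hc), (J.e_mul_z lt).symm⟩
  · rintro ⟨a, ha, h, rfl⟩
    exact J.conj_of_cls ha l2 ((beq_iff.1 h).trans (by decide +kernel)) (by decide +kernel)
  have hN : ∀ k ∈ J.HH ⊓ C1 (J.e 3074), k * J.e 1702 * k⁻¹ ∈ J.pre mA2 := fun k hk => by
    have := (mem_normalizer_iff.1 (ker_le_NE J (J.mem_ker.2 ⟨J.HH.mul_mem (J.HH.mul_mem hk.1 J.ρH)
      (J.HH.inv_mem hk.1), by rw [J.toHyp.φ_conj hk.1 J.ρH, J.toHyp.φ_ρ]; simp⟩)) _).1 m2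
    rw [← show act kR 3074 = 1702 by decide +kernel, ← J.kd_ρ.conj _ l2]
    convert this using 1
    calc _ = k * J.ρ * k⁻¹ * (k * J.e 3074) * (k * J.ρ)⁻¹ := by group
      _ = _ := by rw [mem_C1.1 hk.2]; group
  have h2 := card_eq_class (J.HH ⊓ C1 (J.e 3074)) (J.e 1702)
  rw [ncard_eq_cnt _ J.e (fun a => memL a [1702, 5798, 2724, 6820]) 8192
    (fun i hi j hj _ _ e => J.e_inj i hi j hj e) fun y => ⟨?_, ?_⟩, chkE.2.2.1,
    show J.HH ⊓ C1 (J.e 3074) ⊓ C1 (J.e 1702) = centralizer (J.pre mA2 : Set G) from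
      le_antisymm (fun g hg => mem_CE J hg.1.1 hg.2 hg.1.2) fun g hg =>
        ⟨⟨mem_C1.2 (hg _ (J.z_mem_pre _)).symm, mem_C1.2 (hg _ m2).symm⟩,
          mem_C1.2 (hg _ m1).symm⟩] at h2
  · omega
  · rintro ⟨k, hk, rfl⟩
    obtain ⟨a, ha, h, e⟩ := E_cases J (hN k hk)
    have h3 : J.e a ∈ C1 k → a = 1702 := fun m => J.e_inj _ ha _ l1
      (mul_left_cancel ((mem_C1.1 m).symm.trans (by rw [e, inv_mul_cancel_right])))
    have h4 := mem_C1.2 (mem_C1.1 hk.1).symm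
    refine ⟨a, ha, memL_iff.2 ?_, e⟩
    simp only [List.mem_cons, List.not_mem_nil, or_false] at h ⊢
    rcases h with h | h | h | h
    · exact Or.inl (h3 (mem_of_lo J h4 ha (b := 0) (by norm_num) h (J.e_zero ▸ one_mem _)))
    · rw [lo_eq] at h; omega
    · rw [lo_eq] at h; omega
    · exact Or.inl (h3 (mem_of_lo J h4 ha l2 h (mem_C1.2 (mem_C1.1 hk.2).symm)))
  · rintro ⟨a, -, h, rfl⟩
    have kw := chk5.2.2.2.1 ▸ J.kd_wd chk5.2.2.1
    have k1 : _ ∈ J.HH ⊓ C1 (J.e 3074) :=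
      ⟨kw.mem, mem_C1.2 (mem_C1.1 ((e_mem_C1 J kw l2).2 (by decide +kernel))).symm⟩
    have l3 : 1 < 8192 := by norm_num
    have k2 : J.e 1 ∈ J.HH ⊓ C1 (J.e 3074) :=
      ⟨J.e_H l3, mem_C1.2 ((J.e_comm l3 l2).2 (by decide +kernel))⟩
    have k3 : J.e 1 * J.e 1702 * (J.e 1)⁻¹ = J.e 5798 := by
      rw [J.e_inv l3, J.e_mul _ l3 _ l1, J.e_mul _ (qm_lt l3 l1) _ (qinv_lt l3)]
      exact congrArg _ (by decide +kernel)
    rw [memL_iff] at h
    simp only [List.mem_cons, List.not_mem_nil, or_false] at h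
    rcases h with rfl | rfl | rfl | rfl
    · exact ⟨1, one_mem _, by simp⟩
    · exact ⟨_, k2, k3⟩
    · exact ⟨_, k1, (kw.conj _ l1).trans (congrArg _ (by decide +kernel))⟩
    · refine ⟨_, mul_mem k1 k2, ?_⟩
      rw [_root_.mul_inv_rev, mul_assoc _ (J.e 1), ← mul_assoc, mul_assoc _ _ (J.e 1)⁻¹, k3]
      exact (kw.conj _ (by norm_num)).trans (congrArg _ (by decide +kernel))

theorem nab_E (J : JA G) : ∃ a ∈ LL (J.pre mA2), ∃ b ∈ LL (J.pre mA2), a * b ≠ b * a := by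
  have h1 : J.Q ⊓ centralizer (J.pre mA2 : Set G) ≤ LL (J.pre mA2) :=
    le_pCoreOf inf_le_right (le_norm_inf (fun c hc => J.lx.nz
      (mem_C1.2 (hc _ (J.z_mem_pre _)).symm)) le_normalizer) J.toHyp.xs.isPGroup.to_inf_left
  have h2 : ∀ a < 8192, bf (lo a) (lo 1702) = 0 → bf (lo a) (lo 3074) = 0 →
      J.e a ∈ LL (J.pre mA2) := fun a ha b c => h1 ⟨J.e_mem a ha, mem_CE J (J.e_H ha)
    (mem_C1.2 ((J.e_comm ha (by norm_num)).2 b)) (mem_C1.2 ((J.e_comm ha (by norm_num)).2 c))⟩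
  exact ⟨_, h2 3 (by norm_num) (by decide +kernel) (by decide +kernel), _,
    h2 9 (by norm_num) (by decide +kernel) (by decide +kernel), fun h =>
      absurd ((J.e_comm (by norm_num) (by norm_num)).1 h) (by decide +kernel)⟩

theorem exists_K (J : JL G) : ∃ K : Subgroup G, K ≤ normalizer (J.pre mA2 : Set G) ∧
    Nat.card K = 168 ∧ K ⊓ centralizer (J.pre mA2 : Set G) = ⊥ := by
  have e1 : J.z = J.χ 64 := by rw [J.χ_lt (by norm_num), xU_64, J.e_z]
  have e2 : J.e 1702 = J.χ 21 := by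
    rw [J.χ_lt (by norm_num)]; exact congrArg _ (by decide +kernel)
  have e3 : J.e 3074 = J.χ 48 := by
    rw [J.χ_lt (by norm_num)]; exact congrArg _ (by decide +kernel)
  refine ⟨(gen gL).map J.lam, map_le_iff_le_comap.2 (gen_le _ fun g hg => ?_), ?_,
    eq_bot_iff.2 ?_⟩
  · have : ∀ j ∈ [21, 48, 64], J.lam (toM g) * J.χ j * (J.lam (toM g))⁻¹ ∈ J.pre mA2 :=
      fun j hj => by
        obtain ⟨a, b⟩ := chkE.2.2.2 g hg j hj
        rw [J.lam_χ (inM_gL g hg) (by clear a b; revert j; decide), J.χ_lt a]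
        exact (J.e_mem_pre (xU_lt _)).2 b
    exact mem_NE J.toJA (e1 ▸ this _ (by simp)) (e2 ▸ this _ (by simp)) (e3 ▸ this _ (by simp))
  · rw [card_map_of_injective J.lam_inj]
    exact card_gen_of_orbSize inM_gL (fuel := 180) (by norm_num) (by decide +kernel)
  · rintro _ ⟨⟨g, hg, rfl⟩, hc⟩
    obtain ⟨y, hy, rfl, h⟩ := forall_gen inM_gL (fuel := 180) (p := fun y => Bool.or
      (Nat.beq y pid) (!allL (fun j => Nat.beq (cact y j) j) [21, 48, 64])) (by decide +kernel) hg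
    have : ∀ j < 2048, J.χ j ∈ J.pre mA2 → Nat.beq (cact y j) j = true := fun j hj m =>
      beq_iff.2 (J.χ_inj (cact_lt hy j) hj (by rw [← J.lam_χ hy hj, ← hc _ m, mul_inv_cancel_right]))
    rw [allL_iff.2 fun j hj => by
      simp only [List.mem_cons, List.not_mem_nil, or_false] at hj
      rcases hj with rfl | rfl | rfl <;> refine this _ (by norm_num) ?_
      · exact e2 ▸ (J.e_mem_pre (by norm_num)).2 (by decide +kernel)
      · exact e3 ▸ (J.e_mem_pre (by norm_num)).2 (by decide +kernel)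
      · exact e1 ▸ J.z_mem_pre _, Bool.not_true, Bool.or_false, beq_iff] at h
    rw [h, toM_pid, map_one]
    exact one_mem _

theorem exists_P7 (J : JL G) (h7 : ∀ t : G, orderOf t = 7 → ∃ I : Subgroup G,
    IsInternalDirectProduct (zpowers t) I (centralizer (zpowers t : Set G)) ∧
      Nonempty (I ≃* Equiv.Perm (Fin 5))) : ∃ s t I, P7 s t (J.pre mA2) I := by
  have := Fact.mk Nat.prime_seven
  obtain ⟨s, hs, h5⟩ := exists_s5 J.toJA
  have h := c5_E J hs h5 J.σ2_B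
  obtain ⟨⟨t, ht⟩, h1⟩ := exists_prime_orderOf_dvd_card' (G := C1 s) 7 (by rw [h.cardC]; norm_num)
  rw [orderOf_mk] at h1
  obtain ⟨I, h2, h3⟩ := h7 t h1
  exact ⟨s, t, I, h, h1, ht, h2, h3, card_CE J.toJA, nab_E J.toJA⟩

end Cfsg.Agent.H12.J4
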