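import Cfsg.Agent.H12.J5E
import Cfsg.Agent.H12.J5F

/-!
Local analysis in groups of Janko-four type, part 7: an explicit element of order seven.
-/

set_option autoImplicit false
set_option maxRecDepth 100000

namespace Cfsg.Agent.H12.J4

open Subgroup H83.J4 MulAction
open H83 hiding cj mem_cj card_cj
open H42 hiding cj mem_cj card_cj
open H49 (cj mem_cj card_cj cj_eq_iff)

/-- An element of order seven. -/
def p7 : ℕ := 962708951059373807838647307010607808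
/-- An involution. -/
def pK : ℕ := 15156794775984127812407954024958199
/-- An element of order three. -/
def pR3 : ℕ := 14487091665082565677214957208886498
/-- A code of order seven. -/
def c7 : ℕ := 47744559647554147759405202492404572289495121775742895876266828986316167991013734690260552384
/-- An outer code. -/
def cK : ℕ := 29919954838028950985483016614954625531626445260359132213085886160051907188963104339669813495

theorem inM_42 : ∀ g ∈ [p7, pK, pR3], inM g = true := inM_of_allL (by decide +kernel)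
theorem inM_14 : ∀ g ∈ [p7, pK], inM g = true := inM_of_allL (by decide +kernel)
theorem inM_6 : ∀ g ∈ [pK, pR3], inM g = true := inM_of_allL (by decide +kernel)
theorem inM_p7 : inM p7 = true := by decide +kernel
theorem inM_pK : inM pK = true := by decide +kernel
theorem inM_pR3 : inM pR3 = true := by decide +kernel

theorem cent7 : gen [p7, pK, pR3] = C1 (toM p7) :=
  eq_of_le_of_card_ge (gen_le _ fun g hg => mem_C1.2 ((comm_iff (inM_42 g hg) inM_p7).1
    (allL_iff.1 (show allL (fun g => comm g p7) [p7, pK, pR3] = true by decide +kernel) g hg))) (by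
  rw [card_gen_of_orbSize inM_42 (fuel := 50) (n := 42) (by norm_num) (by decide +kernel)]
  exact (cent_le (b := 1) (F := 4195898) (n := 2) (steps := [(23,12584506,12584506),
    (0,8388613,8388613),(2,8388613,8388613),(21,14716939,6832158),(8,10486557,10486557),
    (15,14716939,10846245),(12,14716939,14716939),(20,11538486,11538486),(7,3182981,3182981),
    (17,12222476,13811730),(19,12222476,12222476),(14,13811730,13811730),(11,11163650,11163650),
    (13,1728778,1728778),(16,14919680,14919680),(18,2422785,2422785),(6,16777215,16777215)])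
    inM_p7 (by norm_num) (by decide +kernel) (by decide +kernel) (by norm_num)
    (by decide +kernel)).trans (by decide +kernel))

theorem card14 : Nat.card (gen [p7, pK]) = 14 :=
  card_gen_of_orbSize inM_14 (fuel := 20) (by norm_num) (by decide +kernel)

theorem mem14 {g : M24} (h1 : g ∈ GD2) (h2 : g ∈ C1 (toM p7)) : g ∈ gen [p7, pK] := by
  obtain ⟨y, hy, rfl, h⟩ := forall_gen inM_42 (fuel := 50) (p := fun y => Bool.or (!inD2 y)
    (anyB (fun i => Bool.or (Nat.beq y (ppow p7 i)) (Nat.beq y (pmul (ppow p7 i) pK))) 7))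
    (by decide +kernel) (cent7.ge h2)
  rw [inD2_of_mem hy h1, Bool.not_true, Bool.false_or] at h
  obtain ⟨i, -, h⟩ := anyB_iff.1 h
  have m : toM (ppow p7 i) ∈ gen [p7, pK] := by
    rw [toM_ppow inM_p7]; exact pow_mem (toM_mem_gen (by simp)) i
  rcases Bool.or_eq_true_iff.1 h with h | h <;> rw [beq_iff.1 h]
  · exact m
  · rw [toM_pmul (inM_ppow inM_p7 i) inM_pK]
    exact mul_mem m (toM_mem_gen (by simp))

theorem invol14 {g : M24} (h1 : g ∈ gen [p7, pK]) (h2 : g * g = 1) : g = 1 ∨ g = toM pK := by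
  obtain ⟨y, hy, rfl, h⟩ := forall_gen inM_14 (fuel := 20) (p := fun y => Bool.or
    (!Nat.beq (pmul y y) pid) (Bool.or (Nat.beq y pid) (Nat.beq y pK))) (by decide +kernel) h1
  rw [← toM_pmul hy hy, toM_eq_one_iff (inM_pmul hy hy)] at h2
  rw [h2, beq_iff.2 rfl] at h
  rcases Bool.or_eq_true_iff.1 (show (y.beq pid || y.beq pK) = true from h) with h | h <;>
    rw [beq_iff.1 h]
  exacts [Or.inl toM_pid, Or.inr rfl]

theorem chk7 : okW 6 [4, 2, 1, 1] = true ∧ kW [4, 2, 1, 1] = c7 ∧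
    okW 6 [5, 4, 1, 4, 1, 4] = true ∧ kW [5, 4, 1, 4, 1, 4] = cK ∧ km (kpw c7 7) = mI ∧
    kp c7 = p7 ∧ kp cK = pK ∧ ko c7 = 0 ∧ ko cK = 1 ∧ mm (km c7) (km cK) = mm (km cK) (km c7) ∧
    okW 6 [1, 1, 1, 1, 1] = true ∧
    mm (km cK) (km (kW [1, 1, 1, 1, 1])) = mm (km (kW [1, 1, 1, 1, 1])) (km cO1) ∧
    allB (fun a => Bool.or (!Nat.beq (act c7 a) a) (Nat.beq (lo a) 0)) 8192 = true ∧
    cnt (fun a => Nat.beq (act c7 a) a) 8192 = 2 ∧
    allB (fun j => Bool.or (!Nat.beq (cact p7 j) j) (memL j [0, 88, 106, 50])) 2048 = true ∧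
    cnt (fun j => Nat.beq (cact p7 j) j) 2048 = 4 := by decide +kernel

theorem ord_p7 : orderOf (toM p7) = 7 :=
  haveI := Fact.mk Nat.prime_seven
  orderOf_toM_prime inM_p7 (by decide +kernel) (by decide +kernel)

variable {G : Type*} [Group G] [Finite G]

theorem H7_0 (J : JL G) : ∃ s ∈ J.HH, orderOf s = 7 ∧ Nat.card ↥(C1 s ⊓ C1 J.z) = 84 ∧
    ∃ σ τ ρ : G, IsConj J.z σ ∧ ¬ IsConj J.z τ ∧ ∀ x ∈ C1 s, x * J.z = J.z * x → x * x = 1 →
      x = 1 ∨ x = J.z ∨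
        ∃ i : Fin 3, x = ρ ^ i.1 * σ * (ρ ^ i.1)⁻¹ ∨ x = ρ ^ i.1 * τ * (ρ ^ i.1)⁻¹ := by
  have := Fact.mk Nat.prime_seven
  obtain ⟨c1, c2, c3, c4, c5, c6, c8, c9, c10, c11, c12, c13, c14, c15, -⟩ := chk7
  obtain ⟨s, hs, h7⟩ := exists_odd J.toJA (c2 ▸ J.kd_wd c1) (by decide) c5
  have hk := c4 ▸ J.kd_wd c3
  generalize wd J.k [5, 4, 1, 4, 1, 4] = k at hk
  have kC : k ∈ C1 s :=
    mem_C1.2 (mul_inv_eq_iff_eq_mul.1 (conj_odd J.toJA hk hs hs c11 (by decide) h7 h7))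
  have ρC : J.ρ ∈ C1 s := mem_C1.2 ((J.kd_comm_iff hs).2 c9).symm
  have φs : J.toHyp.φ s = toM p7 := by rw [hs.φ, c6]
  have φk : J.toHyp.φ k = toM pK := by rw [hk.φ, c8]
  have φx : ∀ x ∈ J.HH, x ∈ C1 s → J.toHyp.φ x ∈ gen [p7, pK] := fun x hx h =>
    mem14 (J.toHyp.φ_mem x) (mem_C1.2 (by
      rw [← φs, ← J.toHyp.φ_mul hx hs.mem, mem_C1.1 h, J.toHyp.φ_mul hs.mem hx]))
  have fix : ∀ a < 8192, J.e a ∈ C1 s → J.e a = 1 ∨ J.e a = J.z := fun a ha h => by
    have := of_allB c14 ha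
    rw [(e_mem_C1 J.toJA hs ha).1 h, beq_iff.2 rfl, Bool.not_true, Bool.false_or, beq_iff] at this
    exact eq_of_lo J.toJA ha this
  have lab : IsConj J.z k ↔ ¬ IsConj J.z (J.z * k) := by
    have kw := J.kd_wd c12
    have e0 := J.toHyp.conj_z kw.mem
    have l := J.σ1_label
    rw [← isConj_conj_iff (wd J.k [1, 1, 1, 1, 1]), ← isConj_conj_iff (wd J.k [1, 1, 1, 1, 1])
      (u := J.z * J.σ1), ← conj_mul, e0] at l
    rcases J.conj_uniq kw J.kd_σ1 hk c13 with e | e <;> rw [e] at l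
    · exact l
    · rw [mem_C1.1 hk.mem, ← mul_assoc, J.toHyp.zz, one_mul] at l
      tauto
  have inv : ∀ x ∈ C1 s, x * J.z = J.z * x → x * x = 1 → x = 1 ∨ x = J.z ∨ ∃ i : Fin 3,
      x = J.ρ ^ i.1 * k * (J.ρ ^ i.1)⁻¹ ∨ x = J.ρ ^ i.1 * (J.z * k) * (J.ρ ^ i.1)⁻¹ := by
    intro x hx hz xx
    have xH : x ∈ J.HH := mem_C1.2 hz
    rcases invol14 (φx x xH hx) (by rw [← J.toHyp.φ_mul xH xH, xx, J.toHyp.φ_one]) with e | e
    · obtain ⟨a, ha, rfl⟩ := J.e_surj _ (J.mem_Q_of_sq xH e xx)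
      exact (fix a ha hx).imp_right Or.inl
    · obtain ⟨n, a, ha, e1⟩ := J.eq_ek_outer hk c10 xH (e.trans φk.symm)
      have e2 : J.ρ ^ (2 * n % 3) = (J.ρ ^ n)⁻¹ := by
        rw [← pow_eq_pow_mod _ J.ρ3, eq_inv_iff_mul_eq_one, ← pow_add, show 2 * n + n = 3 * n by ring,
          pow_mul, J.ρ3, one_pow]
      refine Or.inr (Or.inr ⟨⟨2 * n % 3, Nat.mod_lt _ (by norm_num)⟩, ?_⟩)
      rw [e2]
      rcases fix a ha ((Subgroup.mul_mem_cancel_right _ kC).1 (e1 ▸ mul_mem (mul_mem (pow_mem ρC n) hx)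
        (inv_mem (pow_mem ρC n)))) with e3 | e3 <;> rw [e3] at e1
      · exact Or.inl (by rw [← one_mul k, ← e1]; group)
      · exact Or.inr (by rw [← e1]; group)
  refine ⟨s, hs.mem, orderOf_eq_prime h7 fun h => ?_, ?_, ?_⟩
  · have := ord_p7
    rw [← φs, h, J.toHyp.φ_one, orderOf_one] at this
    norm_num at this
  · rw [J.card_im inf_le_right (F := J.ker) fun y hy => ⟨fun h => J.mem_ker.2 ⟨hy.2, h⟩,
      fun h => (J.mem_ker.1 h).2⟩, card_ker3 J.toJA (mem_inf.2 ⟨ρC, J.ρH⟩),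
      card_Q J.toJA _ fun x hx => ?_, c15, le_antisymm (show J.im _ ≤ gen [p7, pK] from fun g hg => ?_)
      (gen_le _ fun g hg => ?_), card14]
    · obtain ⟨x, h1, h2, rfl⟩ := J.mem_im.1 hg
      exact φx x h2 h1.1
    · rcases List.mem_pair.1 hg with rfl | rfl
      · exact J.mem_im.2 ⟨s, ⟨mem_C1.2 rfl, hs.mem⟩, hs.mem, φs⟩
      · exact J.mem_im.2 ⟨k, ⟨kC, hk.mem⟩, hk.mem, φk⟩
    · rw [mem_inf, e_mem_C1 J.toJA hs hx, beq_iff]
      exact and_iff_left (J.e_H hx)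
  · by_cases h : IsConj J.z k
    · exact ⟨_, _, _, h, lab.1 h, inv⟩
    · exact ⟨_, _, _, by_contra fun h' => h (lab.2 h'), h, fun x a b c =>
        (inv x a b c).imp_right (Or.imp_right fun ⟨i, e⟩ => ⟨i, e.symm⟩)⟩

theorem H7 (J : JL G) {s w : G} (hw : IsConj J.z w) (hs : orderOf s = 7) (h : s ∈ C1 w) :
    Nat.card ↥(C1 s ⊓ C1 w) = 84 ∧
    ∃ σ τ ρ : G, IsConj J.z σ ∧ ¬ IsConj J.z τ ∧ ∀ x ∈ C1 s, x * w = w * x → x * x = 1 →
      x = 1 ∨ x = w ∨
        ∃ i : Fin 3, x = ρ ^ i.1 * σ * (ρ ^ i.1)⁻¹ ∨ x = ρ ^ i.1 * τ * (ρ ^ i.1)⁻¹ := by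
  have := Fact.mk Nat.prime_seven
  obtain ⟨s0, h0, h1, h2, σ, τ, ρ, h3, h4, h5⟩ := H7_0 J
  obtain ⟨g, rfl⟩ := isConj_iff.1 hw
  rw [← H49.cj_centralizer_singleton, mem_cj] at h
  obtain ⟨c, hc, e⟩ := conj_zp (by rw [J.card_HH]; norm_num) h0 h h1
    (by simpa using (ord_conj g⁻¹ s).trans hs)
  have e1 : g * J.z * g⁻¹ = g * c * J.z * (g * c)⁻¹ := by
    rw [mul_assoc g c, mem_C1.1 hc]; group
  have e2 : C1 s = cj (C1 s0) (g * c) := by
    rw [← cent_zp, ← cent_zp, H49.cj_centralizer, H49.cj_mul, e, H49.cj_zpowers]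
    congr 3; group
  rw [e1, e2]
  generalize g * c = a
  refine ⟨by rw [← H49.cj_centralizer_singleton, ← H49.cj_inf, card_cj, h2], a * σ * a⁻¹,
    a * τ * a⁻¹, a * ρ * a⁻¹, isConj_conj h3 a, fun e => h4 ((isConj_conj_iff a).1 e), ?_⟩
  rintro _ ⟨x, hx, rfl⟩ b c
  change a * x * a⁻¹ * _ = _ * (a * x * a⁻¹) at b
  change a * x * a⁻¹ * (a * x * a⁻¹) = _ at c
  rw [conj_mul, conj_mul, mul_left_inj, mul_right_inj] at b
  rw [conj_mul, conj_eq_one_iff] at c
  rcases h5 x hx b c with e | e | ⟨i, e | e⟩ <;> rw [e]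
  · exact Or.inl (map_one _)
  · exact Or.inr (Or.inl rfl)
  · exact Or.inr (Or.inr ⟨i, Or.inl (by rw [conj_pow, conj_mul, conj_inv, conj_mul]; rfl)⟩)
  · exact Or.inr (Or.inr ⟨i, Or.inr (by rw [conj_pow, conj_mul, conj_inv, conj_mul]; rfl)⟩)

theorem lam_C1 (J : JL G) {g : M24} (h : g ∈ C1 (toM p7)) : J.lam g ∈ C1 (J.lam (toM p7)) :=
  mem_C1.2 (by rw [← map_mul, mem_C1.1 h, map_mul])

theorem χ_C1 (J : JL G) {j : ℕ} (hj : j < 2048) :
    J.χ j ∈ C1 (J.lam (toM p7)) ↔ cact p7 j = j := by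
  rw [mem_C1, eq_comm, ← mul_inv_eq_iff_eq_mul, J.lam_χ inM_p7 hj]
  exact ⟨J.χ_inj (cact_lt inM_p7 j) hj, fun h => by rw [h]⟩

theorem card_BV (J : JL G) {B : Subgroup M24} (h : B ≤ C1 (toM p7)) :
    Nat.card ↥(B.map J.lam ⊔ J.V ⊓ C1 (J.lam (toM p7))) = Nat.card B * 4 := by
  have h1 := H3.card_sup_mul_card_inf_of_le_normalizer (H := B.map J.lam) (le_norm_inf
    (map_le_iff_le_comap.2 fun g _ => J.lamM g)
    (map_le_iff_le_comap.2 fun g hg => le_normalizer (lam_C1 J (h hg))))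
  have h2 := ncard_eq_cnt ((J.V ⊓ C1 (J.lam (toM p7)) : Subgroup G) : Set G) J.χ
    (fun j => Nat.beq (cact p7 j) j) 2048 (fun i hi j hj _ _ e => J.χ_inj hi hj e) fun x =>
      ⟨fun hx => by
        obtain ⟨j, hj, rfl⟩ := J.exists_χ hx.1
        exact ⟨j, hj, beq_iff.2 ((χ_C1 J hj).1 hx.2), rfl⟩, by
        rintro ⟨j, hj, h, rfl⟩
        exact ⟨J.χ_mem hj, (χ_C1 J hj).2 (beq_iff.1 h)⟩⟩
  rw [chk7.2.2.2.2.2.2.2.2.2.2.2.2.2.2.2, ← Nat.card_coe_set_eq, SetLike.coe_sort_coe] at h2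
  rwa [← inf_assoc, J.map_inf_V, bot_inf_eq, card_bot, mul_one, h2,
    card_map_of_injective J.lam_inj] at h1

theorem m7 (J : JL G) :
    M7 J.z (J.lam (toM p7)) J.t (J.χ 106) (J.lam (toM pK)) (J.lam (toM pR3)) := by
  have et : J.t = J.χ 88 := J.t_eq.trans (congrArg _ (by decide +kernel))
  have e50 : J.t * J.χ 106 = J.χ 50 := by
    rw [et, J.χ_mul (by norm_num) (by norm_num)]; rfl
  have m : ∀ g ∈ [p7, pK, pR3], toM g ∈ C1 (toM p7) := fun g hg => cent7.le (toM_mem_gen hg)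
  have o2 : orderOf (toM pK) = 2 :=
    orderOf_toM_prime inM_pK (by decide +kernel) (by decide +kernel)
  have uu : J.lam (toM pK) * J.lam (toM pK) = 1 := by
    rw [← map_mul, (H49.orderOf_two_iff.1 o2).2, map_one]
  have zu := J.lam_A o2 (by rw [card_fixSet_toM inM_pK]; decide +kernel)
  have o7 : orderOf (J.lam (toM p7)) = 7 := (orderOf_injective _ J.lam_inj _).trans ord_p7
  have uK := lam_C1 J (m pK (by simp))
  have dec : ∀ x ∈ C1 (J.lam (toM p7)), x * J.t = J.t * x → ∃ j < 2048, cact p7 j = j ∧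
      ∃ g ∈ gen [p7, pK], x = J.χ j * J.lam g := fun x hx ht => by
    have hM := J.cent_t ht
    have h1 : J.μ x ∈ C1 (toM p7) := mem_C1.2 (by
      rw [← J.μ_lam (toM p7), ← J.μ_mul hM (J.lamM _), mem_C1.1 hx, J.μ_mul (J.lamM _) hM])
    obtain ⟨j, hj, e⟩ := J.decompM hM
    exact ⟨j, hj, (χ_C1 J hj).1 ((Subgroup.mul_mem_cancel_right _ (lam_C1 J h1)).1 (e ▸ hx)), _,
      mem14 ((J.comm_t_iff hM).1 ht) h1, e⟩
  have h84 := H7 J zu o7 (mem_C1.2 (mem_C1.1 uK).symm)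
  refine ⟨o7, (χ_C1 J (by norm_num)).2 (by decide +kernel), uK, lam_C1 J (m pR3 (by simp)),
    et ▸ (χ_C1 J (by norm_num)).2 (by decide +kernel), J.tt, uu, J.t_ne,
    fun e => J.toHyp.z_ne (isConj_one_left.1 (e ▸ zu)), J.V_comm J.t_mem (J.χ_mem (by norm_num)),
    by rw [e50, J.lam_χ inM_pK (by norm_num)]; exact congrArg _ (by decide +kernel),
    by rw [et, J.lam_χ inM_pR3 (by norm_num)]; exact congrArg _ (by decide +kernel), zu, J.t_B,
    ?_, fun x hx ht xx => ?_, h84.1, h84.2, _, ?_, (card_BV J (B := gen [pK, pR3]) (gen_le _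
      fun g hg => m g (List.mem_cons_of_mem _ hg))).trans (by
        rw [card_gen_of_orbSize inM_6 (fuel := 10) (n := 6) (by norm_num) (by decide +kernel)]),
    mem_sup_left (mem_map_of_mem _ (toM_mem_gen (by simp)))⟩
  · have h1 : gen [p7, pK] ≤ C1 (toM p7) := gen_le _ fun g hg => m g (by
      rcases List.mem_pair.1 hg with rfl | rfl <;> simp)
    refine (congrArg (fun K : Subgroup G => Nat.card K) ?_).trans
      ((card_BV J h1).trans (by rw [card14]))
    refine le_antisymm (fun x hx => ?_) (sup_le (map_le_iff_le_comap.2 fun g hg =>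
      mem_inf.2 ⟨lam_C1 J (h1 hg), mem_C1.2 ((J.comm_t_iff (J.lamM g)).2 ?_)⟩)
      fun x hx => ⟨hx.2, mem_C1.2 (J.V_comm hx.1 J.t_mem)⟩)
    · obtain ⟨j, hj, h, g, hg, rfl⟩ := dec x hx.1 (mem_C1.1 hx.2)
      exact mul_mem (mem_sup_right ⟨J.χ_mem hj, (χ_C1 J hj).2 h⟩) (mem_sup_left (mem_map_of_mem _ hg))
    · rw [J.μ_lam]
      exact gen_le GD2 (fun g hg => mem_of_inD2 g (inM_14 g hg) (allL_iff.1
        (show allL inD2 [p7, pK] = true by decide +kernel) g hg)) hg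
  · obtain ⟨j, hj, h, g, hg, rfl⟩ := dec x hx ht
    have h1 := of_allB chk7.2.2.2.2.2.2.2.2.2.2.2.2.2.2.1 hj
    rw [h, beq_iff.2 rfl, Bool.not_true, Bool.false_or, memL_iff] at h1
    have hM := J.M.mul_mem (J.V_le_M (J.χ_mem hj)) (J.lamM g)
    rcases invol14 hg (by rw [← J.μ_vl (J.χ_mem hj) g, ← J.μ_mul hM hM, xx, J.μ_one]) with rfl | rfl
    · rw [map_one, mul_one, e50, et]
      simp only [List.mem_cons, List.not_mem_nil, or_false] at h1
      rcases h1 with rfl | rfl | rfl | rfl <;> simp [J.χ_zero]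
    · have h2 := J.fix_of_sq (J.lamM _) uu inM_pK (J.μ_lam _) hj xx
      simp only [List.mem_cons, List.not_mem_nil, or_false] at h1
      rcases h1 with rfl | rfl | rfl | rfl
      · simp [J.χ_zero]
      · simp [et]
      · exact absurd h2 (by decide +kernel)
      · exact absurd h2 (by decide +kernel)
  · exact sup_le (map_le_iff_le_comap.2 (gen_le _ fun g hg =>
      lam_C1 J (m g (List.mem_cons_of_mem _ hg)))) inf_le_right

theorem h7 (J : JL G) (t : G) (ht : orderOf t = 7) : ∃ I : Subgroup G,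
    IsInternalDirectProduct (zpowers t) I (centralizer (zpowers t : Set G)) ∧
      Nonempty (I ≃* Equiv.Perm (Fin 5)) := by
  have := Fact.mk Nat.prime_seven
  have h := m7 J
  have cz := fun {a b : G} => conj_zp (p := 7) (K := ⊤) (by rw [card_top]; exact h.not_dvd)
    (mem_top a) (mem_top b)
  obtain ⟨s, hs, h5⟩ := exists_s5 J.toJA
  have c := c5_E J hs h5 J.σ2_B
  obtain ⟨⟨q, hq⟩, h1⟩ := exists_prime_orderOf_dvd_card' (G := C1 s) 7 (by rw [c.cardC]; norm_num)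
  rw [orderOf_mk] at h1
  obtain ⟨a, -, e⟩ := cz h1 h.ord
  obtain ⟨I, h2, ⟨f⟩⟩ := h.main (by
    rw [← cent_zp, ← e, ← H49.cj_centralizer, card_cj, cent_zp, ← c.ord]
    exact Subgroup.orderOf_dvd_natCard _ (mem_C1.2 (mem_C1.1 hq).symm))
  obtain ⟨b, -, e⟩ := cz h.ord ht
  exact ⟨cj I b, by rw [← e, ← H49.cj_centralizer]; exact idp_cj h2 b,
    ⟨(cjEquiv I b).symm.trans f⟩⟩

theorem cardN7 (J : JL G) {t : G} (ht : orderOf t = 7) : ¬ 49 ∣ Nat.card G ∧
    Nat.card (C1 t) = 840 ∧ Nat.card (normalizer (zpowers t : Set G)) = 2520 := by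
  have := Fact.mk Nat.prime_seven
  have h0 := (m7 J).not_dvd
  obtain ⟨s, q, I, h⟩ := exists_P7 J (h7 J)
  obtain ⟨c, -, e⟩ := conj_zp (K := ⊤) (by rw [card_top]; exact h0) (mem_top q) (mem_top t) h.ordt ht
  rw [← cent_zp, ← e, ← cj_N, ← H49.cj_centralizer, card_cj, card_cj, cent_zp]
  refine ⟨h0, h.cardt, ?_⟩
  obtain ⟨K, k1, k2, k3⟩ := exists_K J
  obtain ⟨ν, φ, -, -, -, n4⟩ := exists_rep h.sq h.card
  have h1 : Function.Bijective (φ.comp (inclusion k1)) :=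
    (Nat.bijective_iff_injective_and_card _).2 ⟨(injective_iff_map_eq_one _).2 fun a ha =>
      Subtype.ext (mem_bot.1 (k3.le ⟨a.2, (n4 _).1 ha⟩)), k2.trans H49.card_SL32.symm⟩
  have h2 := φ.ker.card_mul_index
  rw [index_ker, φ.range_eq_top.2 (Function.Surjective.of_comp (g := inclusion k1) h1.2), card_top,
    H49.card_SL32, show φ.ker = (centralizer _).subgroupOf _ from Subgroup.ext n4,
    card_subgroupOf (centralizer_le_normalizer _), h.cardE] at h2
  obtain ⟨S, hS⟩ := exists_sylow (s := (⟨q, h.tN⟩ : normalizer (J.pre mA2 : Set G)))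
    ((orderOf_mk _ _).trans h.ordt) (by rw [← h2]; norm_num)
  have h3 := card_sylow_modEq_one 7 (normalizer (J.pre mA2 : Set G))
  rw [S.card_eq_index_normalizer, ← Sylow.coe_coe, hS, show zpowers (⟨q, h.tN⟩ : normalizer (J.pre mA2 : Set G)) =
    (zpowers q).subgroupOf _ from (comap_map_eq_self_of_injective (subtype_injective _) _).symm.trans
      (by rw [MonoidHom.map_zpowers]; rfl), ← subgroupOf_normalizer_eq (zpowers_le.2 h.tN)] at h3
  have h4 := rel_mul h.Nt_le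
  obtain ⟨r, r1, r2, -⟩ := card_N h.ordt
  rw [← h2, r2, h.cardt] at h4
  rw [r2, h.cardt]
  change relIndex _ _ % 7 = 1 at h3
  have := Nat.le_of_dvd (by norm_num) r1
  interval_cases r <;> omega

end Cfsg.Agent.H12.J4
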