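import Mathlib
import Cfsg.Agent.H20.SpLat

/-! Lattice and numerical part of the character argument for `3³ : S₄`. -/

set_option autoImplicit false

namespace Cfsg.Agent.H12.L3

open Cfsg.Agent.H64.Br Cfsg.Agent.H20.SC

variable {V : Type*} [AddCommGroup V] {B : V →ₗ[ℤ] V →ₗ[ℤ] ℤ}

/-- Degrees, values on two classes and class algebra sums. -/
structure Dat (B : V →ₗ[ℤ] V →ₗ[ℤ] ℤ) where
  /-- degree -/
  d : V →+ ℂ
  /-- first value -/
  u : V →+ ℂ
  /-- second value -/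
  t : V →+ ℂ
  /-- first sum -/
  p : V →+ ℂ
  /-- mixed sum -/
  q : V →+ ℂ
  /-- second sum -/
  r : V →+ ℂ
  ne : ∀ x, B x x = 1 → d x ≠ 0
  pp : ∀ x, B x x = 1 → p x = u x * u x / d x
  qq : ∀ x, B x x = 1 → q x = u x * t x / d x
  rr : ∀ x, B x x = 1 → r x = t x * t x / d x

/-- The local values of a vector. -/
structure Dat.Loc (D : Dat B) (v : V) (a b c : ℂ) : Prop where
  d : D.d v = 0
  u : D.u v = 0
  t : D.t v = 0
  p : D.p v = a
  q : D.q v = b
  r : D.r v = c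

namespace Dat

variable {D : Dat B} {v w x y z : V} {a b c a' b' c' : ℂ}

theorem Loc.add (h : D.Loc v a b c) (k : D.Loc w a' b' c') :
    D.Loc (v + w) (a + a') (b + b') (c + c') := by
  constructor <;> simp [h.d, h.u, h.t, h.p, h.q, h.r, k.d, k.u, k.t, k.p, k.q, k.r]

theorem Loc.sub (h : D.Loc v a b c) (k : D.Loc w a' b' c') :
    D.Loc (v - w) (a - a') (b - b') (c - c') := by
  constructor <;> simp [h.d, h.u, h.t, h.p, h.q, h.r, k.d, k.u, k.t, k.p, k.q, k.r]

theorem Loc.rk0 (h : D.Loc v a b c) (hx : B x x = 1) (hy : B y y = 1) (e : v = 2 • x + y) :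
    a = 0 ∧ c = 0 := by
  subst e
  obtain ⟨h1, h2, h3, h4, -, h6⟩ := h
  have n1 := D.ne x hx
  simp only [map_add, map_nsmul, nsmul_eq_mul, Nat.cast_ofNat, D.pp _ hx, D.pp _ hy, D.rr _ hx,
    D.rr _ hy, add_eq_zero_iff_neg_eq] at h1 h2 h3 h4 h6
  rw [← h4, ← h6, ← h1, ← h2, ← h3]
  constructor <;> field_simp <;> ring

theorem Loc.rk1 (h : D.Loc v a b c) (hx : B x x = 1) (hy : B y y = 1) (hz : B z z = 1)
    (e : v = 2 • x + y + z) : a * c = b * b := by
  subst e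
  obtain ⟨h1, h2, h3, h4, h5, h6⟩ := h
  have n1 := D.ne x hx
  have n2 := D.ne y hy
  have n3 := D.ne z hz
  simp only [map_add, map_nsmul, nsmul_eq_mul, Nat.cast_ofNat, D.pp _ hx, D.pp _ hy, D.pp _ hz,
    D.qq _ hx, D.qq _ hy, D.qq _ hz, D.rr _ hx, D.rr _ hy, D.rr _ hz,
    add_eq_zero_iff_neg_eq] at h1 h2 h3 h4 h5 h6
  rw [← h1, neg_ne_zero] at n3
  rw [← h4, ← h5, ← h6, ← h1, ← h2, ← h3]
  field_simp
  ring

end Dat

theorem num9 {x y z u1 u3 u6 t1 t3 t6 : ℂ} (x0 : x ≠ 0) (y0 : y ≠ 0) (z0 : z ≠ 0)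
    (n1 : z + x ≠ 0) (n2 : z - y ≠ 0) (n3 : 1 + x + y ≠ 0) (n4 : 1 + x - y ≠ 0) (n5 : 1 + x ≠ 0)
    (a1 : u1 * u1 / z + u3 * u3 / x - (u1 + u3) * (u1 + u3) / (z + x) = -3)
    (a2 : t1 * t1 / z + t3 * t3 / x - (t1 + t3) * (t1 + t3) / (z + x) = 0)
    (b1 : -(u1 * u1 / z) + u6 * u6 / y + (u1 - u6) * (u1 - u6) / (z - y) = 0)
    (b2 : -(t1 * t1 / z) + t6 * t6 / y + (t1 - t6) * (t1 - t6) / (z - y) = -3)
    (c1 : u3 * u3 / x + u6 * u6 / y - (u3 + u6) * (u3 + u6) / (1 + x + y) = 0)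
    (c2 : u3 * t3 / x + u6 * t6 / y - (u3 + u6) * (t3 + t6) / (1 + x + y) = 3)
    (c3 : t3 * t3 / x + t6 * t6 / y - (t3 + t6) * (t3 + t6) / (1 + x + y) = 3)
    (d1 : u3 * u3 / x - u6 * u6 / y - (u3 - u6) * (u3 - u6) / (1 + x - y) = 3 / 2)
    (d2 : u3 * t3 / x - u6 * t6 / y - (u3 - u6) * (t3 - t6) / (1 + x - y) = 3 / 2)
    (d3 : t3 * t3 / x - t6 * t6 / y - (t3 - t6) * (t3 - t6) / (1 + x - y) = 9 / 2) :
    y = -1 ∨ y = -3 := by
  obtain ⟨n, rfl⟩ : ∃ n, u6 = (u3 * y - n) / (1 + x) := ⟨u3 * y - u6 * (1 + x), by field_simp; ring⟩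
  obtain ⟨m, rfl⟩ : ∃ m, t6 = (t3 * y - m) / (1 + x) := ⟨t3 * y - t6 * (1 + x), by field_simp; ring⟩
  have k1 : ∀ {u t n m k : ℂ}, u * t / x + (u * y - n) / (1 + x) * ((t * y - m) / (1 + x)) / y -
      (u + (u * y - n) / (1 + x)) * (t + (t * y - m) / (1 + x)) / (1 + x + y) = k →
      u * t * y * (1 + x + y) + n * m * x = k * x * y * (1 + x) * (1 + x + y) := fun h => by
    rw [← h]; field_simp; ring
  have k2 : ∀ {u t n m k : ℂ}, u * t / x - (u * y - n) / (1 + x) * ((t * y - m) / (1 + x)) / y -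
      (u - (u * y - n) / (1 + x)) * (t - (t * y - m) / (1 + x)) / (1 + x - y) = k →
      u * t * y * (1 + x - y) - n * m * x = k * x * y * (1 + x) * (1 + x - y) := fun h => by
    rw [← h]; field_simp; ring
  have c1 := k1 c1
  have c2 := k1 c2
  have c3 := k1 c3
  have d1 := k2 d1
  have d2 := k2 d2
  have d3 := k2 d3
  have w : 2 * y * (1 + x) ≠ 0 := by simp [y0, n5]
  have w' : 2 * x * (1 + x) ≠ 0 := by simp [x0, n5]
  have e1 : u3 * u3 = 3 / 4 * x * (1 + x - y) :=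
    mul_left_cancel₀ w (by linear_combination c1 + d1)
  have e2 : u3 * t3 = 3 * x * (1 + x) - 3 / 4 * x * (1 + x - y) :=
    mul_left_cancel₀ w (by linear_combination c2 + d2)
  have e3 : t3 * t3 = 3 * x * (1 + x) + 3 / 4 * x * (1 + x - y) :=
    mul_left_cancel₀ w (by linear_combination c3 + d3)
  have hy : x = -1 - 3 * y := mul_left_cancel₀ (show 9 / 4 * x ^ 2 * (1 + x) ≠ 0 by simp [x0, n5]) (by
    linear_combination t3 * t3 * e1 + 3 / 4 * x * (1 + x - y) * e3 -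
      (u3 * t3 + (3 * x * (1 + x) - 3 / 4 * x * (1 + x - y))) * e2)
  have f1 : n * n = -6 * y ^ 3 := mul_left_cancel₀ x0 (by
    linear_combination c1 - y * (1 + x + y) * e1 - 3 / 4 * x * y * (x + 1 + 3 * y - 6 * y) * hy)
  have f2 : n * m = 6 * y ^ 3 := mul_left_cancel₀ x0 (by
    linear_combination c2 - y * (1 + x + y) * e2 + 3 / 4 * x * y * (x + 1 + 3 * y - 6 * y) * hy)
  have f3 : m * m = -6 * y ^ 3 := mul_left_cancel₀ x0 (by
    linear_combination c3 - y * (1 + x + y) * e3 - 3 / 4 * x * y * (x + 1 + 3 * y - 6 * y) * hy)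
  obtain rfl : m = -n := eq_neg_of_add_eq_zero_left
    (pow_eq_zero_iff two_ne_zero |>.1 (by linear_combination f1 + 2 * f2 + f3))
  obtain rfl : t3 = 2 * u3 := sub_eq_zero.1 (pow_eq_zero_iff two_ne_zero |>.1 (by
    linear_combination e3 - 4 * e2 + 4 * e1 - 9 / 4 * x * hy))
  obtain rfl : u1 = (u3 * y - n) / (1 + x) * z / y := by
    generalize (u3 * y - n) / (1 + x) = u6 at b1 ⊢
    have : (u6 * z - u1 * y) ^ 2 = 0 := by
      field_simp at b1
      linear_combination b1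
    have := pow_eq_zero_iff two_ne_zero |>.1 this
    field_simp
    linear_combination -this
  obtain rfl : t1 = 2 * u3 * z / x := by
    have : (t1 * x - 2 * u3 * z) ^ 2 = 0 := by
      field_simp at a2
      linear_combination a2
    have := pow_eq_zero_iff two_ne_zero |>.1 this
    field_simp
    linear_combination this
  have g1 : z * (n * x + u3 * y) ^ 2 = -3 * y ^ 2 * (1 + x) ^ 2 * x * (z + x) := by
    field_simp at a1
    linear_combination a1
  have g2 : z * (n * x - 2 * u3 * y) ^ 2 = -3 * y * (1 + x) ^ 2 * x ^ 2 * (z - y) := by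
    field_simp at b2
    linear_combination b2
  have xy : x * y ≠ 0 := mul_ne_zero x0 y0
  have s2 : (1 + x) ^ 2 = 9 * y ^ 2 := by rw [hy]; ring
  have u2 : u3 * u3 = -3 * x * y := by linear_combination e1 + 3 / 4 * x * hy
  have g3 : z * (-6 * y ^ 2 * x + 2 * (n * u3) - 3 * y ^ 2) = -27 * y ^ 3 * (z + x) :=
    mul_left_cancel₀ xy (by
      linear_combination g1 - z * x ^ 2 * f1 - z * y ^ 2 * u2 - 3 * y ^ 2 * x * (z + x) * s2)
  have g4 : z * (-6 * y ^ 2 * x - 4 * (n * u3) - 12 * y ^ 2) = -27 * y ^ 2 * x * (z - y) :=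
    mul_left_cancel₀ xy (by
      linear_combination g2 - z * x ^ 2 * f1 - 4 * z * y ^ 2 * u2 - 3 * y * x ^ 2 * (z - y) * s2)
  have g5 : z * (y - 1) = -x * y := mul_left_cancel₀ (show 27 * y ^ 2 ≠ 0 by simp [y0]) (by
    linear_combination 2 * g3 + g4 - 9 * y ^ 2 * z * hy)
  have g6 : n * u3 = -3 * y ^ 2 * (3 * y + 5) := mul_left_cancel₀ (show 2 * z ≠ 0 by simp [z0]) (by
    linear_combination g3 - 27 * y ^ 2 * g5 + 6 * y ^ 2 * z * hy)
  have g7 : (y + 1) * (y + 3) = 0 := mul_left_cancel₀ (show 81 * y ^ 4 ≠ 0 by simp [y0]) (by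
    linear_combination -(n * u3 - 3 * y ^ 2 * (3 * y + 5)) * g6 + u3 * u3 * f1 - 6 * y ^ 3 * u2 +
      18 * y ^ 4 * hy)
  exact (mul_eq_zero.1 g7).imp eq_neg_of_add_eq_zero_left eq_neg_of_add_eq_zero_left

theorem bes (h : Lat B) (L : List V) (hu : ∀ e ∈ L, B e e = 1)
    (ho : L.Pairwise fun e f => B e f = 0) (t : V) :
    (L.map fun e => max (B t e) (-B t e)).sum ≤ B t t :=
  (List.sum_le_sum fun e _ => by rw [← abs_eq_max_neg, ← sq_abs]; exact Int.le_self_sq _).trans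
    (h.bessel L hu ho t)

theorem unit3 (h : Lat B) {v x y : V} (hv : B v v = 3) (hx : B x x = 1) (hy : B y y = 1)
    (hxy : B x y = 0) (vx : B v x = 1) (vy : B v y = 1) : B (v - x - y) (v - x - y) = 1 := by
  simp only [map_sub, LinearMap.sub_apply, h.symm x v, h.symm y v, h.symm y x, *]
  rfl

theorem eq3 (h : Lat B) {v x y z : V} (hv : B v v = 3) (hx : B x x = 1) (hy : B y y = 1)
    (hz : B z z = 1) (hxy : B x y = 0) (hxz : B x z = 0) (hyz : B y z = 0) (vx : B v x = 1)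
    (vy : B v y = 1) (vz : B v z = 1) : v = x + y + z :=
  (h.eq_of_bessel [x, y, z] (by simp [*]) (by simp [*]) v (by simp [*])).trans
    (by simp [*, add_assoc])

theorem ng {x : V} (hx : B x x = 1) : B (-x) (-x) = 1 := by simpa using hx

theorem tri {x : ℤ} (h1 : -1 ≤ x) (h2 : x ≤ 1) : x = 0 ∨ x = 1 ∨ x = -1 := by omega

theorem int3 {a a' c c' b : ℤ}
    (k : max a (-a) + (max a' (-a') + (max c (-c) + (max c' (-c') + (max b (-b) + 0)))) ≤ 3)
    (h0 : c + c' = -1) (h1 : a + b + c = -1) (h2 : a + a' = 0) :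
    (a = 0 ∧ a' = 0 ∧ c = -1 ∧ c' = 0 ∧ b = 0) ∨ (c' = -1 ∧ b = -1) ∨
      (c' = -1 ∧ a = -1 ∧ a' = 1) := by
  obtain rfl : a' = -a := by omega
  obtain rfl : c' = -1 - c := by omega
  obtain rfl : b = -1 - a - c := by omega
  rcases @tri a (by omega) (by omega) with rfl | rfl | rfl <;> omega

theorem int4 {a a' c c' b : ℤ}
    (k : max a (-a) + (max a' (-a') + (max c (-c) + (max c' (-c') + (max b (-b) + 0)))) ≤ 3)
    (h0 : c + c' = 0) (h1 : a + b + c = 1) (h2 : a + a' = 1) :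
    (c = 0 ∧ c' = 0 ∧ ((a = 1 ∧ a' = 0 ∧ b = 0) ∨ (a' = 1 ∧ b = 1))) ∨
      (a' = 1 ∧ c = 1 ∧ c' = -1) := by
  obtain rfl : a' = 1 - a := by omega
  obtain rfl : c' = - c := by omega
  obtain rfl : b = 1 - a - c := by omega
  rcases @tri c (by omega) (by omega) with rfl | rfl | rfl <;> omega

theorem int7 {f d e a a' c c' b : ℤ}
    (k : max f (-f) + (max d (-d) + (max e (-e) + (max a (-a) + (max a' (-a') + (max c (-c) +
      (max c' (-c') + (max b (-b) + 0))))))) ≤ 3)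
    (h0 : c + c' = 0) (h1 : a + b + c = 1) (h2 : a + a' = 1) (h3 : d + e - c = -1)
    (h4 : a + d + f = 0) : (a = 1 ∧ d = -1) ∨ (a' = 1 ∧ c = 1 ∧ c' = -1) ∨
      (a = 1 ∧ e = -1 ∧ f = -1) ∨ (a' = 1 ∧ b = 1 ∧ e = -1) := by
  obtain rfl : a' = 1 - a := by omega
  obtain rfl : c' = - c := by omega
  obtain rfl : b = 1 - a - c := by omega
  obtain rfl : e = c - 1 - d := by omega
  obtain rfl : f = -a - d := by omega
  rcases @tri c (by omega) (by omega) with rfl | rfl | rfl <;>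
    rcases @tri a (by omega) (by omega) with rfl | rfl | rfl <;> omega

set_option maxHeartbeats 800000 in
/-- The lattice lemma. -/
theorem lat9 (h : Lat B) (D : Dat B) {o b0 b1 b2 b3 P R : V} (oo : B o o = 1) (od : D.d o = 1)
    (ou : D.u o = 0) (ot : D.t o = 0) (l0 : D.Loc b0 0 0 0) (l1 : D.Loc b1 (-3) 0 0)
    (l2 : D.Loc b2 0 0 0) (l3 : D.Loc b3 0 0 (-3)) (l4 : D.Loc (o + P) 0 3 3)
    (l7 : D.Loc (o + R) (3 / 2) (3 / 2) (9 / 2)) (g00 : B b0 b0 = 2) (g11 : B b1 b1 = 3)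
    (g22 : B b2 b2 = 2) (g33 : B b3 b3 = 3) (g44 : B P P = 3) (g77 : B R R = 3)
    (g10 : B b1 b0 = 1) (g12 : B b1 b2 = 1) (g20 : B b2 b0 = 0) (g30 : B b3 b0 = -1)
    (g31 : B b3 b1 = -1) (g32 : B b3 b2 = 0) (g40 : B P b0 = 0) (g41 : B P b1 = 1)
    (g42 : B P b2 = 1) (g43 : B P b3 = 1) (g70 : B R b0 = 0) (g71 : B R b1 = 1)
    (g72 : B R b2 = 1) (g73 : B R b3 = -1) (g74 : B R P = 0) :
    ∃ x, B x x = 1 ∧ B P x = 1 ∧ (D.d x = -1 ∨ D.d x = -3) := by
  obtain ⟨a, a', rfl, aa, aa', a0, a1, a2⟩ := split2 h g22 (by omega) g12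
  obtain ⟨c, c', rfl, cc, cc', c0, c1, c2⟩ := split2 h g00 (by omega) g10
  have ac' : B a c' = 0 := by
    rcases unit_cases h aa cc' with e | e | e
    exacts [e, by simp_all, by simp_all]
  have a'c : B a' c = 0 := by
    rcases unit_cases h aa' cc with e | e | e
    exacts [e, by simp_all, by simp_all]
  simp only [map_add, LinearMap.add_apply, ac', a'c] at g20
  have ac : B a c = 0 := by
    rcases unit_cases h aa cc with e | e | e
    · exact e
    · subst e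
      rcases unit_cases h aa' cc' with e | e | e
      · omega
      · subst e; omega
      · have := (l0.add l2).d
        rw [e, show a + c' + (a + -c') = a + a by abel, map_add, add_self_eq_zero] at this
        exact absurd this (D.ne _ aa)
    · simp_all
  have a'c' : B a' c' = 0 := by omega
  have bb := unit3 h g11 aa cc ac a1 c1
  obtain ⟨b, rfl⟩ : ∃ b, b1 = a + b + c := ⟨b1 - a - c, by abel⟩
  rw [show a + b + c - a - c = b by abel] at bb
  simp only [map_add, LinearMap.add_apply, aa, cc, a0, c0, ac, ac', h.symm c a, h.symm c a', a'c, h.symm b] at a1 a2 c1 c2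
  simp only [map_add] at g30 g31 g32 g40 g41 g42 g70 g71 g72
  have ab : B a b = 0 := by omega
  have a'b : B a' b = 0 := by omega
  have cb : B c b = 0 := by omega
  have c'b : B c' b = 0 := by omega
  have o5 : [a, a', c, c', b].Pairwise fun e f => B e f = 0 := by simp [*]
  have k3 := bes h _ (by simp [*]) o5 b3
  simp only [List.map_cons, List.map_nil, List.sum_cons, List.sum_nil, g33] at k3
  obtain ⟨x1, x2, x3, x4, x5⟩ | ⟨x1, x2⟩ | ⟨x1, x2, x3⟩ := int3 k3 g30 g31 g32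
  rotate_left
  · have := ((l1.add l3).add l0).rk1 cc aa
      (unit3 h g33 (ng cc') (ng bb) (by simp [*]) (by simp [*]) (by simp [*])) (by abel)
    norm_num at this
  · have e := eq3 h g33 (ng cc') (ng aa) aa' (by simp [h.symm c', *]) (by simp [h.symm c', *]) (by simp [*])
      (by simp [*]) (by simp [*]) x3
    have := (((l3.add l0).sub l2).rk0 (ng aa) cc (by rw [e]; abel)).2
    norm_num at this
  clear k3
  have k4 := bes h _ (by simp [*]) o5 P
  simp only [List.map_cons, List.map_nil, List.sum_cons, List.sum_nil, g44] at k4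
  obtain ⟨y3, y4, hy⟩ | ⟨y2, y4, y5⟩ := int4 k4 g40 g41 g42
  swap
  · rw [eq3 h g44 aa' cc (ng cc') a'c (by simp [a'c']) (by simp [c0]) y2 y4 (by simp [y5]),
      h.symm] at g43
    simp [x2, x3, x4] at g43
  clear k4
  obtain ⟨d, e, de, dd, ee, d0, d1, d2⟩ := split2 h (v := b3 + c) (e := P)
    (by simp [h.symm c b3, *]) (by omega) (by simp [*])
  obtain rfl : b3 = d + e - c := by rw [← de]; abel
  have pp : ∀ {x : V}, B x x = 1 → B (d + e - c) x = -B c x → B d x = 0 ∧ B e x = 0 :=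
    fun {x} hx h1 => by
      rw [h.symm d, h.symm e]
      exact h.perp2 dd ee d0 hx (by rw [h.symm x, h.symm x]; simpa using h1)
  obtain ⟨da, ea⟩ := pp aa (by rw [x1, h.symm, ac]; rfl)
  obtain ⟨da', ea'⟩ := pp aa' (by rw [x2, h.symm, a'c]; rfl)
  obtain ⟨dc, ec⟩ := pp cc (by rw [x3, cc])
  obtain ⟨dc', ec'⟩ := pp cc' (by rw [x4, c0]; rfl)
  obtain ⟨db, eb⟩ := pp bb (by rw [x5, cb]; rfl)
  obtain ⟨y1, y2, y5⟩ | ⟨y2, y5⟩ := hy
  swap
  · have e1 := eq3 h g44 dd aa' bb da' db a'b d1 y2 y5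
    have := (((l4.sub l1).sub l3).sub l2).rk1 (ng aa) oo (ng ee) (by rw [e1]; abel)
    norm_num at this
  have ff := unit3 h g44 dd aa da d1 y1
  obtain ⟨f, rfl⟩ : ∃ f, P = a + d + f := ⟨P - d - a, by abel⟩
  rw [show a + d + f - d - a = f by abel] at ff
  simp only [map_add, LinearMap.add_apply, aa, dd, a0, ac, ac', ab, h.symm a d, h.symm a e, da, ea, da', dc, dc',
    db, d0] at y1 y2 y3 y4 y5 d1 d2
  simp only [map_add, map_sub] at g73 g74
  have o8 : [f, d, e, a, a', c, c', b].Pairwise fun e f => B e f = 0 := by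
    simp only [List.pairwise_cons, List.mem_cons, List.not_mem_nil, or_false, forall_eq_or_imp,
      forall_eq, IsEmpty.forall_iff, implies_true, List.Pairwise.nil, and_true]
    omega
  have k7 := bes h _ (by simp [*]) o8 R
  simp only [List.map_cons, List.map_nil, List.sum_cons, List.sum_nil, g77] at k7
  obtain ⟨z1, z2⟩ | ⟨z1, z2, z3⟩ | ⟨z1, z2, z3⟩ | ⟨z1, z2, z3⟩ := int7 k7 g70 g71 g72 g73 g74
  all_goals clear k7
  rotate_left
  · have e1 := eq3 h g77 aa' cc (ng cc') a'c (by simp [*]) (by simp [*]) z1 z2 (by simp [*])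
    have := ((l7.add l0).sub l2).rk1 cc oo (ng aa) (by rw [e1]; abel)
    norm_num at this
  · have e1 := eq3 h g77 (ng ff) (ng ee) aa (by simpa using d2) (by simpa using y1) (by simp [*])
      (by simp [*]) (by simp [*]) z1
    have := (((l4.sub l7).sub l3).rk0 ff cc (by rw [e1]; abel)).1
    norm_num at this
  · have e1 := eq3 h g77 (ng ee) aa' bb (by simp [*]) (by simp [*]) a'b (by simp [*]) z1 z2
    have := (((l7.add l1).add l3).sub l2).rk1 bb oo dd (by rw [e1]; abel)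
    norm_num at this
  have gg := unit3 h g77 (ng dd) aa (by simp [*]) (by simp [*]) z1
  obtain ⟨g, rfl⟩ : ∃ g, R = a - d + g := ⟨R - -d - a, by abel⟩
  rw [show a - d + g - -d - a = g by abel] at gg
  by_cases n5 : 1 + D.d a = 0
  · exact ⟨a, aa, by simp [*]; omega, .inl (eq_neg_of_add_eq_zero_right n5)⟩
  refine ⟨d, dd, by simp [h.symm a d, *]; omega, ?_⟩
  have vb : ∀ F : V →+ ℂ, F (a + b + c) = 0 → F b = -(F c + F a) := fun F hF => by
    simp only [map_add] at hF; linear_combination hF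
  have ve : ∀ F : V →+ ℂ, F (d + e - c) = 0 → F e = F c - F d := fun F hF => by
    simp only [map_add, map_sub] at hF; linear_combination hF
  have vf : ∀ F : V →+ ℂ, F (o + (a + d + f)) = 0 → F f = -(F o + F a + F d) := fun F hF => by
    simp only [map_add] at hF; linear_combination hF
  have vg : ∀ F : V →+ ℂ, F (o + (a - d + g)) = 0 → F g = -(F o + F a - F d) := fun F hF => by
    simp only [map_add, map_sub] at hF; linear_combination hF
  have nb := D.ne _ bb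
  have ne := D.ne _ ee
  have nf := D.ne _ ff
  have ng' := D.ne _ gg
  have p1 := l1.p
  have r1 := l1.r
  have p3 := l3.p
  have r3 := l3.r
  have p4 := l4.p
  have q4 := l4.q
  have r4 := l4.r
  have p7 := l7.p
  have q7 := l7.q
  have r7 := l7.r
  simp only [map_add, map_sub, D.pp _ oo, D.pp _ aa, D.pp _ bb, D.pp _ cc, D.pp _ dd, D.pp _ ee,
    D.pp _ ff, D.pp _ gg, D.qq _ oo, D.qq _ aa, D.qq _ dd, D.qq _ ff, D.qq _ gg, D.rr _ oo, D.rr _ aa,
    D.rr _ bb, D.rr _ cc, D.rr _ dd, D.rr _ ee, D.rr _ ff, D.rr _ gg, vb _ l1.d, vb _ l1.u, vb _ l1.t,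
    ve _ l3.d, ve _ l3.u, ve _ l3.t, vf _ l4.d, vf _ l4.u, vf _ l4.t, vg _ l7.d, vg _ l7.u, vg _ l7.t,
    od, ou, ot, neg_ne_zero, neg_mul_neg, div_neg, zero_add, mul_zero, zero_div]
    at nb ne nf ng' p1 r1 p3 r3 p4 q4 r4 p7 q7 r7
  exact num9 (u1 := D.u c) (u3 := D.u a) (u6 := D.u d) (t1 := D.t c) (t3 := D.t a) (t6 := D.t d)
    (D.ne _ aa) (D.ne _ dd) (D.ne _ cc) nb ne nf ng' n5 (by linear_combination p1)
    (by linear_combination r1) (by linear_combination p3) (by linear_combination r3)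
    (by linear_combination p4) (by linear_combination q4) (by linear_combination r4)
    (by linear_combination p7) (by linear_combination q7) (by linear_combination r7)

/-- Normalisation of the data. -/
theorem Dat.norm (D : Dat B) {l m n : ℂ} (l0 : l ≠ 0) (m0 : m ≠ 0) (e : l * n = m * m) :
    ∃ E : Dat B, E.d = D.d ∧ (∀ o, D.d o = 1 → D.u o = 1 → D.t o = 1 → E.u o = 0 ∧ E.t o = 0) ∧
      ∀ v a b c, D.Loc v (l * a) (m * b) (n * c) → E.Loc v a b c := by
  obtain ⟨σ, rfl⟩ := IsAlgClosed.exists_eq_mul_self l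
  have s0 : σ ≠ 0 := left_ne_zero_of_mul l0
  obtain rfl : n = m * m / (σ * σ) := by rw [← e]; field_simp
  refine ⟨⟨D.d, σ⁻¹ • (D.u - D.d), (σ / m) • (D.t - D.d), (σ * σ)⁻¹ • (D.p - D.u - D.u + D.d),
    m⁻¹ • (D.q - D.u - D.t + D.d), (σ * σ / (m * m)) • (D.r - D.t - D.t + D.d), D.ne, fun x hx => ?_,
    fun x hx => ?_, fun x hx => ?_⟩, rfl, fun o h1 h2 h3 => by simp [h1, h2, h3],
    fun v a b c h => ?_⟩
  iterate 3
    have := D.ne x hx
    simp only [AddMonoidHom.smul_apply, AddMonoidHom.add_apply, AddMonoidHom.sub_apply, smul_eq_mul,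
      D.pp x hx, D.qq x hx, D.rr x hx]
    field_simp
    ring
  constructor <;> simp [h.d, h.u, h.t, h.p, h.q, h.r] <;> field_simp

end Cfsg.Agent.H12.L3
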