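import Cfsg.Agent.H50.L81Defs

/-! L81-CASEZ: the cases with an extra involution of the torus. -/

set_option autoImplicit false

namespace Cfsg.Agent.H12.L81CaseZ

open Equiv Cfsg.Lie H37 H40 H34 H29 Module H82 H50.SL2S Finset H50.E83 H50.L81
open H42.Fv (al cp Sum2 Clo Pos Supp Ph sg frV)

theorem prim40 (p : Par) : IsPrimitiveRoot (zy p) 40 := by
  have h : IsPrimitiveRoot (lam p) 80 :=
    p.hl.map_of_injective (f := Units.map p.κ.toMonoidHom) (Units.map_injective p.κ.injective)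
  exact h.pow (by norm_num) (show 80 = 2 * 40 by norm_num)

theorem prim2 : IsPrimitiveRoot (-1 : Kˣ) 2 := by
  rw [← IsPrimitiveRoot.coe_units_iff, Units.val_neg, Units.val_one]
  exact IsPrimitiveRoot.neg_one 3 (by decide)

theorem zy20 (p : Par) : zy p ^ 20 = -1 := by
  have h : IsPrimitiveRoot (zy p ^ 20) 2 :=
    (prim40 p).pow (by norm_num) (show 40 = 20 * 2 by norm_num)
  rw [← IsPrimitiveRoot.coe_units_iff] at h
  exact Units.ext h.eq_neg_one_of_two_right

theorem lab_comm {ζ ξ : Kˣ} {h h' : GK} {f f' : Rt → ℤ} (a : Lab C8 ζ h f) (b : Lab C8 ξ h' f') :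
    h * h' = h' * h := by
  obtain ⟨-, c, rfl, -⟩ := a
  obtain ⟨-, d, rfl, -⟩ := b
  rw [← map_mul, ← map_mul, mul_comm]

theorem act_mul (a b : GK) (v : V) : act (a * b) v = act a (act b v) := by
  rw [map_mul]; rfl

theorem odd_cast {a : ℤ} (h : Odd a) : (a : ZMod 2) ≠ 0 := fun e =>
  (Int.not_even_iff_odd.2 h) (even_iff_two_dvd.2 ((ZMod.intCast_zmod_eq_zero_iff_dvd a 2).1 e))

theorem casez (kit : KitStmt) (fixne : FixneStmt) (frame : FrameStmt) (zel : ZelStmt) (ch : ChStmt)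
    (nrm : NrmStmt) (datz : DatzStmt) : CasezStmt := by
  intro i hi H ψ hH E p chr t hl hc
  obtain ⟨w, hw, hf, χ, hχ, hχw, hev, ⟨r1, o1⟩, ⟨r2, o2⟩⟩ := datz i hi
  obtain ⟨n, hn, hν⟩ := zel.2.2.1 w hw
  have hz := prim40 p
  obtain ⟨g, hg, hgt⟩ := frame (ψ (t0 p)) 40 (zy p) t (ff i) (by decide) hz hl hc n hn
    (by rw [hν]; exact hf)
  obtain ⟨z, hzl⟩ := zel.2.1 g n hg hn χ hχ (by rw [hν]; exact hχw)
  have inj : ∀ a b : G0, g⁻¹ * ι a * g = g⁻¹ * ι b * g → a = b := fun a b e =>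
    ι_injective (mul_left_cancel (mul_right_cancel e))
  have mu : ∀ a b : G0, g⁻¹ * ι (a * b) * g = g⁻¹ * ι a * g * (g⁻¹ * ι b * g) := fun a b => by
    rw [map_mul]; group
  have pw' : ∀ (a : G0) (k : ℕ), g⁻¹ * ι (a ^ k) * g = (g⁻¹ * ι a * g) ^ k := fun a k => by
    induction k with
    | zero => simp
    | succ k ih => rw [pow_succ, mu, ih, pow_succ]
  have hcm : Commute z (ψ (t0 p)) := inj _ _ (by rw [mu, mu, hgt]; exact lab_comm hzl hl)
  have hz2 : z ^ 2 = 1 := inj _ _ (by rw [pw', hzl.pow_eq_one prim2]; simp)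
  obtain ⟨⟨B, hB⟩, -, k3, -⟩ := kit
  have hi' : 3 ≤ i ∧ i < 7 := by
    simp only [List.mem_cons, List.not_mem_nil, or_false] at hi
    omega
  have hne : Fx (rho ψ) Set.univ ≠ ⊥ :=
    fixne p V (rho ψ) (by
      change act (ι (ψ (-1))) = 1
      rw [(E.1 (-1)).2 (Or.inr rfl), map_one, map_one]) B frV (hB ψ).1 (hB ψ).2 i hi'.1 hi'.2 chr
  have hzH : z ∈ H := by
    refine (nrm H ψ hH E).2 hne z fun v hv => ?_
    have h1 : act (ι (ψ (t0 p))) v = v := hv (t0 p) (Set.mem_univ _)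
    have h2 : act t (act g⁻¹ v) = act g⁻¹ v := by
      rw [← hgt, ← act_mul, mul_inv_cancel_right, act_mul, h1]
    have h3 : act (g⁻¹ * ι z * g) (act g⁻¹ v) = act g⁻¹ v := by
      funext j
      rcases j with j | r
      · exact (k3 _ _ _ hzl _).1 j
      · rw [(k3 _ _ _ hzl _).2 r]
        have h4 := (k3 _ _ _ hl (act g⁻¹ v)).2 r
        rw [h2] at h4
        by_cases h0 : act g⁻¹ v (Sum.inr r) = 0
        · rw [h0, mul_zero]
        · have h5 : zy p ^ ff i r = zy p ^ (0 : ℤ) := by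
            rw [zpow_zero]
            exact Units.ext ((mul_eq_right₀ h0).1 h4.symm)
          have h6 := hev r (by simpa using (zpow_eq_iff hz).1 h5)
          rw [h6.neg_one_zpow, Units.val_one, one_mul]
    rw [← act_mul, mul_inv_cancel_right, act_mul] at h3
    have h7 := congrArg (act g) h3
    rwa [← act_mul, ← act_mul g, mul_inv_cancel, map_one, Module.End.one_apply,
      Module.End.one_apply] at h7
  rcases (ch H ψ E p z hzH hcm).2 hz2 with e | e
  · have : g⁻¹ * ι z * g = 1 := by rw [e]; simp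
    exact odd_cast o1 ((hzl.eq_one_iff prim2).1 this r1)
  · have h1 : g⁻¹ * ι z * g = t ^ 20 := by rw [e, pw', hgt]
    have h2 := (hzl.eq_iff (hl.pow 20)).1 h1 r2
    rw [zpow_mul, zpow_natCast, zy20] at h2
    have h3 := (zpow_eq_iff prim2).1 h2
    refine odd_cast o2 ?_
    rw [Int.cast_add, h3]
    generalize ((ff i r2 : ℤ) : ZMod 2) = a
    revert a; decide

end Cfsg.Agent.H12.L81CaseZ
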