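import Cfsg.Agent.H78.McDefs

/-! Project MC, piece UNQ. -/

set_option autoImplicit false

namespace Cfsg.Agent.H12.McUnq

open Subgroup Cfsg.Agent.H78.Mc

universe u

section
variable {G : Type u} [Group G] [Finite G] {p : ℕ} [hp : Fact p.Prime]

theorem card_step {A B : Subgroup G} (hB : IsPGroup p B) (le : A ≤ B) (ne : ¬ B ≤ A) :
    p * Nat.card A ≤ Nat.card B := by
  obtain ⟨a, ha⟩ := IsPGroup.iff_card.1 (hB.to_le le)
  obtain ⟨b, hb⟩ := IsPGroup.iff_card.1 hB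
  have h : Nat.card A < Nat.card B := by
    by_contra h
    exact ne (eq_of_le_of_card_ge le (not_lt.1 h)).ge
  rw [ha, hb] at h ⊢
  rw [← pow_succ']
  exact Nat.pow_le_pow_right hp.out.pos ((Nat.pow_lt_pow_iff_right hp.out.one_lt).1 h)

/-- the elements of `N` whose commutators with `Q` lie in `K` -/
def Fx (N K : Subgroup G) (hK : ∀ h ∈ N, ∀ a ∈ K, h * a * h⁻¹ ∈ K) (Q : Set G) : Subgroup G where
  carrier := {a | a ∈ N ∧ ∀ q ∈ Q, q * a * q⁻¹ * a⁻¹ ∈ K}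
  one_mem' := ⟨one_mem _, fun q _ => by simp⟩
  mul_mem' := by
    rintro a b ⟨h1, h2⟩ ⟨h3, h4⟩
    refine ⟨mul_mem h1 h3, fun q hq => ?_⟩
    rw [show q * (a * b) * q⁻¹ * (a * b)⁻¹ =
      (q * a * q⁻¹ * a⁻¹) * (a * (q * b * q⁻¹ * b⁻¹) * a⁻¹) by group]
    exact mul_mem (h2 q hq) (hK a h1 _ (h4 q hq))
  inv_mem' := by
    rintro a ⟨h1, h2⟩
    refine ⟨inv_mem h1, fun q hq => ?_⟩
    rw [show q * a⁻¹ * q⁻¹ * a⁻¹⁻¹ = a⁻¹ * (q * a * q⁻¹ * a⁻¹)⁻¹ * a⁻¹⁻¹ by group]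
    exact hK _ (inv_mem h1) _ (inv_mem (h2 q hq))

theorem grow {N K Q : Subgroup G} [N.Normal] (hN : IsPGroup p N) (hQ : IsPGroup p Q)
    (hK : ∀ h ∈ N, ∀ a ∈ K, h * a * h⁻¹ ∈ K) (hQK : ∀ h ∈ Q, ∀ a ∈ K, h * a * h⁻¹ ∈ K)
    (ne : ¬ N ≤ K) : ¬ Fx N K hK Q ≤ K := by
  classical
  letI : MulAction Q N := MulAction.compHom N ((MulAut.conjNormal (H := N)).comp Q.subtype)
  have sm : ∀ (q : Q) (a : N), ((q • a : N) : G) = q * a * (q : G)⁻¹ := fun q a => rfl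
  haveI : MulAction.QuotientAction Q (K.subgroupOf N) := ⟨fun q a a' h => by
    change ((q • a : N) : G)⁻¹ * ((q • a' : N) : G) ∈ K
    rw [sm, sm, show ((q : G) * a * (q : G)⁻¹)⁻¹ * (q * a' * (q : G)⁻¹) =
      q * ((a : G)⁻¹ * a') * (q : G)⁻¹ by group]
    exact hQK q q.2 _ h⟩
  have hd : p ∣ Nat.card (N ⧸ K.subgroupOf N) := by
    obtain ⟨n, hn⟩ := hN.index (K.subgroupOf N)
    change p ∣ (K.subgroupOf N).index
    rw [hn]
    refine dvd_pow_self p fun h => ne ?_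
    rw [h, pow_zero] at hn
    exact relIndex_eq_one.1 hn
  obtain ⟨b, hb, h1⟩ := hQ.exists_fixed_point_of_prime_dvd_card_of_fixed_point
    (N ⧸ K.subgroupOf N) hd (a := QuotientGroup.mk 1) (fun q => by
      rw [MulAction.Quotient.smul_mk]
      exact congrArg QuotientGroup.mk (Subtype.ext (by rw [sm]; simp)))
  induction b using QuotientGroup.induction_on with
  | H a =>
    intro h
    refine h1 (QuotientGroup.eq.2 ?_)
    rw [inv_one, one_mul]
    refine h ⟨a.2, fun q hq => ?_⟩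
    have h2 := hb ⟨q, hq⟩
    rw [MulAction.Quotient.smul_mk] at h2
    have h3' := QuotientGroup.eq.1 h2.symm
    have h3 : (a : G)⁻¹ * (q * a * q⁻¹) ∈ K := h3'
    change q * (a : G) * q⁻¹ * (a : G)⁻¹ ∈ K
    rw [show q * a * q⁻¹ * (a : G)⁻¹ = a * ((a : G)⁻¹ * (q * a * q⁻¹)) * (a : G)⁻¹ by group]
    exact hK a a.2 _ h3

theorem bound {N K : Subgroup G} (hK : ∀ h ∈ N, ∀ a ∈ K, h * a * h⁻¹ ∈ K) (x : G) :
    Nat.card (Fx N K hK {x}) ≤ Nat.card (N ⊓ centralizer ({x} : Set G) : Subgroup G) * Nat.card K := by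
  rw [← card_mul_index ((centralizer ({x} : Set G)).subgroupOf (Fx N K hK {x}))]
  refine Nat.mul_le_mul ?_ ?_
  · refine Nat.card_le_card_of_injective (fun a => ⟨a.1.1, a.1.2.1, a.2⟩) fun a b h => ?_
    exact Subtype.ext (Subtype.ext (congrArg (fun z : (N ⊓ centralizer ({x} : Set G) : Subgroup G) =>
      (z : G)) h))
  · refine Nat.card_le_card_of_injective (fun q : Fx N K hK {x} ⧸ _ =>
      (⟨x * q.out.1 * x⁻¹ * q.out.1⁻¹, q.out.2.2 x rfl⟩ : K)) fun a b h => ?_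
    rw [← a.out_eq, ← b.out_eq]
    refine QuotientGroup.eq.2 (mem_centralizer_singleton_iff.2 ?_)
    have h1 : x * a.out.1 * x⁻¹ * a.out.1⁻¹ = x * b.out.1 * x⁻¹ * b.out.1⁻¹ := congrArg Subtype.val h
    change (a.out.1⁻¹ * b.out.1) * x = x * (a.out.1⁻¹ * b.out.1)
    generalize a.out.1 = c at h1
    generalize b.out.1 = d at h1
    calc c⁻¹ * d * x = x * c⁻¹ * x⁻¹ * (x * c * x⁻¹ * c⁻¹) * d * x := by group
      _ = _ := by rw [h1]; group

theorem pgrp {N P D : Subgroup G} [N.Normal] (hN : IsPGroup p N) (hP : IsPGroup p P)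
    (hD : IsPGroup p D) (NP : N ≤ P) (hc : centralizer (N : Set G) ≤ N) {x : G} (xP : x ∈ P)
    (xD : x ∈ D) (hx : Nat.card (N ⊓ centralizer ({x} : Set G) : Subgroup G) ≤ p) :
    IsPGroup p (P ⊔ D : Subgroup G) := by
  let I : Subgroup G → Prop := fun K => K ≤ N ∧ (∀ h ∈ P ⊔ D, ∀ a ∈ K, h * a * h⁻¹ ∈ K) ∧
    ∀ h ∈ P ⊔ D, ∃ j : ℕ, ∀ a ∈ K, h ^ p ^ j * a * (h ^ p ^ j)⁻¹ = a
  obtain ⟨e, he⟩ := IsPGroup.iff_card.1 hN
  have pe : ∀ a ∈ N, a ^ p ^ e = 1 := fun a ha => by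
    have : (⟨a, ha⟩ : N) ^ Nat.card N = 1 := pow_card_eq_one'
    rw [he] at this
    exact congrArg Subtype.val this
  obtain ⟨K, ⟨k1, k2, k3⟩, hm⟩ := WellFounded.has_min (wellFounded_gt (α := Subgroup G)) {K | I K}
    ⟨⊥, bot_le, fun h _ a ha => by rw [mem_bot.1 ha]; simp,
      fun h _ => ⟨0, fun a ha => by rw [mem_bot.1 ha]; simp⟩⟩
  have NK : N ≤ K := by
    by_contra ne
    have hK : ∀ h ∈ N, ∀ a ∈ K, h * a * h⁻¹ ∈ K := fun h hh => k2 h (mem_sup_left (NP hh))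
    have le : ∀ Q : Set G, Q ⊆ (P ⊔ D : Subgroup G) → K ≤ Fx N K hK Q := fun Q hQ a ha =>
      ⟨k1 ha, fun q hq => mul_mem (k2 q (hQ hq) a ha) (inv_mem ha)⟩
    have eq : ∀ Q : Subgroup G, IsPGroup p Q → Q ≤ P ⊔ D → x ∈ Q →
        Fx N K hK Q = Fx N K hK {x} := by
      intro Q hQ QH xQ
      refine eq_of_le_of_card_ge (fun a ha => ⟨ha.1, fun q hq => ha.2 q (by rw [hq]; exact xQ)⟩) ?_
      exact (bound hK x).trans ((Nat.mul_le_mul_right _ hx).trans (card_step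
        (hN.to_le fun a ha => ha.1) (le Q QH) (grow hN hQ hK (fun h hh => k2 h (QH hh)) ne)))
    have cm : ∀ a ∈ Fx N K hK P, ∀ h ∈ P ⊔ D, h * a * h⁻¹ * a⁻¹ ∈ K := by
      intro a ha h hh
      have ha' : a ∈ Fx N K hK D := by
        rwa [eq D hD le_sup_right xD, ← eq P hP le_sup_left xP]
      have k2' := k2
      rw [sup_eq_closure] at hh k2'
      induction hh using closure_induction with
      | mem g hg => exact hg.elim (ha.2 g) (ha'.2 g)
      | one => simp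
      | mul g g' hg _ h1 h2 =>
        rw [show g * g' * a * (g * g')⁻¹ * a⁻¹ =
          g * (g' * a * g'⁻¹ * a⁻¹) * g⁻¹ * (g * a * g⁻¹ * a⁻¹) by group]
        exact mul_mem (k2' g hg _ h2) h1
      | inv g hg h1 =>
        rw [show g⁻¹ * a * g⁻¹⁻¹ * a⁻¹ = g⁻¹ * (g * a * g⁻¹ * a⁻¹)⁻¹ * g⁻¹⁻¹ by group]
        exact k2' _ (inv_mem hg) _ (inv_mem h1)
    refine hm (Fx N K hK P) ⟨fun a ha => ha.1, fun h hh a ha => ?_, fun h hh => ?_⟩
      (lt_of_le_of_ne (le P (le_sup_left (a := P) (b := D))) fun e =>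
        grow hN hP hK (fun h hh => k2 h (mem_sup_left hh)) ne e.ge)
    · rw [show h * a * h⁻¹ = (h * a * h⁻¹ * a⁻¹) * a by group]
      exact mul_mem (le P (le_sup_left (a := P) (b := D)) (cm a ha h hh)) ha
    · obtain ⟨j, hj⟩ := k3 h hh
      refine ⟨j + e, fun a ha => ?_⟩
      have h1 := cm a ha _ (pow_mem hh (p ^ j))
      rw [pow_add, pow_mul]
      generalize h ^ p ^ j = g at h1 hj
      have h2 := hj _ h1
      have h3 := pe _ (k1 h1)
      generalize hk : g * a * g⁻¹ * a⁻¹ = k at h2 h3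
      have h4 : g * a * g⁻¹ = k * a := by rw [← hk]; group
      have h5 : ∀ m : ℕ, g ^ m * a * (g ^ m)⁻¹ = k ^ m * a := by
        intro m
        induction m with
        | zero => simp
        | succ m ih =>
          calc g ^ (m + 1) * a * (g ^ (m + 1))⁻¹ = g * (g ^ m * a * (g ^ m)⁻¹) * g⁻¹ := by
                rw [pow_succ']; group
            _ = (g * k * g⁻¹) ^ m * (g * a * g⁻¹) := by rw [ih, conj_pow]; group
            _ = _ := by rw [h2, h4, pow_succ, mul_assoc]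
      rw [h5, h3, one_mul]
  rintro ⟨h, hh⟩
  obtain ⟨j, hj⟩ := k3 h hh
  refine ⟨j + e, Subtype.ext ?_⟩
  change h ^ p ^ (j + e) = 1
  rw [pow_add, pow_mul]
  exact pe _ (hc fun a ha => (mul_inv_eq_iff_eq_mul.1 (hj a (NK ha))).symm)

end

theorem unq : UnqStmt.{u} := by
  intro G _ _ p hp P N hn hN hc x xP xN h2
  have NP : N ≤ (P : Subgroup G) := by
    have := P.3 (IsPGroup.to_sup_of_normal_left hN P.2) le_sup_right
    exact this ▸ le_sup_left
  have xC : x ∈ centralizer ({x} : Set G) := mem_centralizer_singleton_iff.2 rfl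
  have hx : Nat.card (N ⊓ centralizer ({x} : Set G) : Subgroup G) ≤ p := by
    have := card_step (A := N ⊓ centralizer ({x} : Set G)) (P.2.to_inf_left
      (K := centralizer ({x} : Set G))) (inf_le_inf_right _ NP) fun h => xN (h ⟨xP, xC⟩).1
    rw [h2, sq] at this
    exact Nat.le_of_mul_le_mul_left this hp.out.pos
  obtain ⟨S, hS⟩ := (P.2.comap_subtype (K := centralizer ({x} : Set G))).exists_le_sylow
  have hD : IsPGroup p ((S : Subgroup (centralizer ({x} : Set G))).map (Subgroup.subtype _)) :=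
    S.2.map _
  have e := P.3 (pgrp hN P.2 hD NP hc xP ⟨⟨x, xC⟩, hS xP, rfl⟩ hx) le_sup_left
  have e2 : (S : Subgroup (centralizer ({x} : Set G))).map (Subgroup.subtype _) =
      (P : Subgroup G) ⊓ centralizer ({x} : Set G) := by
    refine le_antisymm (le_inf (e ▸ le_sup_right) (map_subtype_le _)) fun a ha => ?_
    exact ⟨⟨a, ha.2⟩, hS ha.1, rfl⟩
  rw [← e2, card_map_of_injective (subtype_injective _), S.card_eq_multiplicity] at h2
  exact Nat.pow_right_injective hp.out.two_le h2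

end Cfsg.Agent.H12.McUnq
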