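import Mathlib
import Cfsg.Agent.H54.O84Defs

/-! Elements of the Weyl group of `E₈` that move the labels along a line. -/

set_option autoImplicit false
set_option maxRecDepth 100000

namespace Cfsg.Agent.H12.O84Wf

open Cfsg.Agent.H54.O84 Equiv Cfsg.Lie H37 H40 H34 H29

/-- The root with label `m s + c • l`. -/
noncomputable def cand (l0 l1 l2 l3 s c : ℕ) : ℕ :=
  mI ((mF s 0 + c * l0) % 5 + 8 * ((mF s 1 + c * l1) % 5) + 64 * ((mF s 2 + c * l2) % 5) +
    512 * ((mF s 3 + c * l3) % 5))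

noncomputable def allL (f : ℕ × ℕ → Bool) (A : List (ℕ × ℕ)) : Bool :=
  List.rec true (fun e _ ih => band (f e) ih) A

theorem allL_iff {f : ℕ × ℕ → Bool} {A : List (ℕ × ℕ)} : allL f A = true ↔ ∀ e ∈ A, f e = true := by
  induction A with
  | nil => simp [allL]
  | cons a A ih =>
    rw [List.forall_mem_cons, ← ih]
    exact band_iff

/-- The search over the images of the roots of a list. -/
noncomputable def srch (cd : ℕ → ℕ → ℕ) (leaf : List (ℕ × ℕ) → Bool) (L : List ℕ) :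
    List (ℕ × ℕ) → Bool :=
  List.rec leaf (fun s _ ih acc => allLt (fun c => bor (Nat.ble 240 (cd s c))
    (Bool.rec true (ih ((s, c) :: acc))
      (allL (fun e => ieq (pr (cd s c) (cd e.1 e.2)) (pr s e.1)) acc))) 5) L

theorem srch_sound {cd : ℕ → ℕ → ℕ} {leaf : List (ℕ × ℕ) → Bool} (C : ℕ → ℕ)
    (hC : ∀ s < 240, C s < 5 ∧ cd s (C s) < 240)
    (hp : ∀ s < 240, ∀ s' < 240, pr (cd s (C s)) (cd s' (C s')) = pr s s') (L : List ℕ) :
    ∀ A : List ℕ, (∀ s ∈ L, s < 240) → (∀ s ∈ A, s < 240) →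
      srch cd leaf L (A.map fun s => (s, C s)) = true →
      leaf ((L.reverse ++ A).map fun s => (s, C s)) = true := by
  induction L with
  | nil => exact fun A _ _ h => h
  | cons s L ih =>
    intro A hL hA h
    have hs := hL s (List.mem_cons_self ..)
    have h0 : allLt (fun c => bor (Nat.ble 240 (cd s c))
        (Bool.rec true (srch cd leaf L ((s, c) :: A.map fun s => (s, C s)))
          (allL (fun e => ieq (pr (cd s c) (cd e.1 e.2)) (pr s e.1))
            (A.map fun s => (s, C s))))) 5 = true := h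
    have h1 := allLt_sound h0 (C s) (hC s hs).1
    rcases bor_iff.1 h1 with h2 | h2
    · have := Nat.ble_eq.mp h2
      have := (hC s hs).2
      omega
    · have h3 : allL (fun e => ieq (pr (cd s (C s)) (cd e.1 e.2)) (pr s e.1))
          (A.map fun s => (s, C s)) = true := allL_iff.2 fun e he => by
        obtain ⟨s', hs', rfl⟩ := List.mem_map.1 he
        exact ieq_iff.2 (hp s hs s' (hA s' hs'))
      rw [h3] at h2
      rw [List.reverse_cons, List.append_assoc]
      exact ih (s :: A) (fun t ht => hL t (List.mem_cons_of_mem _ ht))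
        (List.forall_mem_cons.2 ⟨hs, hA⟩) h2

/-- The test for one of the three reflection products. -/
noncomputable def tst (r : ℕ) (a b : ℤ) (A : List (ℕ × ℕ)) : Bool :=
  allL (fun e => ieq (((e.2 : ℤ) + (a * pr r e.1 + b * pr (piF 0 r) e.1)) % 5) 0) A

noncomputable def leaf (l0 l1 l2 l3 r : ℕ) (A : List (ℕ × ℕ)) : Bool :=
  bor (allL (fun e => Nat.beq e.2 0) A) (band (Nat.ble r 239) (band (Nat.beq (mF r 0) l0)
    (band (Nat.beq (mF r 1) l1) (band (Nat.beq (mF r 2) l2) (band (Nat.beq (mF r 3) l3)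
      (bor (tst r 1 0 A) (bor (tst r 0 2 A) (tst r 1 2 A))))))))

def sL : List ℕ := [130, 135, 141, 126, 162, 123, 121, 120]

noncomputable def chk (l0 l1 l2 l3 : ℕ) : Bool :=
  bor (Nat.beq (l0 + l1 + l2 + l3) 0) (srch (cand l0 l1 l2 l3)
    (leaf l0 l1 l2 l3 (mI (l0 + 8 * l1 + 64 * l2 + 512 * l3))) sL [])

noncomputable def chk1 (l0 : ℕ) : Bool :=
  allLt (fun l1 => allLt (fun l2 => allLt (fun l3 => chk l0 l1 l2 l3) 5) 5) 5

theorem chk_0 : chk1 0 = true := by decide +kernel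
theorem chk_1 : chk1 1 = true := by decide +kernel
theorem chk_2 : chk1 2 = true := by decide +kernel
theorem chk_3 : chk1 3 = true := by decide +kernel
theorem chk_4 : chk1 4 = true := by decide +kernel

theorem chk_all {l0 l1 l2 l3 : ℕ} (h0 : l0 < 5) (h1 : l1 < 5) (h2 : l2 < 5) (h3 : l3 < 5) :
    chk l0 l1 l2 l3 = true := by
  have h : chk1 l0 = true := by
    interval_cases l0
    exacts [chk_0, chk_1, chk_2, chk_3, chk_4]
  exact allLt_sound (allLt_sound (allLt_sound h l1 h1) l2 h2) l3 h3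

theorem simple_mem (j : Ix) : (C8.R.simple j : ℕ) ∈ sL := by
  have : ∀ j < chevE8.rank, chevE8.simple j ∈ sL := by decide +kernel
  rw [C8.simple_val]
  exact this j j.2

theorem W_ext {u u' : Perm Rt} (hu : u ∈ C8.S.W) (hu' : u' ∈ C8.S.W)
    (h : ∀ s : Rt, (s : ℕ) ∈ sL → m (u s) = m (u' s)) : u = u' := by
  ext1 r
  apply C8.R.rc_inj
  funext i
  have e := (isAdd_rc (R := C8.R) i).comp hu r
  have e' := (isAdd_rc (R := C8.R) i).comp hu' r
  simp only at e e'
  rw [e, e']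
  exact Finset.sum_congr rfl fun j _ => by rw [m_inj (h _ (simple_mem j))]

theorem cand_eq {l : V} {s t : Rt} {c : ZMod 5} (h : m t = m s + c • l) :
    cand (l 0).val (l 1).val (l 2).val (l 3).val s c.val = t := by
  have e : ∀ k : Fin 4, mF t k = (mF s k + c.val * (l k).val) % 5 := fun k => by
    rw [← m_val', ← m_val', h, Pi.add_apply, Pi.smul_apply, smul_eq_mul, ZMod.val_add,
      ZMod.val_mul, Nat.add_mod_mod]
  have e0 : mF t 0 = _ := e 0
  have e1 : mF t 1 = _ := e 1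
  have e2 : mF t 2 = _ := e 2
  have e3 : mF t 3 = _ := e 3
  rw [← mI_mF t, e0, e1, e2, e3]
  rfl

theorem tst_sound {C : ℕ → ℕ} {r : Rt} {a b : ℤ} {A : List ℕ}
    (h : tst r a b (A.map fun s => (s, C s)) = true) {s : Rt} (hs : (s : ℕ) ∈ A) :
    (C s : ZMod 5) = -((a * C8.R.pair r s + b * C8.R.pair (w r) s : ℤ) : ZMod 5) := by
  have h1 := ieq_iff.1 (allL_iff.1 h _ (List.mem_map.2 ⟨_, hs, rfl⟩))
  simp only at h1
  rw [← w_val, ← H54.O84.pair_eq, ← H54.O84.pair_eq] at h1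
  have h2 := (ZMod.intCast_zmod_eq_zero_iff_dvd _ 5).2 (Int.dvd_of_emod_eq_zero h1)
  rw [Int.cast_add, Int.cast_natCast] at h2
  exact eq_neg_of_add_eq_zero_left h2

theorem wf (rho : RhoStmt) : WfStmt := by
  intro u hu l hl h
  choose c hc using h
  let C : ℕ → ℕ := fun s => if hs : s < 240 then (c ⟨s, hs⟩).val else 0
  have hC : ∀ s : Rt, C s = (c s).val := fun s => dif_pos s.2
  have hcd : ∀ s : Rt, cand (l 0).val (l 1).val (l 2).val (l 3).val s (C s) = u s := fun s => by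
    rw [hC, cand_eq (hc s)]
  have hk := chk_all (ZMod.val_lt (l 0)) (ZMod.val_lt (l 1)) (ZMod.val_lt (l 2)) (ZMod.val_lt (l 3))
  rcases bor_iff.1 hk with h0 | h0
  · have h1 := Nat.beq_eq.mp h0
    refine absurd (funext fun k => (ZMod.val_eq_zero _).1 ?_) hl
    fin_cases k
    · show (l 0).val = 0
      omega
    · show (l 1).val = 0
      omega
    · show (l 2).val = 0
      omega
    · show (l 3).val = 0
      omega
  have h1 := srch_sound C
    (fun s hs => ⟨by rw [hC ⟨s, hs⟩]; exact ZMod.val_lt _, by rw [hcd ⟨s, hs⟩]; exact (u _).2⟩)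
    (fun s hs s' hs' => by
      rw [hcd ⟨s, hs⟩, hcd ⟨s', hs'⟩, ← H54.O84.pair_eq, C8.R.pair_W hu,
        H54.O84.pair_eq])
    sL [] (by decide) (by simp) h0
  have hm : ∀ s : Rt, (s : ℕ) ∈ sL → (s : ℕ) ∈ sL.reverse ++ [] := fun s hs => by
    rwa [List.append_nil, List.mem_reverse]
  have hc' : ∀ s : Rt, m (u s) = m s + (C s : ZMod 5) • l := fun s => by
    rw [hC, ZMod.natCast_zmod_val, hc]
  generalize mI _ = r at h1
  rcases bor_iff.1 h1 with h2 | h2
  · refine Or.inl (W_ext hu (one_mem _) fun s hs => ?_)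
    have h3 : C s = 0 := Nat.beq_eq.mp (allL_iff.1 h2 _ (List.mem_map.2 ⟨_, hm s hs, rfl⟩))
    rw [hc', h3]; simp
  simp only [band_iff, bor_iff, Nat.beq_eq, Nat.ble_eq] at h2
  obtain ⟨hr, e0, e1, e2, e3, h3⟩ := h2
  obtain ⟨r, rfl⟩ : ∃ r' : Rt, (r' : ℕ) = r := ⟨⟨r, Nat.lt_succ_of_le hr⟩, rfl⟩
  have e : m r = l := funext fun k => ZMod.val_injective 5 (by
    rw [m_val']
    fin_cases k
    exacts [e0, e1, e2, e3])
  refine Or.inr ⟨r, e, ?_⟩
  rcases h3 with h3 | h3 | h3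
  · refine Or.inl (W_ext hu (τ_mem _) fun s hs => ?_)
    rw [hc', tst_sound h3 (hm s hs), m_τ, e, neg_smul, ← sub_eq_add_neg]
    simp
  · refine Or.inr (Or.inl (W_ext hu (τ_mem _) fun s hs => ?_))
    rw [hc', tst_sound h3 (hm s hs), m_τ, m_w, e, neg_smul, ← sub_eq_add_neg, smul_smul]
    simp [mul_comm]
  · refine Or.inr (Or.inr (W_ext hu (mem_CW.1 (rho.1 r)).1 fun s hs => ?_))
    rw [hc', tst_sound h3 (hm s hs), rho.2.2.2.2.2.2.1, e, neg_smul, ← sub_eq_add_neg, one_mul]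

end Cfsg.Agent.H12.O84Wf
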