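import Cfsg.Agent.H42.PcDefs

/-! Project PC, piece E1. -/

set_option autoImplicit false

namespace Cfsg.Agent.H12.PcE1

open Subgroup Cfsg.Agent.H42.Pc

universe u

theorem e1 (ab : AbStmt.{u}) : E1Stmt.{u} := by
  intro G _ T U t cf hZ tt hw a ha
  have hc := (ab G T U cf).2.2
  have tz : ∀ x ∈ Sq T, t * x * t⁻¹ = x := by
    intro x hx
    induction hx using closure_induction with
    | mem x h =>
      obtain ⟨w, wT, rfl⟩ := h
      obtain ⟨f2, fc⟩ := hZ _ (hw w wT)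
      have c := (fc w (cf.le wT)).eq
      generalize hf : w⁻¹ * (t * w * t⁻¹) = f at f2 c
      have e : t * w * t⁻¹ = w * f := by rw [← hf]; group
      calc t * (w * w) * t⁻¹ = (t * w * t⁻¹) * (t * w * t⁻¹) := by group
        _ = w * (f * w) * f := by rw [e]; group
        _ = w * w * (f * f) := by rw [c]; group
        _ = w * w := by rw [f2, mul_one]
    | one => group
    | mul x y _ _ h1 h2 =>
      calc t * (x * y) * t⁻¹ = (t * x * t⁻¹) * (t * y * t⁻¹) := by group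
        _ = _ := by rw [h1, h2]
    | inv x _ h =>
      calc t * x⁻¹ * t⁻¹ = (t * x * t⁻¹)⁻¹ := by group
        _ = _ := by rw [h]
  have a' : t * a * t⁻¹ ∈ U := cf.nU.conj_mem a ha t
  have key : ∀ b ∈ U, b⁻¹ * (t * b * t⁻¹) ∈ Sq T → Commute (a⁻¹ * (t * a * t⁻¹)) b := by
    intro b hb hf
    have h1 := tz _ (hc a ha b hb)
    have h2 := ((hZ _ hf).2 _ a').eq
    have h3 := ((hZ _ (hc a ha b hb)).2 _ (mul_mem (inv_mem ha) a')).eq
    generalize hf : b⁻¹ * (t * b * t⁻¹) = f at h2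
    have e : t * b * t⁻¹ = b * f := by rw [← hf]; group
    generalize hd : a⁻¹ * (b * a * b⁻¹) = c at h3
    have e1 : b * a * b⁻¹ = a * c := by rw [← hd]; group
    have e2 : b * (t * a * t⁻¹) * b⁻¹ = t * a * t⁻¹ * c := by
      calc b * (t * a * t⁻¹) * b⁻¹ = b * (t * a * t⁻¹ * f) * f⁻¹ * b⁻¹ := by group
        _ = (b * f) * (t * a * t⁻¹) * (b * f)⁻¹ := by rw [← h2]; group
        _ = t * a * t⁻¹ * (t * (a⁻¹ * (b * a * b⁻¹)) * t⁻¹) := by rw [← e]; group
        _ = _ := by rw [h1, hd]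
    have e3 : b * (a⁻¹ * (t * a * t⁻¹)) * b⁻¹ = a⁻¹ * (t * a * t⁻¹) := by
      calc _ = (b * a * b⁻¹)⁻¹ * (b * (t * a * t⁻¹) * b⁻¹) := by group
        _ = c⁻¹ * (a⁻¹ * (t * a * t⁻¹) * c) := by rw [e1, e2]; group
        _ = _ := by rw [← h3]; group
    exact (mul_inv_eq_iff_eq_mul.1 e3).symm
  refine ⟨key _ tt ?_, fun w wT => key w (cf.le wT) (hw w wT)⟩
  rw [show (t * t)⁻¹ * (t * (t * t) * t⁻¹) = 1 by group]
  exact one_mem _

end Cfsg.Agent.H12.PcE1
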