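import Cfsg.Agent.H12.RO15

/-!
Bases of linear groups, part 16: Hall subgroups of `π`-solvable groups.
-/

set_option autoImplicit false

namespace Cfsg.Agent.H12.RO

open Subgroup
open scoped Pointwise

universe u

variable {G : Type u} [Group G] [Finite G] {π : Set ℕ}

/-- A `π`-solvability step. -/
def PiStep (π : Set ℕ) (m : ℕ) : Prop :=
  (∃ p ∈ π, p.Prime ∧ ∃ k : ℕ, m ∣ p ^ k) ∨ ∀ q : ℕ, q.Prime → q ∣ m → q ∉ π

theorem PiStep.of_dvd {m n : ℕ} (h : PiStep π n) (hd : m ∣ n) : PiStep π m :=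
  h.imp (fun ⟨p, h1, h2, k, h3⟩ => ⟨p, h1, h2, k, hd.trans h3⟩) fun h q hq e => h q hq (e.trans hd)

omit [Finite G] in
theorem relIndex_dvd_right {A B D : Subgroup G} [A.Normal] (h : D ≤ B) :
    A.relIndex D ∣ A.relIndex B := by
  rw [← H3.card_map_mk', ← H3.card_map_mk']
  exact card_dvd_of_le (map_mono h)

omit [Finite G] in
theorem relIndex_map_dvd' {X : Type*} [Group X] (f : G →* X) (A B : Subgroup G) :
    (A.map f).relIndex (B.map f) ∣ A.relIndex B :=
  (index_dvd_of_le (H := (A.subgroupOf B).map (f.subgroupMap B)) (by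
    rintro _ ⟨x, hx, rfl⟩
    exact ⟨x, hx, rfl⟩)).trans (index_map_dvd _ (f.subgroupMap_surjective B))

section
variable {n : ℕ} {N : Fin (n + 1) → Subgroup G} (h0 : N 0 = ⊥) (hl : N (Fin.last n) = ⊤)
  (hN : ∀ i, (N i).Normal) (hs : ∀ i : Fin n, PiStep π ((N i.castSucc).relIndex (N i.succ)))
include h0 hl hN hs

theorem chain_solvable {H : Subgroup G} (hH : ∀ p : ℕ, p.Prime → p ∣ Nat.card H → p ∈ π) :
    Group.IsSolvable H := by
  have key : ∀ i, Group.IsSolvable (H ⊓ N i : Subgroup G) := fun i => by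
    induction i using Fin.induction with
    | zero =>
      rw [h0, inf_bot_eq]
      infer_instance
    | succ i ih =>
      have := hN i.castSucc
      have h1 := (hs i).of_dvd (relIndex_dvd_right (D := H ⊓ N i.succ) inf_le_right)
      rw [← H3.card_map_mk'] at h1
      have : Group.IsSolvable ((H ⊓ N i.succ).map (QuotientGroup.mk' (N i.castSucc))) := by
        rcases h1 with ⟨p, -, hp, k, h1⟩ | h1
        · have := Fact.mk hp
          obtain ⟨j, -, h2⟩ := (Nat.dvd_prime_pow hp).1 h1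
          exact H4.isSolvable_of_isPGroup (IsPGroup.of_card h2)
        · rw [eq_bot_of_card_eq _ (Nat.eq_one_iff_not_exists_prime_dvd.2 fun q hq hd => h1 q hq hd
            (hH q hq (hd.trans ((card_map_dvd _ _).trans (card_dvd_of_le inf_le_left)))))]
          infer_instance
      have : Group.IsSolvable ((H ⊓ N i.castSucc).subgroupOf (H ⊓ N i.succ)) :=
        Group.isSolvable_of_isSolvable_injective
          (f := ((H ⊓ N i.succ).subtype.subgroupComap (H ⊓ N i.castSucc)))
          fun a b e => Subtype.ext (Subtype.ext (congrArg (fun z => z.1) e :))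
      refine solvable_of_ker_le_range ((H ⊓ N i.castSucc).subgroupOf (H ⊓ N i.succ)).subtype
        ((QuotientGroup.mk' (N i.castSucc)).subgroupMap _) fun x hx => ?_
      exact ⟨⟨x, x.2.1, (QuotientGroup.eq_one_iff _).1 (congrArg Subtype.val hx)⟩, rfl⟩
  have := key (Fin.last n)
  rwa [hl, inf_top_eq] at this

theorem chain_cent (hO : piCore π G = ⊥) :
    centralizer (piCore πᶜ G : Set G) ≤ piCore πᶜ G := by
  set K := piCore πᶜ G
  set C := centralizer (K : Set G)
  have key : ∀ i, C ⊓ N i ≤ K := fun i => by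
    induction i using Fin.induction with
    | zero => simp [h0]
    | succ i ih =>
      have := hN i.castSucc
      have := hN i.succ
      set D := C ⊓ N i.succ
      have h1 := (hs i).of_dvd (relIndex_dvd_right (D := D) inf_le_right)
      have h2 : K.relIndex D ∣ (N i.castSucc).relIndex D := by
        rw [← inf_relIndex_right (N i.castSucc)]
        exact relIndex_dvd_of_le_left _ fun x hx => ih ⟨hx.2.1, hx.1⟩
      rcases h1.of_dvd h2 with ⟨p, hp, hq, k, h1⟩ | h1
      · have := Fact.mk hq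
        obtain ⟨P⟩ : Nonempty (Sylow p D) := inferInstance
        have h3 : ∀ m, m ∣ K.relIndex D → m ∣ (P : Subgroup D).index → m = 1 := fun m a b =>
          Nat.eq_one_of_dvd_coprimes ((hq.coprime_iff_not_dvd.2 P.not_dvd_index).pow_left k)
            (a.trans h1) b
        have h4 : (P : Subgroup D).Normal := normalizer_eq_top_iff.1 (index_eq_one.1 (h3 _
          (index_dvd_of_le fun x hx => centralizer_le_normalizer _ fun y _ =>
            Subtype.ext (y.2.1 x hx).symm) (index_dvd_of_le le_normalizer)))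
        have h5 : (P : Subgroup D) = ⊥ := by
          rw [← map_eq_bot_iff_of_injective _ D.subtype_injective, eq_bot_iff, ← hO]
          refine (map_mono (H3.le_piCore fun q hq' hd => ?_)).trans (H3.map_piCore_le_piCore D)
          obtain ⟨j, hj⟩ := P.isPGroup'.exists_card_eq
          rwa [(Nat.prime_dvd_prime_iff_eq hq' hq).1 (hq'.dvd_of_dvd_pow (hj ▸ hd))]
        exact relIndex_eq_one.1 (h3 _ dvd_rfl (index_dvd_of_le (h5 ▸ bot_le)))
      · refine H3.le_piCore fun q hq hd => ?_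
        rw [← (K.subgroupOf D).card_mul_index] at hd
        refine (hq.dvd_mul.1 hd).elim (fun h => H3.piCore_pi πᶜ G q hq (h.trans ?_)) (h1 q hq)
        exact card_comap_dvd_of_injective _ _ D.subtype_injective
  have := key (Fin.last n)
  rwa [hl, inf_top_eq] at this

theorem hall_three_aux (hO : piCore π G = ⊥) {H : Subgroup G}
    (hH : ∀ p : ℕ, p.Prime → p ∣ Nat.card H → p ∈ π) :
    ∃ x y : G, ∀ a ∈ H, x⁻¹ * a * x ∈ H → y⁻¹ * a * y ∈ H → a = 1 := by
  have hc : (Nat.card H).Coprime (Nat.card (piCore πᶜ G)) :=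
    Nat.coprime_of_dvd fun q hq h1 h2 => H3.piCore_pi πᶜ G q hq h2 (hH q hq h1)
  have h1 : ∀ a ∈ H, a ∈ piCore πᶜ G → a = 1 := fun a h1 h2 =>
    mem_bot.1 (inf_eq_bot_of_coprime hc ▸ mem_inf.2 ⟨h1, h2⟩)
  obtain ⟨x, hx, y, hy, h⟩ := good (chain_solvable h0 hl hN hs hH) le_normalizer_of_normal hc
  have h2 : ∀ a ∈ H, ∀ z ∈ piCore πᶜ G, z⁻¹ * a * z ∈ H → Commute a z := fun a ha z hz e => by
    have := h1 _ (H.mul_mem (H.inv_mem ha) e) (by
      simpa [mul_assoc] using mul_mem ((piCore_normal πᶜ G).conj_mem' _ (inv_mem hz) a) hz)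
    rw [inv_mul_eq_one, mul_assoc, eq_inv_mul_iff_mul_eq] at this
    exact this.symm
  exact ⟨x, y, fun a ha e1 e2 => h1 a ha (chain_cent h0 hl hN hs hO fun k hk =>
    (h a ha (h2 a ha x hx e1) (h2 a ha y hy e2) k hk).eq.symm)⟩

/-- Three conjugates of a Hall subgroup meet in the `π`-core. -/
theorem hall_three {H : Subgroup G} (hH : IsPiHall π H) :
    ∃ x y : G, H ⊓ MulAut.conj x • H ⊓ MulAut.conj y • H = piCore π G := by
  let f := QuotientGroup.mk' (piCore π G)
  have hf : Function.Surjective f := QuotientGroup.mk'_surjective _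
  obtain ⟨x, y, h⟩ := hall_three_aux (N := fun i => (N i).map f) (by simp [h0])
    (by rw [hl, map_top_of_surjective _ hf]) (fun i => (hN i).map f hf)
    (fun i => (hs i).of_dvd (relIndex_map_dvd' f _ _)) (H3.piCore_quotient_piCore π G)
    (H2.isPiHall_map hf hH).1
  obtain ⟨x, rfl⟩ := hf x
  obtain ⟨y, rfl⟩ := hf y
  have h1 : piCore π G ≤ H := H2.normal_le_of_isPiHall hH (H3.piCore_pi π G)
  refine ⟨x, y, le_antisymm (fun a ⟨⟨h1, h2⟩, h3⟩ => (QuotientGroup.eq_one_iff a).1
    (h (f a) ⟨a, h1, rfl⟩ ⟨_, H4.mem_conj_smul_iff.1 h2, by simp⟩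
      ⟨_, H4.mem_conj_smul_iff.1 h3, by simp⟩)) fun a ha => ⟨⟨h1 ha, ?_⟩, ?_⟩⟩
  all_goals exact H4.mem_conj_smul_iff.2 (h1 ((piCore_normal π G).conj_mem' a ha _))

end

end Cfsg.Agent.H12.RO
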