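import Mathlib
import Cfsg.Agent.H74.RuDefs

/-!
Rank three leaves room for one linked class of characters.
-/

set_option autoImplicit false

namespace Cfsg.Agent.H12.RuRk

open Cfsg.Agent.H74.Ru
open scoped ComplexConjugate Classical

variable {G : Type} [Group G] [Fintype G]

theorem sum_mul_left (g : G) (f : G → ℂ) : ∑ x, f (g * x) = ∑ x, f x :=
  Equiv.sum_comp (Equiv.mulLeft g) f

theorem sum_mul_right (g : G) (f : G → ℂ) : ∑ x, f (x * g) = ∑ x, f x :=
  Equiv.sum_comp (Equiv.mulRight g) f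

omit [Group G] in
theorem eq_zero_of_sum {f : G → ℂ} (h : ∑ x, f x * conj (f x) = 0) (x : G) : f x = 0 := by
  have h1 : ∑ x, Complex.normSq (f x) = 0 := by
    have : ((∑ x, Complex.normSq (f x) : ℝ) : ℂ) = 0 := by
      rw [← h]; push_cast
      exact Finset.sum_congr rfl fun x _ => (Complex.mul_conj _).symm
    exact_mod_cast this
  have := (Finset.sum_eq_zero_iff_of_nonneg fun x _ => Complex.normSq_nonneg (f x)).1 h1 x
    (Finset.mem_univ _)
  exact Complex.normSq_eq_zero.1 this

/-- Four functions on the cosets with orthogonal orbits need four double cosets. -/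
theorem four (K : Subgroup G) (f : Fin 4 → G → ℂ) (hK : ∀ i x, ∀ k ∈ K, f i (x * k) = f i x)
    (hne : ∀ i, ∃ x, f i x ≠ 0)
    (ho : ∀ i j, i ≠ j → ∀ g, ∑ x, f i (g * x) * conj (f j x) = 0) : ¬ Rk3 K := by
  rintro ⟨a, b, hab⟩
  let F : Fin 4 → G → ℂ := fun i x => ∑ y, conj (f i y) * f i (y * x)
  have hr : ∀ i x, ∀ k ∈ K, F i (x * k) = F i x := fun i x k hk =>
    Finset.sum_congr rfl fun y _ => by rw [← mul_assoc, hK i _ k hk]
  have hl : ∀ i x, ∀ k ∈ K, F i (k * x) = F i x := fun i x k hk => by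
    have := sum_mul_right k fun y => conj (f i y) * f i (y * x)
    simp only [F]
    rw [← this]
    exact Finset.sum_congr rfl fun y _ => by rw [hK i _ k hk, mul_assoc]
  have hO : ∀ i j, i ≠ j → ∑ x, F i x * conj (F j x) = 0 := by
    intro i j hij
    have h1 : ∀ y z, ∑ x, f i (y * x) * conj (f j (z * x)) = 0 := fun y z => by
      have := sum_mul_left z fun x => f i (y * z⁻¹ * x) * conj (f j x)
      rw [ho i j hij] at this
      rw [← this]
      exact Finset.sum_congr rfl fun x _ => by congr 2; group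
    have h2 : ∀ x, F i x * conj (F j x) =
        ∑ y, ∑ z, (conj (f i y) * f j z) * (f i (y * x) * conj (f j (z * x))) := fun x => by
      simp only [F, map_sum, map_mul, Complex.conj_conj, Finset.sum_mul_sum]
      exact Finset.sum_congr rfl fun y _ => Finset.sum_congr rfl fun z _ => by ring
    simp only [h2]
    rw [Finset.sum_comm]
    refine Finset.sum_eq_zero fun y _ => ?_
    rw [Finset.sum_comm]
    refine Finset.sum_eq_zero fun z _ => ?_
    rw [← Finset.mul_sum, h1, mul_zero]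
  let v : Fin 4 → Fin 3 → ℂ := fun i => ![F i 1, F i a, F i b]
  have hv : ¬ LinearIndependent ℂ v := fun h => by
    have := h.fintype_card_le_finrank
    simp at this
  obtain ⟨c, hc, j, hj⟩ := Fintype.not_linearIndependent_iff.1 hv
  have h0 : ∑ i, c i * F i 1 = 0 := by simpa [v] using congrFun hc 0
  have h1 : ∑ i, c i * F i a = 0 := by simpa [v] using congrFun hc 1
  have h2 : ∑ i, c i * F i b = 0 := by simpa [v] using congrFun hc 2
  have hz : ∀ x, ∑ i, c i * F i x = 0 := by
    intro x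
    rcases hab x with hx | ⟨h, hh, h', hh', rfl⟩ | ⟨h, hh, h', hh', rfl⟩
    · rw [← h0]
      exact Finset.sum_congr rfl fun i _ => by rw [← hr i 1 x hx, one_mul]
    · rw [← h1]
      exact Finset.sum_congr rfl fun i _ => by rw [hr i _ h' hh', hl i _ h hh]
    · rw [← h2]
      exact Finset.sum_congr rfl fun i _ => by rw [hr i _ h' hh', hl i _ h hh]
  have h3 : ∑ x, (∑ i, c i * F i x) * conj (F j x) = 0 := by simp [hz]
  have h4 : ∑ x, (∑ i, c i * F i x) * conj (F j x) = ∑ i, c i * ∑ x, F i x * conj (F j x) := by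
    simp only [Finset.sum_mul, Finset.mul_sum, mul_assoc]
    exact Finset.sum_comm
  rw [h4, Finset.sum_eq_single j (fun i _ hi => by rw [hO i j hi, mul_zero])
    (fun h => absurd (Finset.mem_univ _) h)] at h3
  have h5 := eq_zero_of_sum ((mul_eq_zero.1 h3).resolve_left hj) 1
  obtain ⟨x, hx⟩ := hne j
  refine hx (eq_zero_of_sum ?_ x)
  rw [← h5]
  exact Finset.sum_congr rfl fun y _ => by rw [mul_one, mul_comm]

omit [Fintype G] in
theorem lnk_symm {H : Subgroup G} {θ θ' : H →* ℂˣ} (h : Lnk H θ θ') : Lnk H θ' θ := by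
  obtain ⟨g, hg⟩ := h
  refine ⟨g⁻¹, fun h h' e => (hg h' h ?_).symm⟩
  have : (h' : G) = g * h * g⁻¹ := by rw [mul_assoc, e]; group
  rw [this]; group

theorem mul_conj_char {H : Subgroup G} (θ : H →* ℂˣ) (h : H) :
    (θ h : ℂ) * conj (θ h : ℂ) = 1 := by
  have h1 : (θ h : ℂ) ^ Nat.card H = 1 := by
    rw [← Units.val_pow_eq_pow_val, ← map_pow, pow_card_eq_one', map_one, Units.val_one]
  have h2 := Complex.norm_eq_one_of_pow_eq_one h1 Nat.card_pos.ne'
  rw [Complex.mul_conj', h2]; simp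

theorem link {H : Subgroup G} {θ θ' : H →* ℂˣ} {f f' : G → ℂ}
    (hf : ∀ (h : H) x, θ h * f (h * x) = f x) (hf' : ∀ (h : H) x, θ' h * f' (h * x) = f' x)
    (hn : ¬ Lnk H θ' θ) (g : G) : ∑ x, f (g * x) * conj (f' x) = 0 := by
  by_contra hP
  refine hn ⟨g, fun h h' e => ?_⟩
  have h1 := sum_mul_left (h' : G) fun x => f (g * x) * conj (f' x)
  have h2 : (θ h : ℂ) * conj (θ' h' : ℂ) * ∑ x, f (g * (h' * x)) * conj (f' (h' * x)) =
      ∑ x, f (g * x) * conj (f' x) := by
    rw [Finset.mul_sum]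
    refine Finset.sum_congr rfl fun x _ => ?_
    rw [← hf h (g * x), ← hf' h' x, map_mul, ← mul_assoc g, ← e, mul_assoc (h : G)]
    ring
  rw [h1] at h2
  have h3 : (θ h : ℂ) * conj (θ' h' : ℂ) = 1 :=
    mul_right_cancel₀ hP (h2.trans (one_mul _).symm)
  have h4 := mul_conj_char θ' h'
  apply Units.ext
  linear_combination (θ' h' : ℂ) * h3 - (θ h : ℂ) * h4

/-- The eigenfunction of a character. -/
noncomputable def ft (K H : Subgroup G) (θ : H →* ℂˣ) (x : G) : ℂ :=
  ∑ h : H, if (h : G) * x ∈ K then (θ h : ℂ) else 0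

theorem ft_right (K H : Subgroup G) (θ : H →* ℂˣ) (x k : G) (hk : k ∈ K) :
    ft K H θ (x * k) = ft K H θ x :=
  Finset.sum_congr rfl fun h _ => by
    rw [← mul_assoc]; simp only [K.mul_mem_cancel_right hk]

theorem ft_left (K H : Subgroup G) (θ : H →* ℂˣ) (h : H) (x : G) :
    θ h * ft K H θ (h * x) = ft K H θ x := by
  unfold ft
  rw [← sum_mul_right h fun h : H => if (h : G) * x ∈ K then (θ h : ℂ) else 0, Finset.mul_sum]
  refine Finset.sum_congr rfl fun h' _ => ?_
  simp only [Subgroup.coe_mul, mul_assoc, map_mul, Units.val_mul]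
  split_ifs
  · ring
  · simp

theorem ft_one (K H : Subgroup G) (θ : H →* ℂˣ) (hθ : ∀ h : H, (h : G) ∈ K → θ h = 1) :
    ft K H θ 1 ≠ 0 := by
  have h1 : ft K H θ 1 = ((Finset.univ.filter fun h : H => (h : G) ∈ K).card : ℂ) := by
    rw [Finset.card_filter]; push_cast
    refine Finset.sum_congr rfl fun h _ => ?_
    rw [mul_one]
    split_ifs with hh
    · rw [hθ h hh, Units.val_one]
    · rfl
  rw [h1]
  exact Nat.cast_ne_zero.2 (Finset.card_ne_zero.2 ⟨1, by simp⟩)

theorem rk : RkStmt := by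
  intro G _ _ K H hR ⟨g, hg⟩ θ θ' hθ hθ'
  have := Fintype.ofFinite G
  by_contra hn
  simp only [not_or] at hn
  obtain ⟨n1, n2, n3⟩ := hn
  have n1' : ¬ Lnk H θ 1 := fun h => n1 (lnk_symm h)
  have n2' : ¬ Lnk H θ' 1 := fun h => n2 (lnk_symm h)
  have n3' : ¬ Lnk H θ' θ := fun h => n3 (lnk_symm h)
  let c : ℂ := (∑ x, ft K H 1 x) / Fintype.card G
  let e : G → ℂ := fun _ => 1
  let f0 : G → ℂ := fun x => ft K H 1 x - c
  have he : ∀ (h : H) x, ((1 : H →* ℂˣ) h : ℂ) * e (h * x) = e x := fun h x => by simp [e]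
  have h0 : ∀ (h : H) x, ((1 : H →* ℂˣ) h : ℂ) * f0 (h * x) = f0 x := fun h x => by
    have := ft_left K H 1 h x
    simp only [MonoidHom.one_apply, Units.val_one, one_mul] at this ⊢
    simp only [f0, this]
  have hs : ∑ x, f0 x = 0 := by
    have : (Fintype.card G : ℂ) ≠ 0 := Nat.cast_ne_zero.2 Fintype.card_ne_zero
    simp only [f0, c, Finset.sum_sub_distrib, Finset.sum_const, Finset.card_univ, nsmul_eq_mul]
    field_simp
    ring
  have hg0 : ft K H 1 g = 0 := Finset.sum_eq_zero fun h _ => if_neg fun hh =>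
    hg h⁻¹ (H.inv_mem h.2) _ hh (by group)
  have hf0 : ∃ x, f0 x ≠ 0 := by
    by_contra hx
    push Not at hx
    apply ft_one K H 1 fun _ _ => rfl
    have a1 := hx 1
    have a2 := hx g
    simp only [f0, hg0] at a1 a2
    linear_combination a1 - a2
  have s1 : ∀ a : G, ∑ x, e (a * x) * conj (f0 x) = 0 := fun a => by
    simp only [e, one_mul]
    rw [← map_sum, hs, map_zero]
  have s2 : ∀ a : G, ∑ x, f0 (a * x) * conj (e x) = 0 := fun a => by
    simp only [e, map_one, mul_one]
    rw [sum_mul_left, hs]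
  have h1 := ft_left K H θ
  have h2 := ft_left K H θ'
  refine four K ![e, f0, ft K H θ, ft K H θ'] ?_ ?_ ?_ hR
  · intro i x k hk
    fin_cases i
    · rfl
    · simp [f0, ft_right K H 1 x k hk]
    · exact ft_right K H θ x k hk
    · exact ft_right K H θ' x k hk
  · intro i
    fin_cases i
    · exact ⟨1, one_ne_zero⟩
    · exact hf0
    · exact ⟨1, ft_one K H θ hθ⟩
    · exact ⟨1, ft_one K H θ' hθ'⟩
  · intro i j hij
    fin_cases i <;> fin_cases j
    all_goals first
      | exact absurd rfl hij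
      | exact s1
      | exact s2
      | exact link he h1 n1'
      | exact link he h2 n2'
      | exact link h0 h1 n1'
      | exact link h0 h2 n2'
      | exact link h1 he n1
      | exact link h1 h0 n1
      | exact link h1 h2 n3'
      | exact link h2 he n2
      | exact link h2 h0 n2
      | exact link h2 h1 n3

end Cfsg.Agent.H12.RuRk
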