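import Mathlib
import Cfsg.Agent.H11.Kernel
import Cfsg.Agent.H12.Central
import Cfsg.Agent.H13.Brauer
import Cfsg.Agent.H14.Gallagher

/-!
# Class functions depending only on the `π'`-part

For `|G| = m * n` with `m`, `n` coprime and `a * m + b * n = 1`, the power `x ^ (a * m)` is the part
of `x` of order dividing `n`.  A class function `x ↦ F (x ^ (a * m))` with `F` taking values in
`n` times the algebraic integers has algebraic-integer inner products with characters.
-/

set_option autoImplicit false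

namespace Cfsg.Agent.H12

open Cfsg Cfsg.Agent.H11
open scoped ComplexConjugate

theorem isIntegral_inner_of_invariant {E : Type*} [Group E] [Fintype E] (A : Subgroup E)
    [A.Normal] {f : E → ℂ} {n : ℕ} (hn : A.index ∣ n) (hf : ∀ e, ∀ a ∈ A, f (a * e) = f e)
    (hint : ∀ e, ∃ r, IsIntegral ℤ r ∧ f e = n * r) {φ : E → ℂ} (hφ : IsIrrCharacter E φ) :
    IsIntegral ℤ (classInner f φ) := by
  classical
  have hA0 : (Nat.card A : ℂ) ≠ 0 := Nat.cast_ne_zero.2 Nat.card_pos.ne'
  by_cases hk : A ≤ charKer φ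
  · obtain ⟨t, rfl⟩ := hn
    choose r hr hfr using hint
    have hi0 : (A.index : ℂ) ≠ 0 := Nat.cast_ne_zero.2 Subgroup.index_ne_zero_of_finite
    have h1 : ∀ (q : E ⧸ A) (a : A), f (q.out * a) * conj (φ (q.out * a)) =
        f q.out * conj (φ q.out) := by
      intro q a
      have e : q.out * (a : E) = (q.out * a * q.out⁻¹) * q.out := by group
      have hm : q.out * (a : E) * q.out⁻¹ ∈ A := Subgroup.Normal.conj_mem inferInstance _ a.2 _
      rw [e, hf _ _ hm, apply_mul_of_mem_charKer (hk hm)]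
    have h2 : classInner f φ = ∑ q : E ⧸ A, (t : ℂ) * (r q.out * conj (φ q.out)) := by
      rw [classInner, sum_eq_sum_quotient A, Finset.mul_sum]
      refine Finset.sum_congr rfl fun q _ => ?_
      simp only [h1, Finset.sum_const, Finset.card_univ, nsmul_eq_mul, ← Nat.card_eq_fintype_card]
      rw [hfr, ← A.card_mul_index]
      push_cast
      field_simp
    rw [h2]
    refine IsIntegral.sum _ fun q _ => ?_
    refine (isIntegral_natCast t).mul ((hr _).mul ?_)
    rw [← IsCharacter_inv (isCharacter_of_irr hφ)]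
    exact IsCharacter_isIntegral (isCharacter_of_irr hφ) _
  · have h1 : H14.cosetAvg A f = f := by
      funext e
      simp only [H14.cosetAvg, hf e _ (Subtype.prop _), Finset.sum_const, Finset.card_univ,
        nsmul_eq_mul, ← Nat.card_eq_fintype_card]
      field_simp
    rw [← h1, H14.inner_cosetAvg, H14.cosetAvg_of_not_le_charKer A hφ hk]
    simp only [classInner, Pi.zero_apply, map_zero, mul_zero, Finset.sum_const_zero]
    exact isIntegral_zero

section

variable {G : Type*} [Group G] [Finite G] {m n : ℕ} {a b : ℤ}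

theorem zpow_eq_one_of_coprime_right (hmn : Nat.card G ∣ m * n) {u : G}
    (hu : Nat.Coprime (orderOf u) n) (a : ℤ) : u ^ (a * m) = 1 := by
  have h : orderOf u ∣ m := hu.dvd_of_dvd_mul_right ((orderOf_dvd_natCard u).trans hmn)
  rw [mul_comm, zpow_mul, zpow_natCast, orderOf_dvd_iff_pow_eq_one.1 h, one_zpow]

theorem zpow_eq_self_of_coprime_left (hmn : Nat.card G ∣ m * n) (hab : a * m + b * n = 1) {v : G}
    (hv : Nat.Coprime (orderOf v) m) : v ^ (a * m) = v := by
  have h := zpow_eq_one_of_coprime_right (m := n) (n := m) (by rwa [mul_comm]) hv b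
  calc v ^ (a * m) = v ^ (a * m) * v ^ (b * n) := by rw [h, mul_one]
    _ = v := by rw [← zpow_add, hab, zpow_one]

theorem orderOf_zpow_mul_dvd (hmn : Nat.card G ∣ m * n) (x : G) (a : ℤ) :
    orderOf (x ^ (a * m)) ∣ n := by
  rw [orderOf_dvd_iff_pow_eq_one, ← zpow_natCast, ← zpow_mul, mul_assoc, mul_comm, zpow_mul,
    ← Nat.cast_mul, zpow_natCast, orderOf_dvd_iff_pow_eq_one.1 ((orderOf_dvd_natCard x).trans hmn),
    one_zpow]

theorem zpow_part_eq (hmn : Nat.card G ∣ m * n) (hab : a * m + b * n = 1) {u v : G}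
    (huv : Commute u v) (hu : Nat.Coprime (orderOf u) n) (hv : Nat.Coprime (orderOf v) m) :
    (u * v) ^ (a * m) = v := by
  rw [huv.mul_zpow, zpow_eq_one_of_coprime_right hmn hu, zpow_eq_self_of_coprime_left hmn hab hv,
    one_mul]

theorem section_iff (hmn : Nat.card G ∣ m * n) (hcop : Nat.Coprime m n) (hab : a * m + b * n = 1)
    (g x : G) :
    (∃ v : G, IsConj v g ∧ ∃ u : G, x = u * v ∧ Commute u v ∧ Nat.Coprime (orderOf u) n ∧
      Nat.Coprime (orderOf v) m) ↔ IsConj (x ^ (a * m)) g := by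
  constructor
  · rintro ⟨v, hv, u, rfl, huv, hu, hv'⟩
    rwa [zpow_part_eq hmn hab huv hu hv']
  · intro h
    refine ⟨_, h, x ^ (b * n), ?_, Commute.zpow_zpow_self _ _ _, ?_, ?_⟩
    · rw [← zpow_add, add_comm, hab, zpow_one]
    · exact Nat.Coprime.coprime_dvd_left
        (orderOf_zpow_mul_dvd (m := n) (n := m) (by rwa [mul_comm]) x b) hcop
    · exact Nat.Coprime.coprime_dvd_left (orderOf_zpow_mul_dvd hmn x a) hcop.symm

/-- On an elementary group, taking the `π'`-part is a homomorphism. -/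
theorem mul_zpow_of_isElementary {p : ℕ} (hp : p.Prime) (hE : IsElementary p G)
    (hmn : Nat.card G ∣ m * n) (hcop : Nat.Coprime m n) (hab : a * m + b * n = 1) (x y : G) :
    (x * y) ^ (a * m) = x ^ (a * m) * y ^ (a * m) := by
  have := Fact.mk hp
  obtain ⟨z, Q, hz, -, hQ, hdec⟩ := H13.exists_decomp_of_isElementary hp hE
  have hc : ∀ c ∈ Subgroup.zpowers z, ∀ w, Commute c w := fun c hc w =>
    (Subgroup.mem_center_iff.1 (Subgroup.zpowers_le.2 hz hc) w).symm
  have hq : ∀ q ∈ Q, ∀ q' ∈ Q, (q * q') ^ (a * m) = q ^ (a * m) * q' ^ (a * m) := by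
    have hord : ∀ q ∈ Q, ∃ k, orderOf q = p ^ k := fun q hq => by
      obtain ⟨k, hk⟩ := IsPGroup.iff_orderOf.1 hQ ⟨q, hq⟩
      exact ⟨k, by rw [← hk, Subgroup.orderOf_mk]⟩
    by_cases hpm : p ∣ m
    · have h1 : ∀ q ∈ Q, q ^ (a * m) = 1 := fun q hq => by
        obtain ⟨k, hk⟩ := hord q hq
        refine zpow_eq_one_of_coprime_right hmn ?_ a
        rw [hk]
        exact Nat.Coprime.pow_left k (Nat.Coprime.coprime_dvd_left hpm hcop)
      intro q hq q' hq'
      rw [h1 _ hq, h1 _ hq', h1 _ (Q.mul_mem hq hq'), one_mul]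
    · have h1 : ∀ q ∈ Q, q ^ (a * m) = q := fun q hq => by
        obtain ⟨k, hk⟩ := hord q hq
        refine zpow_eq_self_of_coprime_left hmn hab ?_
        rw [hk]
        exact Nat.Coprime.pow_left k ((Nat.Prime.coprime_iff_not_dvd hp).2 hpm)
      intro q hq q' hq'
      rw [h1 _ hq, h1 _ hq', h1 _ (Q.mul_mem hq hq')]
  obtain ⟨c, hc1, q, hq1, rfl⟩ := hdec x
  obtain ⟨c', hc2, q', hq2, rfl⟩ := hdec y
  have e : c * q * (c' * q') = (c * c') * (q * q') := by
    rw [mul_assoc, ← mul_assoc q, ← (hc c' hc2 q).eq]; simp only [mul_assoc]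
  rw [e, (hc _ (Subgroup.mul_mem _ hc1 hc2) _).mul_zpow, (hc c hc1 _).mul_zpow, hq _ hq1 _ hq2,
    (hc c hc1 _).mul_zpow, (hc c' hc2 _).mul_zpow]
  have h3 := (hc _ (Subgroup.zpow_mem _ hc2 (a * m)) (q ^ (a * m))).eq
  simp only [mul_assoc]
  rw [← mul_assoc (c' ^ (a * m)), h3, mul_assoc]

end

theorem isIntegral_inner_section {G : Type*} [Group G] [Fintype G] {m n : ℕ} {a b : ℤ}
    (hmn : Nat.card G ∣ m * n) (hcop : Nat.Coprime m n) (hab : a * m + b * n = 1)
    {F : G → ℂ} (hF : IsClassFunction G F) (hint : ∀ e, ∃ r, IsIntegral ℤ r ∧ F e = n * r)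
    {χ : G → ℂ} (hχ : IsGeneralizedCharacter G χ) :
    IsIntegral ℤ (classInner (fun x => F (x ^ (a * m))) χ) := by
  have hcl : IsClassFunction G (fun x => F (x ^ (a * m))) := by
    intro g h
    simp only [conj_zpow]
    exact hF _ _
  refine H13.classInner_mem_of_restrict_elementary (integralClosure ℤ ℂ).toSubring.toAddSubgroup
    hcl ?_ hχ
  intro E _ p hp hE φ hφ
  have hE' : Nat.card E ∣ m * n := (Subgroup.card_subgroup_dvd_card E).trans hmn
  let τ : E →* E := MonoidHom.mk' (fun x => x ^ (a * m))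
    (mul_zpow_of_isElementary hp hE hE' hcop hab)
  have hτ : ∀ x, τ x = x ^ (a * m) := fun _ => rfl
  refine isIntegral_inner_of_invariant τ.ker (n := n) ?_ ?_ (fun e => hint _) hφ
  · rw [Subgroup.index_ker]
    refine Nat.Coprime.dvd_of_dvd_mul_left ?_ ((Subgroup.card_subgroup_dvd_card _).trans hE')
    refine Nat.coprime_of_dvd fun k hk h1 h2 => ?_
    have := Fact.mk hk
    obtain ⟨⟨y, hy⟩, hx⟩ := exists_prime_orderOf_dvd_card' k h1
    rw [Subgroup.orderOf_mk] at hx
    obtain ⟨x, rfl⟩ := hy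
    rw [hτ] at hx
    have h3 : k ∣ n := hx ▸ orderOf_zpow_mul_dvd hE' x a
    exact hk.one_lt.ne' (Nat.eq_one_of_dvd_coprimes hcop h2 h3)
  · intro e c hc
    have h1 : τ (c * e) = τ e := by rw [map_mul, MonoidHom.mem_ker.1 hc, one_mul]
    have h2 := congrArg Subtype.val h1
    simp only [hτ, SubgroupClass.coe_zpow] at h2
    rw [h2]

open Classical in
theorem exists_section_expansion {G : Type*} [Group G] [Fintype G] [Fintype (IrrCharacter G)]
    {m n : ℕ} {a b : ℤ}
    (hmn : Nat.card G ∣ m * n) (hcop : Nat.Coprime m n) (hab : a * m + b * n = 1) (g : G) :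
    ∃ c : IrrCharacter G → ℂ, (∀ χ, IsIntegral ℤ (c χ)) ∧
      (fun x => if IsConj (x ^ (a * m)) g then (n : ℂ) else 0) =
        ∑ χ : IrrCharacter G, c χ • (χ : G → ℂ) := by
  have hF : IsClassFunction G (fun y => if IsConj y g then (n : ℂ) else 0) := by
    intro x h
    have : IsConj (h * x * h⁻¹) g ↔ IsConj x g :=
      ⟨fun h' => (isConj_iff.2 ⟨h, rfl⟩).trans h', fun h' => (isConj_iff.2 ⟨h, rfl⟩).symm.trans h'⟩
    simp only [this]
  refine ⟨_, fun χ => isIntegral_inner_section hmn hcop hab hF (fun e => ?_) (isGen_of_irr χ.2),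
    classFun_eq_sum ?_⟩
  · split_ifs
    · exact ⟨1, isIntegral_one, by simp⟩
    · exact ⟨0, isIntegral_zero, by simp⟩
  · intro g h
    simp only [conj_zpow]
    exact hF _ _

end Cfsg.Agent.H12
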