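import Cfsg.Agent.H40.SgDefs

/-! Piece NC for S4548. -/

set_option autoImplicit false

namespace Cfsg.Agent.H12.SgNc

open Subgroup Cfsg Cfsg.Agent.H40.Sg

universe u

theorem idx {Q : Type u} [Group Q] [Finite Q] (hQ : IsPGroup 2 Q) {A : Subgroup Q}
    (hA : IsCoatom A) : A.index = 2 := by
  haveI := hQ.isNilpotent
  haveI : A.Normal := Subgroup.NormalizerCondition.normal_of_coatom A
    normalizerCondition_of_isNilpotent hA
  haveI : Nontrivial (Q ⧸ A) := QuotientGroup.nontrivial_iff.2 hA.1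
  obtain ⟨n, hn, h⟩ := (hQ.to_quotient A).nontrivial_iff_card.1 inferInstance
  obtain ⟨x, hx⟩ := exists_prime_orderOf_dvd_card' (G := Q ⧸ A) 2 (h ▸ dvd_pow_self 2 hn.ne')
  have h1 : (zpowers x).comap (QuotientGroup.mk' A) = ⊤ := by
    refine hA.2 _ (lt_of_le_of_ne (fun a ha => ?_) fun e => ?_)
    · change (a : Q ⧸ A) ∈ zpowers x
      rw [(QuotientGroup.eq_one_iff a).2 ha]; exact one_mem _
    · obtain ⟨y, rfl⟩ := QuotientGroup.mk_surjective x
      have : y ∈ A := e ▸ (mem_zpowers (y : Q ⧸ A))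
      rw [(QuotientGroup.eq_one_iff y).2 this, orderOf_one] at hx
      exact absurd hx (by decide)
  have h2 : zpowers x = ⊤ := comap_injective (QuotientGroup.mk'_surjective A) (by rw [h1, comap_top])
  change Nat.card (Q ⧸ A) = 2
  rw [← hx, ← Nat.card_zpowers, h2, card_top]

open Classical in
/-- the sign of a subgroup of index two -/
noncomputable def sg {G : Type u} [Group G] {A : Subgroup G} (h : A.index = 2) : G →* ℂˣ :=
  MonoidHom.mk' (fun x => if x ∈ A then 1 else -1) fun a b => by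
    by_cases ha : a ∈ A <;> by_cases hb : b ∈ A <;> simp [mul_mem_iff_of_index_two h, ha, hb]

theorem nc : NcStmt.{u} := by
  classical
  intro G _ _ M hM P k h1 h2 ⟨Q, N, hN, hc⟩ nP h
  have nQ : ¬ IsCyclic Q := fun c => nP (isCyclic_of_surjective (Q.equiv P) (Q.equiv P).surjective)
  have co : ∀ x : Q, ∃ A : Subgroup Q, IsCoatom A ∧ x ∈ A := fun x => by
    obtain ⟨A, hA, le⟩ := (eq_top_or_exists_le_coatom (zpowers x)).resolve_left fun e =>
      nQ ⟨x, fun y => by change y ∈ zpowers x; rw [e]; exact mem_top y⟩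
    exact ⟨A, hA, le (mem_zpowers x)⟩
  obtain ⟨A, hA, -⟩ := co 1
  obtain ⟨x, -, xA⟩ := SetLike.exists_of_lt hA.1.lt_top
  obtain ⟨B, hB, xB⟩ := co x
  obtain ⟨y, -, yB⟩ := SetLike.exists_of_lt hB.1.lt_top
  let f : G →* Q := hc.symm.QuotientMulEquiv.toMonoidHom.comp (QuotientGroup.mk' N)
  have hf : Function.Surjective f :=
    hc.symm.QuotientMulEquiv.surjective.comp (QuotientGroup.mk'_surjective N)
  have iA := idx Q.2 hA
  have iB := idx Q.2 hB
  have ko : Odd k := by
    refine Nat.coprime_two_right.1 ((H19.coprime_of_parts (c := 3) Nat.prime_two (by decide) h1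
      fun g hg => h2 g (Nat.coprime_two_right.1 hg)).coprime_dvd_right ?_)
    exact (iA ▸ A.index_dvd_card).trans (card_subgroup_dvd_card _)
  let mk : ∀ lam : G →* ℂˣ, (∀ g, lam g = 1 ∨ lam g = -1) → Fx (G := G) M k := fun lam hl =>
    ⟨⟨_, H11.isIrrCharacter_monoidHom lam⟩,
      H19.mem_principalBlock_two_of_inv hM _ (by simp [charDegree]) (fun g _ => by
        rcases hl g with e | e <;> simp [e]),
      by simp [charDegree], fun g => by
        rcases hl g with e | e <;> simp [e, ko.neg_one_pow]⟩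
  have sgn : ∀ {C : Subgroup Q} (i : C.index = 2) (g : G),
      (sg i).comp f g = 1 ∨ (sg i).comp f g = -1 := fun {C} i g => by
    by_cases e : f g ∈ C <;> simp [sg, e]
  obtain ⟨x, rfl⟩ := hf x
  obtain ⟨y, rfl⟩ := hf y
  have m1 : (1 : ℂ) ≠ -1 := by norm_num
  obtain ⟨c, -, hu⟩ := (Nat.card_eq_two_iff' (mk 1 fun _ => Or.inl rfl)).1 h
  have e1 := hu (mk _ (sgn iA)) fun e => m1 (by
    simpa [mk, sg, xA] using (congrArg (fun χ : Fx (G := G) M k => (χ.1 : G → ℂ) x) e).symm)
  have e2 := hu (mk _ (sgn iB)) fun e => m1 (by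
    simpa [mk, sg, yB] using (congrArg (fun χ : Fx (G := G) M k => (χ.1 : G → ℂ) y) e).symm)
  exact m1 (by simpa [mk, sg, xA, xB] using
    (congrArg (fun χ : Fx (G := G) M k => (χ.1 : G → ℂ) x) (e2.trans e1.symm)))

end Cfsg.Agent.H12.SgNc
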