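import Cfsg.Agent.H58.SWDefs

/-! SW-BLKNL: blocks of rank at least two in the linear case. -/

set_option autoImplicit false
set_option linter.unusedVariables false
set_option linter.unusedSectionVars false
open Matrix Cfsg
open scoped commutatorElement

namespace Cfsg.Agent.H12.SwBlkNL
open Cfsg.Agent.H58.SW

section
variable {F : Type} [Field F] [Fintype F] [DecidableEq F] {n : ℕ}

/-- the centraliser in `GL` of a set of matrices -/
def cen (E : Finset (Mt n F)) : Subgroup (Gl n F) where
  carrier := {x | ∀ f ∈ E, Commute (x : Mt n F) f}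
  mul_mem' := by
    intro a b ha hb f hf
    rw [Units.val_mul]
    exact (ha f hf).mul_left (hb f hf)
  one_mem' := by
    intro f hf
    rw [Units.val_one]
    exact Commute.one_left f
  inv_mem' := by
    intro a ha f hf
    exact (ha f hf).units_inv_left

theorem mem_cen {E : Finset (Mt n F)} {x : Gl n F} :
    x ∈ cen E ↔ ∀ f ∈ E, Commute (x : Mt n F) f := Iff.rfl

/-- splitting of a diagonal idempotent conjugated by `a` -/
theorem split (a : Gl n F) (β : Fin n → Mt n F) (e : Mt n F) :
    ∃ (U : Matrix (Fin n) {i // β i = e} F) (V : Matrix {i // β i = e} (Fin n) F),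
      V * U = 1 ∧ U * V = cj a (dg β e) := by
  obtain ⟨P, hP⟩ : ∃ P : Matrix (Fin n) {i // β i = e} F, ∀ i j, P i j = if i = j.1 then 1 else 0 :=
    ⟨Matrix.of fun i j => if i = j.1 then 1 else 0, fun _ _ => rfl⟩
  have h1 : Pᵀ * P = 1 := by
    ext i j
    simp only [Matrix.mul_apply, Matrix.transpose_apply, hP]
    rw [Finset.sum_eq_single i.1]
    · by_cases h : i = j
      · subst h; simp
      · have h' : ¬ i.1 = j.1 := fun hh => h (Subtype.ext hh)
        simp [h', Matrix.one_apply_ne h]
    · intro b _ hb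
      simp [hb]
    · simp
  have h2 : P * Pᵀ = dg β e := by
    ext i j
    simp only [Matrix.mul_apply, Matrix.transpose_apply, hP, dg]
    by_cases hi : β i = e
    · rw [Finset.sum_eq_single (⟨i, hi⟩ : {i // β i = e})]
      · by_cases h : i = j
        · subst h; simp [hi]
        · have h' : ¬ j = i := fun hh => h hh.symm
          simp [h', Matrix.diagonal_apply_ne _ h]
      · intro b _ hb
        have : ¬ i = b.1 := fun hh => hb (Subtype.ext hh.symm)
        simp [this]
      · simp
    · rw [Finset.sum_eq_zero]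
      · by_cases h : i = j
        · subst h; simp [hi]
        · simp [Matrix.diagonal_apply_ne _ h]
      · intro b _
        have : ¬ i = b.1 := fun hh => hi (hh ▸ b.2)
        simp [this]
  refine ⟨(a : Mt n F) * P, Pᵀ * ((a⁻¹ : Gl n F) : Mt n F), ?_, ?_⟩
  · rw [Matrix.mul_assoc, ← Matrix.mul_assoc _ (a : Mt n F) P]
    have : ((a⁻¹ : Gl n F) : Mt n F) * (a : Mt n F) = 1 := Units.inv_mul a
    rw [this, Matrix.one_mul, h1]
  · rw [cj, ← h2]
    simp only [Matrix.mul_assoc]

variable {ι : Type} [Fintype ι] [DecidableEq ι]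

/-- restriction to the block -/
def resM {E : Finset (Mt n F)} {e : Mt n F} (he : e ∈ E) (U : Matrix (Fin n) ι F)
    (V : Matrix ι (Fin n) F) (h1 : V * U = 1) (h2 : U * V = e) : cen E →* Matrix ι ι F where
  toFun x := V * ((x : Gl n F) : Mt n F) * U
  map_one' := by simp [h1]
  map_mul' x y := by
    have hx : ((x : Gl n F) : Mt n F) * e = e * ((x : Gl n F) : Mt n F) := (x.2 e he).eq
    have hV : V * e = V := by rw [← h2, ← Matrix.mul_assoc, h1, Matrix.one_mul]
    have : V * ((x : Gl n F) : Mt n F) * U * (V * ((y : Gl n F) : Mt n F) * U)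
        = V * (((x : Gl n F) : Mt n F) * (U * V)) * ((y : Gl n F) : Mt n F) * U := by
      simp only [Matrix.mul_assoc]
    rw [this, h2, hx, ← Matrix.mul_assoc V e, hV]
    simp only [Subgroup.coe_mul, Units.val_mul, Matrix.mul_assoc]

theorem comm_of {E : Finset (Mt n F)} (hE : Fam E) {e : Mt n F} (he : e ∈ E) (ν : Mt n F)
    (h1 : e * ν = ν) (h2 : ν * e = ν) : ∀ f ∈ E, Commute (1 + ν) f := by
  intro f hf
  refine (Commute.one_left f).add_left ?_
  by_cases h : f = e
  · subst h; exact h2.trans h1.symm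
  · have a1 : ν * f = 0 := by
      rw [← h2, Matrix.mul_assoc, hE.orth e he f hf (Ne.symm h), Matrix.mul_zero]
    have a2 : f * ν = 0 := by
      rw [← h1, ← Matrix.mul_assoc, hE.orth f hf e he h, Matrix.zero_mul]
    exact a1.trans a2.symm

theorem not_scal {E : Finset (Mt n F)} (hE : Fam E) (h2 : 2 ≤ E.card) {e : Mt n F} (he : e ∈ E) :
    ¬ Scal e := by
  rintro ⟨a, ha⟩
  obtain ⟨f, hf, hne⟩ := Finset.exists_mem_ne (by omega : 1 < E.card) e
  have h0 := hE.orth e he f hf (Ne.symm hne)
  rw [ha, Matrix.smul_mul, Matrix.one_mul] at h0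
  rcases smul_eq_zero.1 h0 with h | h
  · exact hE.ne0 e he (by rw [ha, h, zero_smul])
  · exact hE.ne0 f hf h

end

theorem blkNL (hKA : KAStmt) (hKT : KTStmt) (hKV : KVStmt) (hKW : KWStmt) (hFr : FrameStmt)
    (hCent : CentStmt) (hNgl : NglStmt) : BlkNLStmt := by
  intro F _ _ _ n c r H Q L hr hu E B e he h2
  have ka := hKA F n c
  have kt := hKT F n c
  have kv := hKV F n c
  have kw := hKW F n c
  have hut : ¬ c.u = true := by simp [hu]
  by_contra hcon
  obtain ⟨a, -, β, -, hβ⟩ := hFr F n c E B.fam B.sf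
  obtain ⟨hea, hcard⟩ := hβ e he
  obtain ⟨ι, _, _, U, V, h1, hUV, hc⟩ : ∃ (ι : Type) (_ : Fintype ι) (_ : DecidableEq ι)
      (U : Matrix (Fin n) ι F) (V : Matrix ι (Fin n) F),
      V * U = 1 ∧ U * V = e ∧ Fintype.card ι = e.rank := by
    obtain ⟨U, V, h1, hUV⟩ := split a β e
    exact ⟨{i // β i = e}, inferInstance, inferInstance, U, V, h1, hUV.trans hea.symm,
      by rw [Fintype.card_subtype, hcard]⟩
  obtain ⟨-, Y, hYh, hYi, hY⟩ := hCent F n c r H Q L (E : Set (Mt n F)) B.inv
    ⟨e, he, not_scal B.fam B.two he⟩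
  have hYc : Y ≤ cen E := fun s hs f hf => ((hY s).1 hs).2 f hf
  have hZc : c.Z ≤ cen E := by
    intro z hz f hf
    obtain ⟨b, -, hb⟩ := (ka.mem_Z z).1 hz
    rw [hb]
    exact (Commute.one_left f).smul_left b
  let ρ : cen E →* GL ι F := (resM he U V h1 hUV).toHomUnits
  have hρ : ∀ x : cen E, ((ρ x : GL ι F) : Matrix _ _ F)
      = V * ((x : Gl n F) : Mt n F) * U := fun x => rfl
  have heU : e * U = U := by rw [← hUV, Matrix.mul_assoc, h1, Matrix.mul_one]
  have hVe : V * e = V := by rw [← hUV, ← Matrix.mul_assoc, h1, Matrix.one_mul]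
  have hq : Fintype.card F = c.q := by rw [c.hq, if_neg hut]
  have hS : ∀ g : Gl n F, (g : Mt n F).det = 1 → g ∈ c.S := fun g hg =>
    (ka.mem_S g).2 ⟨(ka.mem_St g).2 (fun h => absurd h hut), hg⟩
  have key := hNgl F ι c.p r c.chr L.prime hr (by omega)
    (fun h => by
      by_contra h4
      exact hcon ⟨by omega, by omega⟩)
    ((Q.subgroupOf (cen E)).map ρ)
    (by
      rintro _ ⟨x, hx, rfl⟩
      obtain ⟨k, hk⟩ := L.rgrp x hx
      obtain ⟨b, -, hb⟩ := (ka.mem_Z _).1 hk
      refine ⟨k, b, ?_⟩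
      rw [← map_pow, hρ, Subgroup.coe_pow, hb, Matrix.mul_smul, Matrix.smul_mul, Matrix.mul_one, h1])
    (by
      rintro t i j b hij ht _ ⟨x, hx, rfl⟩
      have hN : Matrix.single i j b * Matrix.single i j b = (0 : Matrix _ _ F) :=
        Matrix.single_mul_single_of_ne _ _ _ _ (Ne.symm hij) _
      have hnil : IsNilpotent (U * Matrix.single i j b * V) := by
        refine ⟨2, ?_⟩
        rw [pow_two]
        have : U * Matrix.single i j b * V * (U * Matrix.single i j b * V)
            = U * (Matrix.single i j b * (V * U) * Matrix.single i j b) * V := by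
          simp only [Matrix.mul_assoc]
        rw [this, h1, Matrix.mul_one, hN, Matrix.mul_zero, Matrix.zero_mul]
      obtain ⟨g, hg, hd, -⟩ := kv.nil _ hnil
      have hgc : g ∈ cen E := by
        intro f hf
        rw [hg]
        refine comm_of B.fam he _ ?_ ?_ f hf
        · rw [← Matrix.mul_assoc, ← Matrix.mul_assoc, heU]
        · rw [Matrix.mul_assoc, hVe]
      have hgY : g ∈ Y := (hY g).2 ⟨hS g hd, fun f hf => hgc f hf⟩
      have hgt : ρ ⟨g, hgc⟩ = t := by
        apply Units.ext
        rw [hρ, ht, Matrix.transvection]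
        show V * (g : Mt n F) * U = _
        rw [hg, Matrix.mul_add, Matrix.add_mul, Matrix.mul_one, h1]
        congr 1
        have : V * (U * Matrix.single i j b * V) * U = (V * U) * Matrix.single i j b * (V * U) := by
          simp only [Matrix.mul_assoc]
        rw [this, h1, Matrix.one_mul, Matrix.mul_one]
      refine ⟨⟨g, hgc⟩ * x * ⟨g, hgc⟩⁻¹, ?_, by rw [map_mul, map_mul, map_inv, hgt]⟩
      exact kt.hatG H Q L.inv g (hYh hgY) x hx)
  obtain ⟨t, htS, ht1, htU, -, hl, hr'⟩ := kw.btv e (fun h => absurd h hut) (B.fam.idem e he) h2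
  have htc : t ∈ cen E := by
    intro f hf
    have := comm_of B.fam he _ hl hr' f hf
    rwa [add_sub_cancel] at this
  have htY : t ∈ Y := (hY t).2 ⟨htS, fun f hf => htc f hf⟩
  have htQ : t ∈ Q := by
    refine L.chr Y hYh hYi t htY ?_
    rintro x ⟨hxQ, hxY⟩
    have hxc : x ∈ cen E := sup_le hYc hZc hxY
    obtain ⟨b, hb⟩ := key (ρ ⟨x, hxc⟩) ⟨⟨x, hxc⟩, hxQ, rfl⟩
    rw [hρ] at hb
    have hb' : V * (x : Mt n F) * U = b • 1 := hb
    have hxe : (x : Mt n F) * e = e * (x : Mt n F) := (hxc e he).eq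
    have hexe : e * (x : Mt n F) * e = b • e := by
      have : e * (x : Mt n F) * e = U * (V * (x : Mt n F) * U) * V := by
        rw [← hUV]; simp only [Matrix.mul_assoc]
      rw [this, hb', Matrix.mul_smul, Matrix.smul_mul, Matrix.mul_one, hUV]
    have hx1 : (x : Mt n F) * e = b • e := by
      rw [← hexe, ← hxe, Matrix.mul_assoc, B.fam.idem e he]
    have hx2 : e * (x : Mt n F) = b • e := by rw [← hxe, hx1]
    have hcm : Commute ((t : Mt n F) - 1) (x : Mt n F) := by
      have a1 : ((t : Mt n F) - 1) * (x : Mt n F) = b • ((t : Mt n F) - 1) := by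
        conv_lhs => rw [← hr', Matrix.mul_assoc, hx2, Matrix.mul_smul, hr']
      have a2 : (x : Mt n F) * ((t : Mt n F) - 1) = b • ((t : Mt n F) - 1) := by
        conv_lhs => rw [← hl, ← Matrix.mul_assoc, hx1, Matrix.smul_mul, hl]
      exact a1.trans a2.symm
    have hcm' : Commute (t : Mt n F) (x : Mt n F) := by
      have := hcm.add_left (Commute.one_left (x : Mt n F))
      rwa [sub_add_cancel] at this
    have hc2 : Commute t x := Units.ext hcm'.eq
    rw [commutatorElement_eq_one_iff_commute.2 hc2]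
    exact c.Z.one_mem
  exact ht1 (kv.nouni r H Q L hr t htQ htU)

end Cfsg.Agent.H12.SwBlkNL
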