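import Mathlib
import Cfsg.Agent.H24.Deg
import Cfsg.Agent.H59.PermMod
import Cfsg.Agent.H53.PSolv
import Cfsg.Agent.H3.Cores

/-!
# Characters of small degree of a group with a T.I. Sylow subgroup
-/

set_option autoImplicit false

namespace Cfsg.Agent.H12

open Cfsg Cfsg.Agent.H11
open scoped Pointwise ComplexConjugate commutatorElement

universe u

/-- A valuation ring of `ℂ` with residue characteristic `p`. -/
theorem exists_valuationSubring_prime {p : ℕ} (hp : p.Prime) :
    ∃ B : ValuationSubring ℂ, B.valuation p < 1 := by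
  obtain ⟨B, -, h⟩ := Ideal.image_subset_nonunits_valuationSubring (K := ℂ) (A := ⊥)
    (Ideal.span {(p : (⊥ : Subring ℂ))}) (by
      rw [Ne, Ideal.span_singleton_eq_top, isUnit_iff_exists_inv]
      rintro ⟨⟨b, hb⟩, h⟩
      obtain ⟨n, rfl⟩ := Subring.mem_bot.1 hb
      have h1 : (p : ℂ) * n = 1 := congrArg Subtype.val h
      have h2 : (p : ℤ) * n = 1 := by exact_mod_cast h1
      exact hp.one_lt.ne' (by exact_mod_cast Int.eq_one_of_mul_eq_one_right (by positivity) h2))
  exact ⟨B, B.mem_nonunits_iff.1 (h ⟨_, Ideal.subset_span rfl, rfl⟩)⟩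

/-- A nonzero left ideal of the complex group algebra of a `p`-group contains an element congruent
to the sum of all group elements. -/
theorem exists_mem_valuation_sub_one_lt {p : ℕ} [hp : Fact p.Prime] {P : Type*} [Group P]
    [Finite P] (hP : IsPGroup p P) (B : ValuationSubring ℂ) (hB : B.valuation p < 1)
    (I : Submodule ℂ (P → ℂ)) (hI : I ≠ ⊥) (hinv : ∀ g, ∀ c ∈ I, (fun x => c (g⁻¹ * x)) ∈ I) :
    ∃ c ∈ I, ∀ x, B.valuation (c x - 1) < 1 := by
  let k := IsLocalRing.ResidueField B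
  have : CharP k p := by
    refine (CharP.charP_iff_prime_eq_zero hp.out).2 ?_
    rw [← map_natCast (IsLocalRing.residue B), IsLocalRing.residue_eq_zero_iff,
      B.valuation_lt_one_iff]
    simpa using hB
  let ρ : Representation k P (P → k) :=
    { toFun := fun g => LinearMap.funLeft k k fun x => g⁻¹ * x
      map_one' := by ext; simp
      map_mul' := fun g h => by ext; simp [mul_assoc] }
  let W : Submodule k (P → k) :=
    { carrier := {d | ∃ c : P → B, (fun x => (c x : ℂ)) ∈ I ∧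
        ∀ x, IsLocalRing.residue B (c x) = d x}
      zero_mem' := ⟨0, I.zero_mem, fun _ => map_zero _⟩
      add_mem' := by
        rintro _ _ ⟨c, hc, hc'⟩ ⟨d, hd, hd'⟩
        exact ⟨c + d, I.add_mem hc hd, fun x => by simp [hc', hd']⟩
      smul_mem' := by
        rintro a _ ⟨c, hc, hc'⟩
        obtain ⟨a, rfl⟩ := IsLocalRing.residue_surjective a
        exact ⟨a • c, I.smul_mem (a : ℂ) hc, fun x => by simp [hc']⟩ }
  have hW : W ≠ ⊥ := by
    obtain ⟨c, hc, hc0⟩ := (Submodule.ne_bot_iff I).1 hI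
    obtain ⟨x₀, hx₀⟩ := Finite.exists_max fun x => B.valuation (c x)
    have h0 : c x₀ ≠ 0 := fun h0 => hc0 (funext fun x => by
      have := hx₀ x
      rw [h0, map_zero, le_zero_iff, map_eq_zero] at this
      exact this)
    have hmem : ∀ x, (c x₀)⁻¹ * c x ∈ B := fun x => by
      rw [← B.valuation_le_one_iff, map_mul, map_inv₀]
      exact inv_mul_le_one_of_le₀ (hx₀ x) zero_le
    refine (Submodule.ne_bot_iff W).2 ⟨fun x => IsLocalRing.residue B ⟨_, hmem x⟩,
      ⟨fun x => ⟨_, hmem x⟩, I.smul_mem (c x₀)⁻¹ hc, fun _ => rfl⟩, fun h => ?_⟩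
    have h1 := congrFun h x₀
    rw [show (⟨_, hmem x₀⟩ : B) = 1 from Subtype.ext (inv_mul_cancel₀ h0), map_one] at h1
    exact one_ne_zero h1
  obtain ⟨w, hw, hw0, hwfix⟩ := H59.exists_ne_zero_fixed_of_isPGroup hP ρ W (by
    rintro g _ ⟨c, hc, hc'⟩
    exact ⟨fun x => c (g⁻¹ * x), hinv g _ hc, fun x => hc' _⟩) hW
  have hconst : ∀ x, w x = w 1 := fun x => by
    have : w (x⁻¹ * x) = w x := congrFun (hwfix x) x
    rw [← this, inv_mul_cancel]
  have h1 : w 1 ≠ 0 := fun h => hw0 (funext fun x => (hconst x).trans h)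
  obtain ⟨c, hc, hc'⟩ := W.smul_mem (w 1)⁻¹ hw
  refine ⟨_, hc, fun x => ?_⟩
  have h2 : IsLocalRing.residue B (c x - 1) = 0 := by
    rw [map_sub, hc', map_one, Pi.smul_apply, hconst x, smul_eq_mul, inv_mul_cancel₀ h1, sub_self]
  rw [IsLocalRing.residue_eq_zero_iff, B.valuation_lt_one_iff] at h2
  simpa using h2

/-- Orbit representatives for a free action on an invariant finite set. -/
theorem exists_sum_eq_sum_smul {P X : Type*} [Group P] [Fintype P] [MulAction P X] (s : Finset X)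
    (hs : ∀ x : P, ∀ Q ∈ s, x • Q ∈ s) (hfree : ∀ Q ∈ s, ∀ x : P, x • Q = Q → x = 1) :
    ∃ T : Finset X, ∀ {M : Type*} [AddCommMonoid M] (φ : X → M),
      ∑ Q ∈ s, φ Q = ∑ x : P, ∑ Q ∈ T, φ (x • Q) := by
  classical
  refine ⟨s.filter fun Q => (Quotient.mk (MulAction.orbitRel P X) Q).out = Q, fun φ => ?_⟩
  rw [← Finset.sum_product']
  symm
  refine Finset.sum_bij (fun y _ => y.1 • y.2) (fun y hy => ?_) (fun y hy z hz h => ?_)
    (fun Q hQ => ?_) fun _ _ => rfl
  · exact hs _ _ (Finset.mem_filter.1 (Finset.mem_product.1 hy).2).1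
  · obtain ⟨hy1, hy2⟩ := Finset.mem_filter.1 (Finset.mem_product.1 hy).2
    obtain ⟨hz1, hz2⟩ := Finset.mem_filter.1 (Finset.mem_product.1 hz).2
    have h1 : (z.1⁻¹ * y.1) • y.2 = z.2 := by rw [mul_smul, h, inv_smul_smul]
    have h2 : y.2 = z.2 := by
      rw [← hy2, ← hz2]
      congr 1
      exact (Quotient.sound (MulAction.orbitRel_apply.2 ⟨_, h1⟩)).symm
    have h3 := hfree _ hy1 _ (h1.trans h2.symm)
    exact Prod.ext (inv_mul_eq_one.1 h3).symm h2
  · obtain ⟨x, hx⟩ := MulAction.orbitRel_apply.1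
      (Quotient.mk_out (s := MulAction.orbitRel P X) Q)
    refine ⟨(x⁻¹, (Quotient.mk (MulAction.orbitRel P X) Q).out), Finset.mem_product.2
      ⟨Finset.mem_univ _, Finset.mem_filter.2 ⟨?_, by rw [Quotient.out_eq]⟩⟩, ?_⟩
    · rw [← hx]
      exact hs _ _ hQ
    · rw [← hx]
      exact inv_smul_smul x Q

variable {G : Type u} [Group G] [Finite G] {p : ℕ} [hp : Fact p.Prime] (P : Sylow p G)
  (hTI : ∀ g : G, g ∉ Subgroup.normalizer ((P : Subgroup G) : Set G) →
    (P : Subgroup G) ⊓ (MulAut.conj g • (P : Subgroup G)) = ⊥)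
include hTI

theorem eq_one_of_smul_sylow_eq {Q : Sylow p G} (hQ : Q ≠ P) {x : G} (hx : x ∈ (P : Subgroup G))
    (h : x • Q = Q) : x = 1 := by
  obtain ⟨g, rfl⟩ := MulAction.exists_smul_eq G P Q
  have hg : g ∉ Subgroup.normalizer ((P : Subgroup G) : Set G) := fun hg =>
    hQ (Sylow.smul_eq_iff_mem_normalizer.2 hg)
  have h1 : x ∈ (P : Subgroup G) ⊓ Subgroup.normalizer ((g • P : Sylow p G) : Set G) :=
    ⟨hx, Sylow.smul_eq_iff_mem_normalizer.1 h⟩
  rw [P.2.inf_normalizer_sylow, Sylow.coe_subgroup_smul, hTI g hg] at h1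
  exact h1

/-- A representation without nonzero invariants in which the normalizer of a T.I. Sylow subgroup
`P` fixes a nonzero vector has degree at least `|P|`. -/
theorem card_le_finrank_of_ti {V : Type*} [AddCommGroup V] [Module ℂ V] [FiniteDimensional ℂ V]
    (ρ : Representation ℂ G V) (h0 : ∀ u, (∀ g, ρ g u = u) → u = 0) {v : V} (hv : v ≠ 0)
    (hN : ∀ g ∈ Subgroup.normalizer ((P : Subgroup G) : Set G), ρ g v = v) :
    Nat.card P ≤ Module.finrank ℂ V := by
  classical
  have := Fintype.ofFinite G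
  have := Fintype.ofFinite (Sylow p G)
  choose t ht using fun Q : Sylow p G => MulAction.exists_smul_eq G P Q
  let φ : Sylow p G → V := fun Q => ρ (t Q) v
  have hφ : ∀ g : G, φ (g • P) = ρ g v := fun g => by
    have : (g⁻¹ * t (g • P)) • P = P := by rw [mul_smul, ht, inv_smul_smul]
    conv_rhs => rw [← hN _ (Sylow.smul_eq_iff_mem_normalizer.1 this)]
    rw [← Module.End.mul_apply, ← map_mul, mul_inv_cancel_left]
  have hφ' : ∀ (g : G) (Q : Sylow p G), φ (g • Q) = ρ g (φ Q) := fun g Q => by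
    conv_lhs => rw [← ht Q, ← mul_smul, hφ, map_mul]
    rfl
  have hφP : φ P = v := by simpa using hφ 1
  have hsum : ∑ Q, φ Q = 0 := h0 _ fun g => by
    rw [map_sum]
    exact Fintype.sum_equiv (MulAction.toPerm g) _ _ fun Q => (hφ' g Q).symm
  obtain ⟨T, hT⟩ := exists_sum_eq_sum_smul (P := (P : Subgroup G)) (Finset.univ.erase P)
    (fun x Q hQ => Finset.mem_erase.2 ⟨fun h => (Finset.mem_erase.1 hQ).1 (by
      have h1 : (x : G) • Q = P := h
      have h2 : (x : G)⁻¹ • P = P :=
        Sylow.smul_eq_iff_mem_normalizer.2 (Subgroup.le_normalizer (inv_mem x.2))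
      exact (eq_inv_smul_iff.2 h1).trans h2), Finset.mem_univ _⟩)
    (fun Q hQ x h => Subtype.ext (eq_one_of_smul_sylow_eq P hTI (Finset.mem_erase.1 hQ).1 x.2 h))
  have hv' : v + ∑ x : (P : Subgroup G), ∑ Q ∈ T, φ ((x : G) • Q) = 0 := by
    rw [← hsum, ← Finset.add_sum_erase _ _ (Finset.mem_univ P), hφP, hT φ]
    rfl
  by_contra hlt
  let L : (↥(P : Subgroup G) → ℂ) →ₗ[ℂ] V :=
    Fintype.linearCombination ℂ fun x : (P : Subgroup G) => ∑ Q ∈ T, φ ((x : G) • Q)
  have hL : LinearMap.ker L ≠ ⊥ := LinearMap.ker_ne_bot_of_finrank_lt (by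
    rw [Module.finrank_fintype_fun_eq_card, ← Nat.card_eq_fintype_card]
    exact not_le.1 hlt)
  obtain ⟨B, hB⟩ := exists_valuationSubring_prime hp.out
  obtain ⟨c, hc, hc1⟩ := exists_mem_valuation_sub_one_lt P.2 B hB _ hL (fun g c hc => by
    rw [LinearMap.mem_ker, Fintype.linearCombination_apply] at hc ⊢
    rw [← map_zero (ρ g), ← hc, map_sum]
    refine (Fintype.sum_equiv (Equiv.mulLeft g) _ _ fun x => ?_).symm
    simp only [map_smul, map_sum, ← hφ', Equiv.coe_mulLeft, inv_mul_cancel_left,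
      Subgroup.coe_mul, mul_smul])
  rw [LinearMap.mem_ker, Fintype.linearCombination_apply] at hc
  have hv'' : v = ∑ x : (P : Subgroup G), ∑ Q ∈ T, (c x - 1) • φ ((x : G) • Q) := by
    simp only [← Finset.smul_sum, sub_smul, one_smul, Finset.sum_sub_distrib, hc]
    rw [zero_sub, eq_neg_iff_add_eq_zero, hv']
  obtain ⟨f, hf⟩ := Module.Projective.exists_dual_ne_zero ℂ hv
  obtain ⟨Q₀, hQ₀⟩ := Finite.exists_max fun Q => B.valuation (f (φ Q))
  have hne : B.valuation (f (φ Q₀)) ≠ 0 := fun h => by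
    have := hQ₀ P
    rw [h, le_zero_iff, map_eq_zero, hφP] at this
    exact hf this
  have e : f (φ Q₀) = ∑ x : (P : Subgroup G), ∑ Q ∈ T, (c x - 1) * f (φ (t Q₀ • (x : G) • Q)) := by
    change f (ρ (t Q₀) v) = _
    conv_lhs => rw [hv'']
    simp only [map_sum, map_smul, ← hφ', smul_eq_mul]
  refine lt_irrefl (B.valuation (f (φ Q₀))) ?_
  conv_lhs => rw [e]
  refine Valuation.map_sum_lt _ hne fun x _ => Valuation.map_sum_lt _ hne fun Q _ => ?_
  rw [map_mul]
  calc _ ≤ B.valuation (c x - 1) * B.valuation (f (φ Q₀)) := mul_le_mul_right (hQ₀ _) _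
    _ < 1 * B.valuation (f (φ Q₀)) := mul_lt_mul_of_pos_right (hc1 x) (zero_lt_iff.2 hne)
    _ = _ := one_mul _

/-- A nonprincipal irreducible constituent of `1_H^G`, where `H` contains the normalizer of a
T.I. Sylow subgroup `P`, has degree at least `|P|`. -/
theorem card_le_degree_of_ti {ψ : G → ℂ} (hψ : IsIrrCharacter G ψ) (h1 : ψ ≠ fun _ => 1)
    (H : Subgroup G) [Fintype H] (hH : Subgroup.normalizer ((P : Subgroup G) : Set G) ≤ H)
    (h : classInner (fun h : H => ψ h) (fun _ => 1) ≠ 0) : Nat.card P ≤ charDegree ψ := by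
  have := Fintype.ofFinite G
  have h2 := classInner_irr_of_ne hψ isIrrCharacter_one h1
  obtain ⟨n, ρ, -, rfl⟩ := hψ
  rw [classInner_character_one_eq_finrank, Nat.cast_eq_zero, Submodule.finrank_eq_zero] at h2
  have h3 := classInner_character_one_eq_finrank (G := H) (ρ.comp H.subtype)
  have h4 : Representation.invariants (ρ.comp H.subtype) ≠ ⊥ := fun h4 => by
    rw [h4, finrank_bot, Nat.cast_zero] at h3
    exact h h3
  obtain ⟨v, hv, hv0⟩ := (Submodule.ne_bot_iff _).1 h4
  rw [H24.deg_eq ρ.char_one]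
  exact card_le_finrank_of_ti P hTI ρ (fun u hu => (Submodule.eq_bot_iff _).1 h2 u hu) hv0
    fun g hg => hv ⟨g, hH hg⟩

/-- A character of degree at most `√|P|` has the same norm on every overgroup of the normalizer of
a T.I. Sylow subgroup `P`. -/
theorem classInner_res_eq_of_ti [Fintype G] {χ : G → ℂ} (hχ : IsCharacter G χ)
    (hdeg : charDegree χ ^ 2 ≤ Nat.card P) (H : Subgroup G) [Fintype H]
    (hH : Subgroup.normalizer ((P : Subgroup G) : Set G) ≤ H) :
    classInner χ χ = classInner (fun h : H => χ h) (fun h : H => χ h) := by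
  classical
  by_cases h0 : χ = 0
  · subst h0
    simp [classInner_def]
  have hθ : IsCharacter G (χ * fun g => conj (χ g)) := isCharacter_mul hχ (isCharacter_conj hχ)
  set θ := χ * fun g => conj (χ g) with hθdef
  have e1 : classInner χ χ = classInner θ fun _ => 1 := classInner_eq_mul_conj_one χ χ
  have e2 : classInner (fun h : H => χ h) (fun h : H => χ h) =
      classInner (fun h : H => θ h) fun _ => 1 := classInner_eq_mul_conj_one _ _
  have h1 : classInner θ (fun _ => 1) ≠ 0 := e1 ▸ fun h => h0 (classInner_self_eq_zero.1 h)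
  have hθ1 := isCharacter_sub_irr hθ isIrrCharacter_one h1
  have hd : charDegree (θ - fun _ => 1) + 1 = charDegree χ ^ 2 := by
    have : ((charDegree (θ - fun _ => 1) + 1 : ℕ) : ℂ) = (charDegree χ ^ 2 : ℕ) := by
      push_cast
      rw [H24.deg_cast hθ1, H24.deg_cast hχ, hθdef]
      simp [conj_apply_one hχ, sq]
    exact_mod_cast this
  have := Fintype.ofFinite (IrrCharacter G)
  have e3 := classFun_eq_sum (isClassFunction_of_isCharacter hθ)
  have e4 : (fun h : H => θ h) = ∑ ψ : IrrCharacter G, classInner θ ψ • fun h : H => ψ.1 h := by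
    funext h
    conv_lhs => rw [e3]
    simp [Finset.sum_apply]
  rw [e1, e2, e4]
  conv_lhs => rw [e3]
  simp only [classInner_sum_left, classInner_smul_left]
  refine Finset.sum_congr rfl fun ψ _ => ?_
  by_cases hψ : ψ.1 = fun _ => 1
  · rw [hψ, classInner_one_one]
    exact congrArg _ classInner_one_one.symm
  by_cases hm : classInner θ ψ = 0
  · simp [hm]
  have h2 := classInner_irr_of_ne ψ.2 isIrrCharacter_one hψ
  rw [h2]
  congr 1
  by_contra h3
  have h4 := card_le_degree_of_ti P hTI ψ.2 hψ H hH (Ne.symm h3)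
  have h5 := H24.deg_le_of_inner_ne_zero hθ1 ψ.2 (by
    rw [classInner_sub_left, (classInner_eq_zero_comm _ _).1 h2, sub_zero]
    exact hm)
  omega

/-- An element in the centre of the normalizer of a T.I. Sylow subgroup `P` is central, if there is
a faithful character of degree at most `√|P|`. -/
theorem mem_center_of_ti {χ : G → ℂ} (hχ : IsCharacter G χ) (hker : charKer χ = ⊥)
    (hdeg : charDegree χ ^ 2 ≤ Nat.card P) {z : G}
    (hz : z ∈ Subgroup.normalizer ((P : Subgroup G) : Set G))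
    (hzc : ∀ n ∈ Subgroup.normalizer ((P : Subgroup G) : Set G), n * z = z * n) :
    z ∈ Subgroup.center G := by
  have := Fintype.ofFinite G
  have := Fintype.ofFinite (Subgroup.normalizer ((P : Subgroup G) : Set G))
  refine Subgroup.mem_center_iff.2 fun g => ?_
  have : ⁅z, g⁆ ∈ charKer χ := by
    rw [mem_charKer_iff_forall_constituent hχ]
    intro ψ hψ h
    have h1 := classInner_res_eq_of_ti P hTI (isCharacter_of_irr hψ)
      ((Nat.pow_le_pow_left (H24.deg_le_of_inner_ne_zero hχ hψ h) 2).trans hdeg) _ le_rfl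
    rw [classInner_irr_self hψ] at h1
    have h2 := isIrrCharacter_of_classInner_self
      (isCharacter_restrict (isCharacter_of_irr hψ) _) h1.symm
    have h3 := center_le_charCenter h2 (x := ⟨z, hz⟩)
      (Subgroup.mem_center_iff.2 fun n => Subtype.ext (hzc n n.2))
    rw [mem_charCenter_iff (isCharacter_of_irr h2)] at h3
    exact (mem_charCenter_irr_iff hψ).1 ((mem_charCenter_iff (isCharacter_of_irr hψ)).2 h3) g
  rw [hker, Subgroup.mem_bot, commutatorElement_eq_one_iff_mul_comm] at this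
  exact this.symm

omit [Finite G] hp in
theorem ti_subtype {H : Subgroup G} (hPH : (P : Subgroup G) ≤ H) (g : H)
    (hg : g ∉ Subgroup.normalizer ((P.subtype hPH : Subgroup H) : Set H)) :
    (P.subtype hPH : Subgroup H) ⊓ (MulAut.conj g • (P.subtype hPH : Subgroup H)) = ⊥ := by
  have h1 : (g : G) ∉ Subgroup.normalizer ((P : Subgroup G) : Set G) := fun h => hg (by
    rw [Sylow.coe_subtype, ← Subgroup.subgroupOf_normalizer_eq hPH]
    exact h)
  rw [eq_bot_iff]
  rintro x ⟨hx, y, hy, rfl⟩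
  have : ((MulAut.conj g • y : H) : G) ∈ (P : Subgroup G) ⊓ (MulAut.conj (g : G) • (P : Subgroup G)) :=
    ⟨hx, y, hy, rfl⟩
  rw [hTI g h1] at this
  exact Subtype.ext this

/-- A `p`-solvable linear group of degree at most `√|P|` with a T.I. Sylow subgroup `P` is
`p`-closed. -/
theorem sylow_normal_of_ti (hsolv : IsPSolvable p G) {χ : G → ℂ} (hχ : IsCharacter G χ)
    (hker : charKer χ = ⊥) (hdeg : charDegree χ ^ 2 ≤ Nat.card P) : (P : Subgroup G).Normal := by
  by_contra hP
  have hcore : pCore p G = ⊥ := by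
    obtain ⟨g, hg⟩ : ∃ g, g ∉ Subgroup.normalizer ((P : Subgroup G) : Set G) := by
      by_contra! h
      exact hP (Subgroup.normalizer_eq_top_iff.1 (eq_top_iff.2 fun g _ => h g))
    rw [eq_bot_iff, ← hTI g hg]
    exact le_inf (H3.pCore_le_sylow P) (H3.pCore_le_sylow (g • P))
  have hC := H53.centralizer_pPrimeCore_le hsolv hcore
  set K := pPrimeCore p G
  have hKP : K ⊓ P = ⊥ := by
    obtain ⟨a, ha⟩ := P.2.exists_card_eq
    refine Subgroup.inf_eq_bot_of_coprime ?_
    rw [ha]
    exact (H3.pPrimeCore_coprime p G).pow_right _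
  have : Nontrivial P := (Subgroup.nontrivial_iff_ne_bot _).2 fun h => hP (h ▸ inferInstance)
  have := P.2.center_nontrivial
  obtain ⟨⟨⟨z, hzP⟩, hz⟩, hz1⟩ := exists_ne (1 : Subgroup.center P)
  have hzc : ∀ x ∈ (P : Subgroup G), x * z = z * x := fun x hx =>
    congrArg Subtype.val (Subgroup.mem_center_iff.1 hz ⟨x, hx⟩)
  have hPH : (P : Subgroup G) ≤ K ⊔ P := le_sup_right
  have h1 : charKer (fun x : ↥(K ⊔ P) => χ x) = ⊥ := by
    have := charKer_comp hχ (K ⊔ P).subtype
    rw [hker, MonoidHom.comap_bot, Subgroup.ker_subtype] at this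
    exact this
  have h2 := mem_center_of_ti (P.subtype hPH) (ti_subtype P hTI hPH) (isCharacter_restrict hχ _) h1
    (hdeg.trans_eq (Nat.card_congr (Subgroup.subgroupOfEquivOfLe hPH).toEquiv).symm)
    (z := ⟨z, hPH hzP⟩) (Subgroup.le_normalizer hzP) (fun n hn => by
      rw [Sylow.coe_subtype, ← Subgroup.subgroupOf_normalizer_eq hPH,
        Subgroup.mem_subgroupOf] at hn
      obtain ⟨k, hk, x, hx, hkx⟩ := Subgroup.mem_sup_of_normal_left.1 n.2
      have hk' : k ∈ Subgroup.normalizer ((P : Subgroup G) : Set G) := by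
        rw [show k = n * x⁻¹ by rw [← hkx, mul_inv_cancel_right]]
        exact mul_mem hn (inv_mem (Subgroup.le_normalizer hx))
      have h3 : k * z * k⁻¹ * z⁻¹ ∈ K ⊓ P := by
        refine Subgroup.mem_inf.2
          ⟨?_, mul_mem ((Subgroup.mem_normalizer_iff.1 hk' z).1 hzP) (inv_mem hzP)⟩
        rw [show k * z * k⁻¹ * z⁻¹ = k * (z * k⁻¹ * z⁻¹) by group]
        exact mul_mem hk (Subgroup.Normal.conj_mem inferInstance _ (inv_mem hk) z)
      rw [hKP, Subgroup.mem_bot, mul_inv_eq_one, mul_inv_eq_iff_eq_mul] at h3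
      refine Subtype.ext ?_
      change (n : G) * z = z * n
      rw [← hkx, mul_assoc, hzc x hx, ← mul_assoc, h3, mul_assoc])
  have h3 : z ∈ K ⊓ P := ⟨hC fun k hk => congrArg Subtype.val
    (Subgroup.mem_center_iff.1 h2 ⟨k, Subgroup.mem_sup_left hk⟩), hzP⟩
  rw [hKP] at h3
  exact hz1 (Subtype.ext (Subtype.ext h3))

end Cfsg.Agent.H12
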