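import Cfsg.Agent.H42.VpDefs
import Cfsg.Agent.H23.Zeros

/-! Project VP, piece I1. -/

set_option autoImplicit false

namespace Cfsg.Agent.H12.VpI1

open Subgroup Cfsg Cfsg.Agent.H42.Vp

universe u

theorem i1 : I1Stmt.{u} := by
  intro G _ _ K hK x h k hk
  have c : IsConj (⟨k, hk⟩ : K) ⟨x * k * x⁻¹, hK.conj_mem k hk x⟩ :=
    H23.isConj_of_forall_irr_zero_or_eq fun θ hθ =>
      Or.inr ((H14.mem_inertia' K).1 (h θ hθ) ⟨k, hk⟩)
  obtain ⟨a, ha⟩ := isConj_iff.1 c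
  exact ⟨a, a.2, (congrArg Subtype.val ha).symm⟩

end Cfsg.Agent.H12.VpI1
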