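import Cfsg.Agent.H42.VpDefs
import Cfsg.Agent.H23.Zeros

/-! Project VP, piece Z0. -/

set_option autoImplicit false

namespace Cfsg.Agent.H12.VpZ

open Subgroup Cfsg Cfsg.Agent.H42.Vp

universe u

theorem z0 : Z0Stmt.{u} := by
  intro G _ _ x g z hz z1 e
  have : ∃ χ, IsIrrCharacter G χ ∧ z ∉ H11.charKer χ := by
    by_contra h
    push Not at h
    exact z1 (H11.eq_one_of_forall_mem_charKer h)
  obtain ⟨χ, hχ, h1⟩ := this
  haveI : (zpowers z).Normal := ⟨fun n hn a => by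
    rwa [mem_center_iff.1 (zpowers_le.2 hz hn) a, mul_inv_cancel_right]⟩
  refine ⟨χ, hχ, H23.apply_eq_zero_of_isConj_coset (N := zpowers z) (fun n hn => ?_) hχ
    fun h => h1 (h (mem_zpowers z))⟩
  obtain ⟨k, rfl⟩ := mem_powers_iff_mem_zpowers.2 hn
  refine isConj_iff.2 ⟨g ^ k, ?_⟩
  change g ^ k * x * (g ^ k)⁻¹ = z ^ k * x
  clear hn
  induction k with
  | zero => simp
  | succ k ih =>
    have c := mem_center_iff.1 (pow_mem hz k) g
    calc g ^ (k + 1) * x * (g ^ (k + 1))⁻¹ = g * (g ^ k * x * (g ^ k)⁻¹) * g⁻¹ := by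
          rw [pow_succ']; group
      _ = (g * z ^ k) * x * g⁻¹ := by rw [ih]; group
      _ = z ^ k * (g * x * g⁻¹) := by rw [c]; group
      _ = _ := by rw [e, mem_center_iff.1 hz x, pow_succ, mul_assoc]

end Cfsg.Agent.H12.VpZ
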